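import Mathlib

/-!
Block embeddings of special linear and symplectic groups, the Levi subgroup `SL_n` of `Sp_{2n}`, and the
automorphism given by the matrix of the form.
-/

set_option autoImplicit false
set_option linter.unusedSectionVars false

namespace CfsgLib.SpPres

open Matrix

variable {α β γ : Type*} [Fintype α] [DecidableEq α] [Fintype β] [DecidableEq β] [Fintype γ] [DecidableEq γ]
  {F : Type*} [Field F]

/-- A block diagonal matrix along a splitting of the index type. -/
def blk (e : α ⊕ β ≃ γ) (A : Matrix α α F) (B : Matrix β β F) : Matrix γ γ F :=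
  reindex e e (fromBlocks A 0 0 B)

variable (e : α ⊕ β ≃ γ)

theorem blk_mul (A A' : Matrix α α F) (B B' : Matrix β β F) :
    blk e A B * blk e A' B' = blk e (A * A') (B * B') := by
  simp [blk, fromBlocks_multiply]

theorem blk_transpose (A : Matrix α α F) (B : Matrix β β F) : (blk e A B)ᵀ = blk e Aᵀ Bᵀ := by
  simp [blk, fromBlocks_transpose]

theorem blk_one : blk e (1 : Matrix α α F) (1 : Matrix β β F) = 1 := by simp [blk]

theorem blk_zero : blk e (0 : Matrix α α F) (0 : Matrix β β F) = 0 := by simp [blk]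

theorem blk_add (A A' : Matrix α α F) (B B' : Matrix β β F) :
    blk e A B + blk e A' B' = blk e (A + A') (B + B') := by
  rw [blk, blk, blk, ← fromBlocks_add_fromBlocks_zero]
  · rfl
where
  fromBlocks_add_fromBlocks_zero : reindex e e (fromBlocks A 0 0 B + fromBlocks A' 0 0 B') =
      reindex e e (fromBlocks (A + A') 0 0 (B + B')) := by rw [fromBlocks_add, add_zero, add_zero]

theorem blk_neg (A : Matrix α α F) (B : Matrix β β F) : -blk e A B = blk e (-A) (-B) := by
  ext i j
  obtain ⟨i, rfl⟩ := e.surjective i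
  obtain ⟨j, rfl⟩ := e.surjective j
  rcases i with i | i <;> rcases j with j | j <;> simp [blk]

theorem blk_apply (A : Matrix α α F) (B : Matrix β β F) (i j : α ⊕ β) :
    blk e A B (e i) (e j) = fromBlocks A 0 0 B i j := by simp [blk]

theorem blk_single (i j : α) (t : F) : blk e (single i j t) (0 : Matrix β β F) = single (e (.inl i)) (e (.inl j)) t := by
  ext a b
  obtain ⟨a, rfl⟩ := e.surjective a
  obtain ⟨b, rfl⟩ := e.surjective b
  rw [blk_apply]
  rcases a with a | a <;> rcases b with b | b <;> simp [single_apply, e.injective.eq_iff]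

/-- A special linear group embedded along a splitting. -/
def embSL : SpecialLinearGroup α F →* SpecialLinearGroup γ F where
  toFun A := ⟨blk e A.1 1, by
    rw [blk, det_reindex_self, det_fromBlocks_zero₁₂, det_one, mul_one]; exact A.2⟩
  map_one' := Subtype.ext (blk_one e)
  map_mul' A B := Subtype.ext (by
    show blk e (A.1 * B.1) 1 = blk e A.1 1 * blk e B.1 1
    rw [blk_mul, mul_one])

theorem coe_embSL (A : SpecialLinearGroup α F) : (embSL e A).1 = blk e A.1 1 := rfl

theorem embSL_transvection {i j : α} (h : i ≠ j) (t : F) :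
    embSL e (SpecialLinearGroup.transvection h t) =
      SpecialLinearGroup.transvection (fun he => h (Sum.inl_injective (e.injective he)) :
        e (.inl i) ≠ e (.inl j)) t := by
  refine Subtype.ext ?_
  show blk e (transvection i j t) 1 = transvection (e (.inl i)) (e (.inl j)) t
  have hb := blk_add e (1 : Matrix α α F) (single i j t) (1 : Matrix β β F) 0
  rw [blk_one, blk_single, add_zero] at hb
  exact hb.symm

/-- The Levi subgroup. -/
def leviM (A : SpecialLinearGroup γ F) : Matrix (γ ⊕ γ) (γ ⊕ γ) F :=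
  fromBlocks A.1 0 0 ((A⁻¹).1)ᵀ

/-- A matrix of the upper unipotent radical. -/
def upperM (S : Matrix γ γ F) : Matrix (γ ⊕ γ) (γ ⊕ γ) F := fromBlocks 1 S 0 1

/-- A matrix of the lower unipotent radical. -/
def lowerM (S : Matrix γ γ F) : Matrix (γ ⊕ γ) (γ ⊕ γ) F := fromBlocks 1 0 S 1

theorem upperM_mul (S T : Matrix γ γ F) : upperM S * upperM T = upperM (T + S) := by
  simp [upperM, fromBlocks_multiply]

theorem lowerM_mul (S T : Matrix γ γ F) : lowerM S * lowerM T = lowerM (S + T) := by
  simp [lowerM, fromBlocks_multiply]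

theorem leviM_mem (A : SpecialLinearGroup γ F) : leviM A ∈ symplecticGroup γ F := by
  have h : A.1 * (A⁻¹).1 = 1 := congrArg Subtype.val (mul_inv_cancel A)
  rw [SymplecticGroup.mem_iff, J, leviM, fromBlocks_transpose, fromBlocks_multiply, fromBlocks_multiply]
  have h' : ((A⁻¹).1)ᵀ * A.1ᵀ = 1 := by rw [← transpose_mul, h, transpose_one]
  generalize (A⁻¹).1 = B at h h' ⊢
  congr 1 <;> simp [h, h']

/-- The Levi subgroup as a homomorphism. -/
def levi : SpecialLinearGroup γ F →* symplecticGroup γ F where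
  toFun A := ⟨leviM A, leviM_mem A⟩
  map_one' := Subtype.ext (by simp [leviM])
  map_mul' A B := Subtype.ext (by
    show leviM (A * B) = leviM A * leviM B
    have e : ((A * B)⁻¹).1 = (B⁻¹).1 * (A⁻¹).1 := by rw [_root_.mul_inv_rev]; rfl
    rw [leviM, leviM, leviM, fromBlocks_multiply, e, transpose_mul]
    show fromBlocks (A.1 * B.1) _ _ _ = _
    simp)

theorem coe_levi (A : SpecialLinearGroup γ F) : (levi A).1 = leviM A := rfl

theorem levi_conj_upper {g : symplecticGroup γ F} (A : SpecialLinearGroup γ F) {S : Matrix γ γ F}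
    (h : g.1 = upperM S) : (levi A * g * (levi A)⁻¹).1 = upperM (A.1 * S * A.1ᵀ) := by
  have e1 : A.1 * (A⁻¹).1 = 1 := congrArg Subtype.val (mul_inv_cancel A)
  have e2 : ((A⁻¹).1)ᵀ * A.1ᵀ = 1 := by rw [← transpose_mul, e1, transpose_one]
  rw [← map_inv]
  show leviM A * g.1 * leviM A⁻¹ = _
  rw [h, leviM, leviM, inv_inv, upperM, upperM, fromBlocks_multiply, fromBlocks_multiply]
  generalize (A⁻¹).1 = B at e1 e2 ⊢
  simp [e1, e2]

/-- The block embedding of symplectic matrices. -/
def spBlk (M : Matrix (α ⊕ α) (α ⊕ α) F) : Matrix (γ ⊕ γ) (γ ⊕ γ) F :=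
  fromBlocks (blk e M.toBlocks₁₁ 1) (blk e M.toBlocks₁₂ 0) (blk e M.toBlocks₂₁ 0) (blk e M.toBlocks₂₂ 1)

theorem spBlk_mem {M : Matrix (α ⊕ α) (α ⊕ α) F} (h : M ∈ symplecticGroup α F) :
    spBlk e M ∈ symplecticGroup γ F := by
  rw [SymplecticGroup.mem_iff, J] at h ⊢
  rw [← fromBlocks_toBlocks M, fromBlocks_transpose, fromBlocks_multiply, fromBlocks_multiply,
    fromBlocks_inj] at h
  simp only [Matrix.mul_zero, Matrix.mul_neg, Matrix.mul_one, zero_add, add_zero, Matrix.neg_mul] at h
  obtain ⟨h1, h2, h3, h4⟩ := h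
  rw [spBlk, fromBlocks_transpose, fromBlocks_multiply, fromBlocks_multiply]
  simp only [Matrix.mul_zero, Matrix.mul_neg, Matrix.mul_one, zero_add, add_zero, Matrix.neg_mul,
    blk_transpose, blk_mul, blk_neg, blk_add, h1, h2, h3, h4, transpose_one, transpose_zero, mul_one,
    one_mul, zero_mul, neg_zero, blk_zero, blk_one]
  rw [← blk_neg, blk_one]

theorem spBlk_mul (M N : Matrix (α ⊕ α) (α ⊕ α) F) : spBlk e (M * N) = spBlk e M * spBlk e N := by
  rw [spBlk, spBlk, spBlk, fromBlocks_multiply]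
  conv_lhs => rw [← fromBlocks_toBlocks M, ← fromBlocks_toBlocks N, fromBlocks_multiply]
  simp only [toBlocks_fromBlocks₁₁, toBlocks_fromBlocks₁₂, toBlocks_fromBlocks₂₁, toBlocks_fromBlocks₂₂,
    blk_mul, blk_add, Matrix.mul_one, Matrix.one_mul, Matrix.mul_zero, Matrix.zero_mul, add_zero, zero_add]

theorem spBlk_one : spBlk e (1 : Matrix (α ⊕ α) (α ⊕ α) F) = 1 := by
  have h : (1 : Matrix (α ⊕ α) (α ⊕ α) F) = fromBlocks 1 0 0 1 := fromBlocks_one.symm
  rw [spBlk, h, toBlocks_fromBlocks₁₁, toBlocks_fromBlocks₁₂, toBlocks_fromBlocks₂₁, toBlocks_fromBlocks₂₂,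
    blk_one, blk_zero, fromBlocks_one]

/-- A symplectic group embedded along a splitting. -/
def embSp : symplecticGroup α F →* symplecticGroup γ F where
  toFun M := ⟨spBlk e M.1, spBlk_mem e M.2⟩
  map_one' := Subtype.ext (spBlk_one e)
  map_mul' M N := Subtype.ext (spBlk_mul e M.1 N.1)

theorem coe_embSp (M : symplecticGroup α F) : (embSp e M).1 = spBlk e M.1 := rfl

theorem embSp_injective : Function.Injective (embSp (F := F) e) := by
  intro M N h
  have h' : spBlk e M.1 = spBlk e N.1 := congrArg Subtype.val h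
  refine Subtype.ext ?_
  have key : ∀ (i j : α ⊕ α), M.1 i j = spBlk e M.1 (i.map (e ∘ Sum.inl) (e ∘ Sum.inl))
      (j.map (e ∘ Sum.inl) (e ∘ Sum.inl)) ∧ N.1 i j = spBlk e N.1 (i.map (e ∘ Sum.inl) (e ∘ Sum.inl))
      (j.map (e ∘ Sum.inl) (e ∘ Sum.inl)) := fun i j => by
    rcases i with i | i <;> rcases j with j | j <;> simp [spBlk, blk, toBlocks₁₁, toBlocks₁₂, toBlocks₂₁, toBlocks₂₂]
  ext i j
  rw [(key i j).1, (key i j).2, h']

theorem embSp_levi (A : SpecialLinearGroup α F) : embSp e (levi A) = levi (embSL e A) := by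
  refine Subtype.ext ?_
  show spBlk e (leviM A) = leviM (embSL e A)
  rw [leviM, leviM, spBlk, ← map_inv, coe_embSL, coe_embSL]
  simp [blk_transpose, blk_zero]

theorem embSp_upper (M : symplecticGroup α F) {S : Matrix α α F} (h : M.1 = upperM S) :
    (embSp e M).1 = upperM (blk e S 0) := by
  rw [coe_embSp, h, upperM, upperM, spBlk]
  simp [blk_one, blk_zero]

theorem embSp_lower (M : symplecticGroup α F) {S : Matrix α α F} (h : M.1 = lowerM S) :
    (embSp e M).1 = lowerM (blk e S 0) := by
  rw [coe_embSp, h, lowerM, lowerM, spBlk]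
  simp [blk_one, blk_zero]

/-- The transpose inverse. -/
def invT : SpecialLinearGroup γ F →* SpecialLinearGroup γ F where
  toFun A := ⟨((A⁻¹).1)ᵀ, by rw [det_transpose]; exact (A⁻¹).2⟩
  map_one' := Subtype.ext (by simp)
  map_mul' A B := Subtype.ext (by
    show (((A * B)⁻¹).1)ᵀ = ((A⁻¹).1)ᵀ * ((B⁻¹).1)ᵀ
    rw [_root_.mul_inv_rev]
    show ((B⁻¹).1 * (A⁻¹).1)ᵀ = _
    rw [transpose_mul])

theorem coe_invT (A : SpecialLinearGroup γ F) : (invT A).1 = ((A⁻¹).1)ᵀ := rfl

theorem invT_invT (A : SpecialLinearGroup γ F) : invT (invT A) = A := by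
  refine Subtype.ext ?_
  rw [coe_invT, ← map_inv, coe_invT, inv_inv, transpose_transpose]

theorem invT_transvection {i j : γ} (h : i ≠ j) (t : F) :
    invT (SpecialLinearGroup.transvection h t) = SpecialLinearGroup.transvection h.symm (-t) := by
  refine Subtype.ext ?_
  rw [coe_invT, SpecialLinearGroup.transvection_inv]
  show (transvection i j (-t))ᵀ = transvection j i (-t)
  simp [transvection, transpose_single]

/-- Conjugation by the matrix of the form. -/
def conjJ : symplecticGroup γ F →* symplecticGroup γ F :=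
  (MulAut.conj (SymplecticGroup.symJ γ F)).toMonoidHom

theorem coe_conjJ (g : symplecticGroup γ F) {a b c d : Matrix γ γ F} (h : g.1 = fromBlocks a b c d) :
    (conjJ g).1 = fromBlocks d (-c) (-b) a := by
  show J γ F * g.1 * (SymplecticGroup.symJ γ F)⁻¹.1 = _
  have hinv : ((SymplecticGroup.symJ γ F)⁻¹).1 = -J γ F := by
    rw [SymplecticGroup.coe_inv, SymplecticGroup.coe_J, J_transpose, neg_mul_neg, J_squared, neg_one_mul]
  rw [hinv, h, J, fromBlocks_neg, fromBlocks_multiply, fromBlocks_multiply]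
  simp

theorem conjJ_levi (A : SpecialLinearGroup γ F) : conjJ (levi A) = levi (invT A) := by
  refine Subtype.ext ?_
  rw [coe_conjJ (levi A) rfl, coe_levi, leviM, ← map_inv, coe_invT, coe_invT, inv_inv, transpose_transpose]
  simp

theorem conjJ_upper {g : symplecticGroup γ F} {S : Matrix γ γ F} (h : g.1 = upperM S) :
    (conjJ g).1 = lowerM (-S) := by
  rw [coe_conjJ g h, lowerM]
  simp

theorem conjJ_lower {g : symplecticGroup γ F} {S : Matrix γ γ F} (h : g.1 = lowerM S) :
    (conjJ g).1 = upperM (-S) := by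
  rw [coe_conjJ g h, upperM]
  simp

theorem conjJ_conjJ (g : symplecticGroup γ F) : conjJ (conjJ g) = g := by
  refine Subtype.ext ?_
  rw [coe_conjJ (conjJ g) (coe_conjJ g (fromBlocks_toBlocks g.1).symm)]
  simp [fromBlocks_toBlocks]

end CfsgLib.SpPres
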