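import Cfsg.Agent.Lib.SpPres.StabFour
import Cfsg.Agent.Lib.ClassicalLinear.SympBasic

/-!
The group is covered by the cosets of the stabiliser of a point.
-/

set_option autoImplicit false
set_option linter.unusedSectionVars false

namespace CfsgLib.SpPres

open Matrix CfsgLib.SL2Pres CfsgLib.SL3Pres CfsgLib.Sp4Pres
open scoped MatrixGroups commutatorElement

variable {F : Type*} [Field F] [Finite F]

theorem embA_wS_conj (z : SL(2, F)) :
    (embA wS)⁻¹ * embB z * embA wS = embA wS * embB z * (embA wS)⁻¹ := by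
  have h := embA_wS_sq_comm z
  calc (embA wS)⁻¹ * embB z * embA wS
      = (embA wS)⁻¹ * (embB z * (embA wS * embA wS)) * (embA wS)⁻¹ := by group
    _ = (embA wS)⁻¹ * (embA wS * embA wS * embB z) * (embA wS)⁻¹ := by rw [h]
    _ = _ := by group

theorem wS_conj_yS (t : F) : (wS : SL(2, F))⁻¹ * yS t * wS = xS (-t) := by
  apply Matrix.SpecialLinearGroup.ext; intro i j
  rw [Matrix.SpecialLinearGroup.coe_mul, Matrix.SpecialLinearGroup.coe_mul, Matrix.SpecialLinearGroup.coe_inv,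
    Matrix.adjugate_fin_two]
  fin_cases i <;> fin_cases j <;> simp [coe_wS, coe_xS, coe_yS, Matrix.mul_apply, Fin.sum_univ_two]

theorem lowerM_inj {γ : Type*} [Fintype γ] [DecidableEq γ] {M N : Matrix γ γ F} (h : lowerM M = lowerM N) :
    M = N := congrArg toBlocks₂₁ h

theorem levi_conj_lower {γ : Type*} [Fintype γ] [DecidableEq γ] {g : symplecticGroup γ F}
    (A : SpecialLinearGroup γ F) {S : Matrix γ γ F} (h : g.1 = lowerM S) :
    (levi A * g * (levi A)⁻¹).1 = lowerM ((invT A).1 * S * (A⁻¹).1) := by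
  have e1 : A.1 * (A⁻¹).1 = 1 := congrArg Subtype.val (mul_inv_cancel A)
  have e2 : ((A⁻¹).1)ᵀ * A.1ᵀ = 1 := by rw [← transpose_mul, e1, transpose_one]
  rw [← map_inv]
  show leviM A * g.1 * leviM A⁻¹ = _
  rw [h, leviM, leviM, inv_inv, lowerM, lowerM, fromBlocks_multiply, fromBlocks_multiply, coe_invT]
  generalize (A⁻¹).1 = B at e1 e2 ⊢
  simp [e1, e2]

theorem leviM_mulVec {γ : Type*} [Fintype γ] [DecidableEq γ] (A : SpecialLinearGroup γ F) (x y : γ → F) :
    leviM A *ᵥ Sum.elim x y = Sum.elim (A.1 *ᵥ x) ((invT A).1 *ᵥ y) := by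
  rw [leviM, fromBlocks_mulVec, coe_invT]; simp

theorem lowerM_mulVec {γ : Type*} [Fintype γ] [DecidableEq γ] (M : Matrix γ γ F) (x y : γ → F) :
    lowerM M *ᵥ Sum.elim x y = Sum.elim x (M *ᵥ x + y) := by
  rw [lowerM, fromBlocks_mulVec]; simp

theorem upperM_mulVec {γ : Type*} [Fintype γ] [DecidableEq γ] (M : Matrix γ γ F) (x y : γ → F) :
    upperM M *ᵥ Sum.elim x y = Sum.elim (x + M *ᵥ y) y := by
  rw [upperM, fromBlocks_mulVec]; simp

theorem shift_mulVec {k : ℕ} (Y : SL(k + 2, F)) (v : Fin (k + 3) → F) :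
    ((embSL (shiftEquiv k) Y).1 *ᵥ v) 0 = v 0 ∧
      ∀ a : Fin (k + 2), ((embSL (shiftEquiv k) Y).1 *ᵥ v) a.succ = (Y.1 *ᵥ fun b => v b.succ) a := by
  have h : ∀ c : Fin (k + 2) ⊕ Fin 1, ((embSL (shiftEquiv k) Y).1 *ᵥ v) (shiftEquiv k c) =
      ∑ d : Fin (k + 2) ⊕ Fin 1, fromBlocks Y.1 0 0 1 c d * v (shiftEquiv k d) := fun c => by
    rw [Matrix.mulVec, dotProduct, ← (shiftEquiv k).sum_comp]
    exact Finset.sum_congr rfl fun d _ => by rw [coe_embSL, blk_apply]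
  refine ⟨?_, fun a => ?_⟩
  · have h0 := h (.inr 0)
    simpa [shiftEquiv_inr, shiftEquiv_inl, Fintype.sum_sum_type] using h0
  · have ha := h (.inl a)
    simpa [shiftEquiv_inr, shiftEquiv_inl, Fintype.sum_sum_type, Matrix.mulVec, dotProduct] using ha

theorem e10_col (k : ℕ) (B : SL(2, F)) :
    (embSL (e10 k) B).1 *ᵥ Pi.single 0 1 = fun a => if a = 0 then B.1 1 1 else if a = 1 then B.1 0 1 else 0 := by
  ext a
  obtain ⟨a, rfl⟩ := (e10 k).surjective a
  rw [mulVec_single_one, col_apply, ← e10_one k, ← e10_zero k, coe_embSL, blk_apply]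
  rcases a with a | a
  · fin_cases a <;> simp [(e10 k).injective.eq_iff]
  · simp [(e10 k).injective.eq_iff]

theorem exists_shift_reduce {k : ℕ} {v : Fin (k + 3) → F} (h : ¬ ∀ a : Fin (k + 2), v a.succ = 0) :
    ∃ Y : SL(k + 2, F), ((embSL (shiftEquiv k) Y).1 *ᵥ v) =
      fun a => if a = 0 then v 0 else if a = 1 then 1 else 0 := by
  obtain ⟨Y, hY⟩ := InvCentralizers.SLParabolic.exists_sl_mulVec (ι := Fin (k + 2)) (by simp)
    (c := fun b => v b.succ) (c' := Pi.single 0 1) (fun e => h fun a => congrFun e a) (by simp)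
  refine ⟨Y, funext fun a => ?_⟩
  obtain ⟨h0, h1⟩ := shift_mulVec Y v
  refine Fin.cases ?_ (fun a => ?_) a
  · rw [if_pos rfl]; exact h0
  · rw [h1, hY, if_neg (Fin.succ_ne_zero a), Pi.single_apply]
    by_cases ha : a = 0
    · rw [if_pos ha, if_pos (show a.succ = 1 by rw [ha]; rfl)]
    · rw [if_neg ha, if_neg (show a.succ ≠ 1 from fun e => ha (Fin.succ_injective _ e))]

theorem inv_mul_mulVec {γ : Type*} [Fintype γ] [DecidableEq γ] {A B : SpecialLinearGroup γ F} {v w : γ → F}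
    (hA : A.1 *ᵥ v = w) (hB : B.1 *ᵥ v = w) : (A⁻¹ * B).1 *ᵥ v = v := by
  show ((A⁻¹).1 * B.1) *ᵥ v = v
  rw [← mulVec_mulVec, hB, ← hA, mulVec_mulVec,
    show (A⁻¹).1 * A.1 = 1 from congrArg Subtype.val (inv_mul_cancel A), one_mulVec]

namespace Setting

variable {k : ℕ} {G : Type*} [Group G] (S : Setting F (k + 1) G)

theorem mono_one : (mono 1 : SL(k + 3, F)) = 1 := Subtype.ext (by
  ext a b
  rw [mono_apply]
  simp [monoSign, Matrix.one_apply])

theorem frame_one (g : symplecticGroup (Fin 2) F) : S.frame 1 g = S.φ4 g := by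
  show S.cj (mono 1) _ = _
  rw [mono_one, map_one]; rfl

theorem φ4_embA (A : SL(2, F)) : S.φ4 (embA A) = S.ψ (embSL (e10 (k + 1)) A) := by
  rw [embA_eq_levi, S.compat]

theorem φ4_longA (z : SL(2, F)) : S.φ4 (embA wS * embB z * (embA wS)⁻¹) = S.long 1 z := by
  rw [← frame_one, frame_longA]; rfl

/-- The covered elements. -/
def cover : Set G :=
  {g | (∃ u ∈ S.dual.upos, ∃ A, ∃ p ∈ S.par, g = u * S.ψ A * p) ∨
    ∃ A, ∃ p ∈ S.par, g = S.ψ A * S.long 0 wS * p}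

theorem cover_mul {g p : G} (hg : g ∈ S.cover) (hp : p ∈ S.par) : g * p ∈ S.cover := by
  rcases hg with ⟨u, hu, A, q, hq, rfl⟩ | ⟨A, q, hq, rfl⟩
  · exact Or.inl ⟨u, hu, A, q * p, mul_mem hq hp, by group⟩
  · exact Or.inr ⟨A, q * p, mul_mem hq hp, by group⟩

theorem conj_dual_upos (B : SL(k + 3, F)) {u : G} (hu : u ∈ S.dual.upos) :
    S.ψ B * u * (S.ψ B)⁻¹ ∈ S.dual.upos := by
  have h := S.dual.cj_upos (invT B) hu
  change S.ψ (invT (invT B)) * u * (S.ψ (invT (invT B)))⁻¹ ∈ S.dual.upos at h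
  rwa [invT_invT] at h

theorem ψ_mul_cover (B : SL(k + 3, F)) {g : G} (hg : g ∈ S.cover) : S.ψ B * g ∈ S.cover := by
  rcases hg with ⟨u, hu, A, q, hq, rfl⟩ | ⟨A, q, hq, rfl⟩
  · exact Or.inl ⟨_, S.conj_dual_upos B hu, B * A, q, hq, by rw [map_mul]; group⟩
  · exact Or.inr ⟨B * A, q, hq, by rw [map_mul]; group⟩

theorem w_conj_dual_upos {u : G} (hu : u ∈ S.dual.upos) :
    (S.long 0 wS)⁻¹ * u * S.long 0 wS ∈ S.par := by
  suffices h : S.dual.upos ≤ S.par.comap (MulAut.conj (S.long 0 wS)⁻¹).toMonoidHom by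
    have h' := h hu
    change (S.long 0 wS)⁻¹ * u * (S.long 0 wS)⁻¹⁻¹ ∈ S.par at h'
    rwa [inv_inv] at h'
  refine (Subgroup.closure_le _).2 fun g hg => ?_
  show (S.long 0 wS)⁻¹ * g * (S.long 0 wS)⁻¹⁻¹ ∈ S.par
  rw [inv_inv]
  have key : ∀ g ∈ S.sub1, (S.long 0 wS)⁻¹ * g * S.long 0 wS ∈ S.par := fun g hg => by
    rw [mul_assoc, ← (S.long0_sub1 wS hg).eq, inv_mul_cancel_left]
    exact S.sub1_le_par hg
  have h0 : ∀ j : Fin (k + 3), j ≠ 0 → ∀ t, (S.long 0 wS)⁻¹ * S.dual.s 0 j t * S.long 0 wS ∈ S.par := by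
    intro j hj t
    obtain ⟨σ, e0, e1⟩ := exists_perm_pair hj.symm
    have hs : S.dual.s 0 j t = S.long 0 wS * S.x 0 j (-t) * (S.long 0 wS)⁻¹ := by
      have e := S.dual.frame_eAB σ t
      rw [e0, e1, ← conj_ab, map_mul, map_mul, map_inv, frame_embB, frame_xA, e0, e1, dual_long, dual_x,
        invT_wS] at e
      exact e.symm
    rw [hs]
    have e : (S.long 0 wS)⁻¹ * (S.long 0 wS * S.x 0 j (-t) * (S.long 0 wS)⁻¹) * S.long 0 wS = S.x 0 j (-t) := by
      group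
    rw [e]; exact S.rad_le_par (S.x0_mem_rad j (-t))
  rcases hg with ⟨i, c, -, rfl⟩ | ⟨i, j, t, -, -, hij, rfl⟩
  · rcases eq_or_ne i 0 with rfl | hi
    · show (S.long 0 wS)⁻¹ * S.dual.long 0 (xS c) * S.long 0 wS ∈ S.par
      rw [dual_long, invT_xS, ← map_inv, ← map_mul, ← map_mul, wS_conj_yS, neg_neg]
      exact S.rad_le_par (S.radB_le_rad (S.l0_mem_radB c))
    · exact key _ (S.dual_upos'_le_sub1 (Subgroup.subset_closure (Or.inl ⟨i, c, hi, rfl⟩)))
  · rcases eq_or_ne i 0 with rfl | hi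
    · exact h0 j hij.symm t
    rcases eq_or_ne j 0 with rfl | hj
    · rw [S.dual.s_symm hij]; exact h0 i hij t
    · exact key _ (S.dual_upos'_le_sub1 (Subgroup.subset_closure (Or.inr ⟨i, j, t, hi, hj, hij, rfl⟩)))

theorem dual_mul_cover {u' g : G} (hu' : u' ∈ S.dual.upos) (hg : g ∈ S.cover) : u' * g ∈ S.cover := by
  rcases hg with ⟨u, hu, A, q, hq, rfl⟩ | ⟨A, q, hq, rfl⟩
  · exact Or.inl ⟨u' * u, mul_mem hu' hu, A, q, hq, by group⟩
  · refine Or.inr ⟨A, (S.long 0 wS)⁻¹ * ((S.ψ A⁻¹) * u' * (S.ψ A⁻¹)⁻¹) * S.long 0 wS * q,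
      mul_mem (S.w_conj_dual_upos (S.conj_dual_upos A⁻¹ hu')) hq, ?_⟩
    rw [map_inv]; group

theorem φ4_mem_par_of_fix {h : symplecticGroup (Fin 2) F}
    (hh : h.1 *ᵥ Pi.single (Sum.inl 1) 1 = Pi.single (Sum.inl 1) 1) : S.φ4 h ∈ S.par := by
  obtain ⟨c, t, y, z, rfl⟩ := exists_stab_decomp hh
  rw [← frame_one, map_mul, map_mul, map_mul, frame_embB, frame_eAB, frame_yA, frame_longA]
  simp only [Equiv.Perm.one_apply]
  exact mul_mem (mul_mem (mul_mem (S.rad_le_par (S.radB_le_rad (S.l0_mem_radB c)))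
    (S.rad_le_par (S.radB_le_rad (S.s0_mem_radB (by simp) t)))) (S.rad_le_par (S.x0_mem_rad _ y)))
    (S.sub1_le_par (S.long_mem_sub1 (by simp) z))

theorem φ4_mem_cover (h : symplecticGroup (Fin 2) F) : S.φ4 h ∈ S.cover := by
  have main : ∀ h0 : symplecticGroup (Fin 2) F,
      h.1 *ᵥ Pi.single (Sum.inl 1) 1 = h0.1 *ᵥ Pi.single (Sum.inl 1) 1 → S.φ4 h0 ∈ S.cover →
      S.φ4 h ∈ S.cover := by
    intro h0 e hc
    have hp := S.φ4_mem_par_of_fix (h := h0⁻¹ * h) (by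
      show ((h0⁻¹).1 * h.1) *ᵥ _ = _
      rw [← mulVec_mulVec, e, mulVec_mulVec,
        show (h0⁻¹).1 * h0.1 = 1 from congrArg Subtype.val (inv_mul_cancel h0), one_mulVec])
    rw [map_mul, map_inv] at hp
    simpa using S.cover_mul hc hp
  rcases exists_coset_rep h with ⟨a, b, c, A, e⟩ | ⟨A, e⟩
  · refine main _ e (Or.inl ⟨S.dual.frame 1 (embB (xS a) * eAB b * eC c), ?_, embSL (e10 (k + 1)) A, 1, one_mem _, ?_⟩)
    · rw [map_mul, map_mul, frame_embB, frame_eAB, frame_eC]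
      exact mul_mem (mul_mem (Subgroup.subset_closure (Or.inl ⟨_, a, trivial, rfl⟩))
        (Subgroup.subset_closure (Or.inr ⟨_, _, b, trivial, trivial, by simp, rfl⟩)))
        (Subgroup.subset_closure (Or.inl ⟨_, c, trivial, rfl⟩))
    · rw [frame_one, map_mul, mul_one, S.compat]; rfl
  · refine main _ e (Or.inr ⟨embSL (e10 (k + 1)) A, 1, one_mem _, ?_⟩)
    rw [map_mul, mul_one, S.compat, long_zero]

theorem dual_π_lower {u : G} (hu : u ∈ S.dual.upos) : ∃ N, (S.π u).1 = lowerM N ∧ Nᵀ = N := by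
  obtain ⟨M, hM, hs, -⟩ := S.dual.exists_π_upper (P := fun _ => True) hu
  refine ⟨-M, ?_, by rw [transpose_neg, hs]⟩
  rw [← conjJ_conjJ (S.π u)]
  exact conjJ_upper hM

theorem dual_upos'_le_par : S.dual.upos' ≤ S.par := S.dual_upos'_le_sub1.trans S.sub1_le_par

theorem dual_split {u : G} (hu : u ∈ S.dual.upos) {N : Matrix (Fin (k + 3)) (Fin (k + 3)) F}
    (hN : (S.π u).1 = lowerM N) :
    ∃ f, ∃ p ∈ S.par, u = S.dual.row0 f * p ∧ ∀ a : Fin (k + 3), a ≠ 0 → N a 0 = f a := by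
  obtain ⟨f, g', hg', e⟩ := S.dual.exists_row0_mul hu
  refine ⟨f, g', S.dual_upos'_le_par hg', e, fun a ha => ?_⟩
  obtain ⟨N', hN', -, hN0⟩ := S.dual.exists_π_upper (P := fun i => i ≠ 0) hg'
  obtain ⟨R, hR, -, hR0⟩ := S.dual.π_row0 f
  have h1 : (S.dual.π u).1 = upperM (N' + R) := by rw [e, map_mul, Submonoid.coe_mul, hR, hN', upperM_mul]
  have h2 : (S.dual.π u).1 = upperM (-N) := conjJ_lower hN
  have h3 : -N = N' + R := congrArg toBlocks₁₂ (h2.symm.trans h1)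
  have h4 := congrFun (congrFun h3 a) 0
  rw [Matrix.neg_apply, Matrix.add_apply, hN0 (fun h => h rfl) a, zero_add, hR0, if_neg ha, neg_inj] at h4
  exact h4

theorem row0_pair_mem {f : Fin (k + 3) → F} (hf : ∀ a, a ≠ 0 → a ≠ 1 → f a = 0) :
    S.dual.row0 f ∈ S.φ4.range := by
  refine list_prod_mem ?_
  simp only [List.mem_map]
  rintro _ ⟨j, -, rfl⟩
  rcases eq_or_ne j 0 with rfl | hj0
  · rw [g0, if_pos rfl]
    refine ⟨conjJ (embB (xS (f 0))), ?_⟩
    show S.dual.φ4 (embB (xS (f 0))) = S.dual.long 0 (xS (f 0))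
    rw [long_zero]
  rw [g0, if_neg hj0]
  rcases eq_or_ne j 1 with rfl | hj1
  · refine ⟨conjJ (eAB (f 1)), ?_⟩
    show S.dual.φ4 _ = _
    rw [← frame_one, frame_eAB]; rfl
  · rw [hf j hj0 hj1]
    have : S.dual.s 0 j 0 = 1 := by
      have h := S.dual.s_add hj0.symm 0 0
      rw [add_zero] at h
      exact left_eq_mul.1 h
    rw [this]; exact one_mem _

theorem row0_rest_comm {f : Fin (k + 3) → F} (h0 : f 0 = 0) (h1 : f 1 = 0) (z : SL(2, F)) (t : F) :
    Commute (S.dual.row0 f) (S.long 1 z * S.x 1 0 t) := by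
  suffices h : S.dual.row0 f ∈ Subgroup.centralizer {S.long 1 z, S.x 1 0 t} by
    rw [Subgroup.mem_centralizer_iff] at h
    exact Commute.mul_right (h _ (Set.mem_insert _ _)).symm (h _ (Set.mem_insert_of_mem _ rfl)).symm
  refine list_prod_mem ?_
  simp only [List.mem_map]
  rintro _ ⟨j, -, rfl⟩
  rcases eq_or_ne j 0 with rfl | hj0
  · rw [h0, show S.dual.g0 0 0 = 1 by
      have h := S.dual.g0_add 0 0 0
      rw [add_zero] at h
      exact left_eq_mul.1 h]
    exact one_mem _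
  rcases eq_or_ne j 1 with rfl | hj1
  · rw [h1, show S.dual.g0 1 0 = 1 by
      have h := S.dual.g0_add 1 0 0
      rw [add_zero] at h
      exact left_eq_mul.1 h]
    exact one_mem _
  rw [g0, if_neg hj0, Subgroup.mem_centralizer_iff]
  rintro g (rfl | rfl)
  · have h := S.dual.long_s (i := 1) (c := 0) (d := j) (by simp) hj1 (invT z) (f j)
    rw [dual_long, invT_invT] at h
    exact h.eq
  · have h := S.dual.x_s (a := 0) (b := 1) (c := 0) (d := j) hj0.symm (by simp) hj1.symm (-t) (f j)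
    rw [dual_x, neg_neg] at h
    exact h.eq

/-- A long root subgroup at `0` times a coset whose point is supported on few coordinates. -/
theorem long0_row0_mem (z : SL(2, F)) {u : G} (hu : u ∈ S.dual.upos) :
    S.long 0 z * u ∈ S.cover := by
  have small : ∀ {u : G}, u ∈ S.dual.upos → (∀ N, (S.π u).1 = lowerM N → ∀ a : Fin (k + 3),
      a ≠ 0 → a ≠ 1 → N a 0 = 0) → S.long 0 z * u ∈ S.cover := by
    intro u hu hsupp
    obtain ⟨N, hN, -⟩ := S.dual_π_lower hu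
    obtain ⟨f, p, hp, rfl, hf⟩ := S.dual_split hu hN
    obtain ⟨h, hh⟩ := S.row0_pair_mem (f := f) (fun a ha ha1 => (hf a ha).symm.trans (hsupp N hN a ha ha1))
    rw [← mul_assoc, ← hh, long_zero, ← map_mul]
    exact S.cover_mul (S.φ4_mem_cover _) hp
  obtain ⟨N, hN, -⟩ := S.dual_π_lower hu
  by_cases h : ∀ a : Fin (k + 2), N a.succ 0 = 0
  · refine small hu fun N' hN' a ha _ => ?_
    obtain ⟨a, rfl⟩ := Fin.exists_succ_eq.2 ha
    rw [lowerM_inj (hN'.symm.trans hN)]; exact h a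
  obtain ⟨Z, hZ⟩ := exists_shift_reduce (v := fun a => N a 0) h
  set B := embSL (shiftEquiv k) (invT Z) with hBdef
  have key : S.long 0 z * (S.ψ B * u * (S.ψ B)⁻¹) ∈ S.cover := by
    refine small (S.conj_dual_upos B hu) fun N' hN' a ha ha1 => ?_
    have e : N' = (invT B).1 * N * (B⁻¹).1 := by
      refine lowerM_inj (hN'.symm.trans ?_)
      rw [map_mul, map_mul, map_inv, S.π_ψ]
      exact levi_conj_lower B hN
    have hB0 : ∀ b, (B⁻¹).1 b 0 = (Pi.single 0 1 : Fin (k + 3) → F) b := fun b => by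
      rw [hBdef, ← map_inv]
      obtain ⟨b, rfl⟩ := (shiftEquiv k).surjective b
      rw [show (0 : Fin (k + 3)) = shiftEquiv k (Sum.inr 0) from (shiftEquiv_inr 0).symm, coe_embSL, blk_apply]
      rcases b with b | b
      · simp [(shiftEquiv k).injective.eq_iff]
      · simp [Subsingleton.elim b 0]
    have hT : invT B = embSL (shiftEquiv k) Z := by rw [hBdef, invT_embSL, invT_invT]
    rw [e, hT, Matrix.mul_assoc]
    show ((embSL (shiftEquiv k) Z).1 * (N * (B⁻¹).1)) a 0 = 0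
    have hc : (fun b => (N * (B⁻¹).1) b 0) = fun b => N b 0 := funext fun b => by
      rw [Matrix.mul_apply, Finset.sum_eq_single 0 (fun c _ hc => by simp [hB0, hc]) (by simp), hB0,
        Pi.single_eq_same, mul_one]
    have hz := congrFun hZ a
    rw [if_neg ha, if_neg ha1, ← hc] at hz
    exact hz
  have hc : Commute (S.long 0 z) (S.ψ B) := by rw [long_zero]; exact (S.comm_shift _ z).symm
  have hB : S.ψ B ∈ S.par := S.sub1_le_par (S.shift_mem _)
  have := S.cover_mul (S.ψ_mul_cover B⁻¹ key) hB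
  convert this using 1
  rw [map_inv]
  calc S.long 0 z * u = (S.ψ B)⁻¹ * (S.ψ B * S.long 0 z) * u := by group
    _ = (S.ψ B)⁻¹ * (S.long 0 z * S.ψ B) * u := by rw [hc.eq]
    _ = _ := by group

theorem long0_first (z : SL(2, F)) {u : G} (hu : u ∈ S.dual.upos) (A : SL(k + 3, F)) :
    S.long 0 z * (u * S.ψ A) ∈ S.cover := by
  set a := A.1 *ᵥ Pi.single 0 1 with ha
  by_cases h : ∀ b : Fin (k + 2), a b.succ = 0
  · have hp : S.ψ A ∈ S.par := S.ψ_mem_par (c := a 0) (by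
      rw [← ha]
      funext b
      refine Fin.cases ?_ (fun b => ?_) b
      · simp
      · simp [h b, Fin.succ_ne_zero])
    rw [← mul_assoc]
    exact S.cover_mul (S.long0_row0_mem z hu) hp
  obtain ⟨Y, hY⟩ := exists_shift_reduce h
  set B := embSL (shiftEquiv k) Y with hBdef
  set W := embSL (e10 (k + 1)) (yS (a 0) * wS) with hWdef
  have hW : W.1 *ᵥ Pi.single 0 1 = fun b => if b = 0 then a 0 else if b = 1 then 1 else 0 := by
    rw [hWdef, e10_col]
    simp [coe_yS, coe_wS, Matrix.SpecialLinearGroup.coe_mul, Matrix.mul_apply, Fin.sum_univ_two]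
  have hp : S.ψ (W⁻¹ * (B * A)) ∈ S.par := S.ψ_mem_par (c := 1) (by
    rw [one_smul]
    refine inv_mul_mulVec hW ?_
    show (B.1 * A.1) *ᵥ _ = _
    rw [← mulVec_mulVec, ← ha, hY])
  set n := S.ψ W⁻¹ * (S.ψ B * u * (S.ψ B)⁻¹) * (S.ψ W⁻¹)⁻¹ with hn
  have hnmem : n ∈ S.dual.upos := S.conj_dual_upos _ (S.conj_dual_upos _ hu)
  obtain ⟨N, hN, -⟩ := S.dual_π_lower hnmem
  obtain ⟨f, p, hpp, hf, -⟩ := S.dual_split hnmem hN
  set f01 : Fin (k + 3) → F := fun b => if b = 0 ∨ b = 1 then f b else 0 with hf01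
  set fr : Fin (k + 3) → F := fun b => if b = 0 ∨ b = 1 then 0 else f b with hfr
  have hfsum : S.dual.row0 f = S.dual.row0 fr * S.dual.row0 f01 := by
    rw [← row0_add]
    congr 1
    funext b
    simp only [hf01, hfr, Pi.add_apply]
    split <;> simp
  obtain ⟨g01, hg01⟩ := S.row0_pair_mem (f := f01) (fun b hb hb1 => by simp [hf01, hb, hb1])
  set R := S.dual.row0 fr with hR
  have hRmem : R ∈ S.dual.upos := S.dual.row0_mem _
  set h4 := embB z * embA (yS (a 0) * wS) with hh4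
  have hψW : S.ψ W = S.φ4 (embA (yS (a 0) * wS)) := (S.φ4_embA _).symm
  have e2 : S.x 1 0 (-(a 0)) = S.φ4 (embA (xS (-(a 0)))) := by rw [← frame_one, frame_xA]; rfl
  have hsplit : S.long 0 z * S.ψ W =
      S.ψ (embSL (e10 (k + 1)) wS) * (S.long 1 z * S.x 1 0 (-(a 0))) := by
    rw [← φ4_longA, long_zero, hψW, ← φ4_embA, e2, ← map_mul, ← map_mul, ← map_mul, ← embA_wS_conj,
      ← wS_conj_yS, map_mul embA, map_mul embA, map_mul embA, map_inv embA]
    congr 1
    group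
  have hcomm : S.long 0 z * S.ψ W * R = S.ψ (embSL (e10 (k + 1)) wS) * R *
      (S.long 1 z * S.x 1 0 (-(a 0))) := by
    rw [hsplit, mul_assoc, ← (S.row0_rest_comm (f := fr) (by simp [hfr]) (by simp [hfr]) z (-(a 0))).eq, ← mul_assoc]
  have key : S.long 0 z * S.ψ W * S.dual.row0 f ∈ S.cover := by
    rw [hfsum, ← mul_assoc, hcomm]
    have hrest : S.ψ (embSL (e10 (k + 1)) wS) * R * (S.ψ (embSL (e10 (k + 1)) wS))⁻¹ ∈ S.dual.upos :=
      S.conj_dual_upos _ hRmem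
    have e : S.ψ (embSL (e10 (k + 1)) wS) * R * (S.long 1 z * S.x 1 0 (-(a 0))) * S.dual.row0 f01 =
        S.ψ (embSL (e10 (k + 1)) wS) * R * (S.ψ (embSL (e10 (k + 1)) wS))⁻¹ *
          S.φ4 (embA wS * (embA wS * embB z * (embA wS)⁻¹ * embA (xS (-(a 0)))) * g01) := by
      rw [map_mul S.φ4, map_mul S.φ4 (embA wS), map_mul S.φ4 (_ * _ * _), φ4_longA, φ4_embA, e2, ← hg01]
      group
    rw [e]
    exact S.dual_mul_cover hrest (S.φ4_mem_cover _)
  have hc : Commute (S.long 0 z) (S.ψ B) := by rw [long_zero]; exact (S.comm_shift _ z).symm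
  have hfin := S.ψ_mul_cover B⁻¹ (S.cover_mul (S.cover_mul key hpp) hp)
  convert hfin using 1
  rw [mul_assoc (S.long 0 z * S.ψ W), ← hf, hn, map_mul, map_mul, map_inv, map_inv]
  calc S.long 0 z * (u * S.ψ A) = (S.ψ B)⁻¹ * (S.ψ B * S.long 0 z) * (u * S.ψ A) := by group
    _ = (S.ψ B)⁻¹ * (S.long 0 z * S.ψ B) * (u * S.ψ A) := by rw [hc.eq]
    _ = _ := by group

theorem long0_second (z : SL(2, F)) (A : SL(k + 3, F)) :
    S.long 0 z * (S.ψ A * S.long 0 wS) ∈ S.cover := by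
  set b := (invT A).1 *ᵥ Pi.single 0 1 with hb
  by_cases h : ∀ c : Fin (k + 2), b c.succ = 0
  · have hp := S.ψ_conj_w_mem_par (A := A) (c := b 0) (by
      rw [← hb]
      funext c
      refine Fin.cases ?_ (fun c => ?_) c
      · simp
      · simp [h c, Fin.succ_ne_zero])
    have := S.cover_mul (S.φ4_mem_cover (embB z * embB wS)) hp
    convert this using 1
    rw [map_mul, ← long_zero, ← long_zero]; group
  obtain ⟨Z, hZ⟩ := exists_shift_reduce h
  set B := embSL (shiftEquiv k) (invT Z) with hBdef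
  set C := invT (yS (b 0) * wS : SL(2, F)) with hC
  have hp := S.ψ_conj_w_mem_par (A := (embSL (e10 (k + 1)) C)⁻¹ * (B * A)) (c := 1) (by
    rw [one_smul, map_mul, map_inv, invT_embSL, hC, invT_invT]
    refine inv_mul_mulVec (w := fun c => if c = 0 then b 0 else if c = 1 then 1 else 0) ?_ ?_
    · rw [e10_col]
      simp [coe_yS, coe_wS, Matrix.SpecialLinearGroup.coe_mul, Matrix.mul_apply, Fin.sum_univ_two]
    · rw [map_mul, hBdef, invT_embSL, invT_invT]
      show ((embSL (shiftEquiv k) Z).1 * (invT A).1) *ᵥ _ = _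
      rw [← mulVec_mulVec, ← hb, hZ])
  have key := S.cover_mul (S.φ4_mem_cover (embB z * (embA C * embB wS))) hp
  have hc : Commute (S.long 0 z) (S.ψ B) := by rw [long_zero]; exact (S.comm_shift _ z).symm
  have hfin := S.ψ_mul_cover B⁻¹ key
  convert hfin using 1
  rw [map_mul S.φ4, map_mul S.φ4, φ4_embA, ← long_zero, ← long_zero, map_mul, map_mul, map_inv, map_inv]
  calc S.long 0 z * (S.ψ A * S.long 0 wS)
      = (S.ψ B)⁻¹ * (S.ψ B * S.long 0 z) * (S.ψ A * S.long 0 wS) := by group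
    _ = (S.ψ B)⁻¹ * (S.long 0 z * S.ψ B) * (S.ψ A * S.long 0 wS) := by rw [hc.eq]
    _ = _ := by group

theorem mem_cover (hgen : S.ψ.range ⊔ S.φ4.range = ⊤) (g : G) : g ∈ S.cover := by
  suffices h : ∀ y ∈ S.cover, g * y ∈ S.cover by
    simpa using h 1 (Or.inl ⟨1, one_mem _, 1, 1, one_mem _, by simp⟩)
  let H : Subgroup G :=
    { carrier := {g | (∀ y ∈ S.cover, g * y ∈ S.cover) ∧ ∀ y ∈ S.cover, g⁻¹ * y ∈ S.cover}
      one_mem' := ⟨fun y hy => by simpa using hy, fun y hy => by simpa using hy⟩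
      mul_mem' := fun {a b} ha hb => ⟨fun y hy => by rw [mul_assoc]; exact ha.1 _ (hb.1 y hy),
        fun y hy => by rw [_root_.mul_inv_rev, mul_assoc]; exact hb.2 _ (ha.2 y hy)⟩
      inv_mem' := fun {a} ha => ⟨ha.2, fun y hy => by rw [inv_inv]; exact ha.1 y hy⟩ }
  have hψ : ∀ A, S.ψ A ∈ H := fun A =>
    ⟨fun y hy => S.ψ_mul_cover A hy, fun y hy => by rw [← map_inv]; exact S.ψ_mul_cover A⁻¹ hy⟩
  have hl : ∀ z, ∀ y ∈ S.cover, S.long 0 z * y ∈ S.cover := fun z y hy => by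
    rcases hy with ⟨u, hu, A, p, hp, rfl⟩ | ⟨A, p, hp, rfl⟩
    · rw [← mul_assoc]; exact S.cover_mul (S.long0_first z hu A) hp
    · rw [← mul_assoc]; exact S.cover_mul (S.long0_second z A) hp
  have h4 : S.φ4.range ≤ H := by
    rw [MonoidHom.range_eq_map, ← closure_emb, MonoidHom.map_closure, Subgroup.closure_le]
    rintro _ ⟨_, ⟨A, rfl⟩ | ⟨z, rfl⟩, rfl⟩
    · rw [φ4_embA]; exact hψ _
    · rw [← long_zero]
      exact ⟨hl z, fun y hy => by rw [← map_inv]; exact hl z⁻¹ y hy⟩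
  have htop : H = ⊤ := eq_top_iff.2 (hgen ▸ sup_le (by rintro _ ⟨A, rfl⟩; exact hψ A) h4)
  exact (htop ▸ Subgroup.mem_top g : g ∈ H).1

end Setting

end CfsgLib.SpPres
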