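import Cfsg.Agent.Lib.SpPres.Coset

/-!
A group generated by compatible images of `SL_n(F)` and `Sp₄(F)` over `Sp_{2n}(F)` is `Sp_{2n}(F)`.
-/

set_option autoImplicit false
set_option linter.unusedSectionVars false

namespace CfsgLib.SpPres

open Matrix CfsgLib.SL2Pres CfsgLib.SL3Pres CfsgLib.Sp4Pres
open scoped MatrixGroups commutatorElement Pointwise

variable {F : Type*} [Field F] [Finite F]

theorem spBlk_col {α β γ : Type*} [Fintype α] [DecidableEq α] [Fintype β] [DecidableEq β] [Fintype γ]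
    [DecidableEq γ] (e : α ⊕ β ≃ γ) (M : Matrix (α ⊕ α) (α ⊕ α) F) (j c : α ⊕ β) :
    (spBlk e M *ᵥ Pi.single (Sum.inl (e j)) 1) (Sum.inl (e c)) = fromBlocks M.toBlocks₁₁ 0 0 1 c j ∧
      (spBlk e M *ᵥ Pi.single (Sum.inl (e j)) 1) (Sum.inr (e c)) = fromBlocks M.toBlocks₂₁ 0 0 0 c j ∧
      (spBlk e M *ᵥ Pi.single (Sum.inr (e j)) 1) (Sum.inl (e c)) = fromBlocks M.toBlocks₁₂ 0 0 0 c j ∧
      (spBlk e M *ᵥ Pi.single (Sum.inr (e j)) 1) (Sum.inr (e c)) = fromBlocks M.toBlocks₂₂ 0 0 1 c j := by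
  simp only [mulVec_single_one, col_apply, spBlk, fromBlocks_apply₁₁, fromBlocks_apply₁₂, fromBlocks_apply₂₁,
    fromBlocks_apply₂₂, blk_apply, and_self]

theorem spBlk_fix_inl {α β γ : Type*} [Fintype α] [DecidableEq α] [Fintype β] [DecidableEq β] [Fintype γ]
    [DecidableEq γ] (e : α ⊕ β ≃ γ) (M : Matrix (α ⊕ α) (α ⊕ α) F) (b : β) :
    spBlk e M *ᵥ Pi.single (Sum.inl (e (Sum.inr b))) 1 = Pi.single (Sum.inl (e (Sum.inr b))) 1 ∧
      spBlk e M *ᵥ Pi.single (Sum.inr (e (Sum.inr b))) 1 = Pi.single (Sum.inr (e (Sum.inr b))) 1 := by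
  constructor
  all_goals
    funext x
    rcases x with x | x
    all_goals
      obtain ⟨c, rfl⟩ := e.surjective x
      obtain ⟨h1, h2, h3, h4⟩ := spBlk_col e M (Sum.inr b) c
      first | rw [h1] | rw [h2] | rw [h3] | rw [h4]
      rcases c with c | c <;> simp [Pi.single_apply, e.injective.eq_iff, Matrix.one_apply]

theorem single_inl_eq {γ : Type*} [DecidableEq γ] (a : γ) :
    (Pi.single (Sum.inl a) 1 : γ ⊕ γ → F) = Sum.elim (Pi.single a 1) (0 : γ → F) := by
  ext (x | x) <;> simp [Pi.single_apply]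

theorem single_inr_eq {γ : Type*} [DecidableEq γ] (a : γ) :
    (Pi.single (Sum.inr a) 1 : γ ⊕ γ → F) = Sum.elim (0 : γ → F) (Pi.single a 1) := by
  ext (x | x) <;> simp [Pi.single_apply]

theorem embSL_surjective {α β γ : Type*} [Fintype α] [DecidableEq α] [Fintype β] [DecidableEq β] [Fintype γ]
    [DecidableEq γ] [IsEmpty β] (e : α ⊕ β ≃ γ) : Function.Surjective (embSL (F := F) e) := by
  intro A
  let f : α ≃ γ := (Equiv.sumEmpty α β).symm.trans e
  refine ⟨⟨A.1.submatrix f f, by rw [det_submatrix_equiv_self]; exact A.2⟩, Subtype.ext ?_⟩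
  ext i j
  obtain ⟨i, rfl⟩ := e.surjective i
  obtain ⟨j, rfl⟩ := e.surjective j
  show blk e (A.1.submatrix f f) 1 (e i) (e j) = _
  rw [blk_apply]
  rcases i with i | i
  · rcases j with j | j
    · simp [f]
    · exact isEmptyElim j
  · exact isEmptyElim i

namespace Setting

variable {k : ℕ} {G : Type*} [Group G] (S : Setting F (k + 1) G)

theorem π_long1 (z : SL(2, F)) :
    S.π (S.long 1 z) = embSp (shiftEquiv k) (embSp (e10 k) (embB z)) := by
  have h : (S.π.comp (S.long 1)).eqLocus ((embSp (shiftEquiv k)).comp ((embSp (e10 k)).comp embB)) = ⊤ := by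
    refine closure_roots _ (fun t => Subtype.ext ?_) (fun t => Subtype.ext ?_)
    · show (S.π (S.l 1 t)).1 = (embSp _ (embSp _ (embB (xS t)))).1
      rw [π_long_upper, embSp_upper _ _ (embSp_upper _ _ (coe_embB_xS t)), blk_single, blk_single, e10_one,
        shiftEquiv_inl]
      rfl
    · show (S.π (S.long 1 (yS t))).1 = (embSp _ (embSp _ (embB (yS t)))).1
      rw [embSp_lower _ _ (embSp_lower _ _ (coe_embB_yS t)), blk_single, blk_single, e10_one, shiftEquiv_inl,
        ← conjJ_conjJ (S.π _)]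
      have e : S.long 1 (yS t) = S.dual.l 1 (-t) := by
        show _ = S.dual.long 1 (xS (-t))
        rw [dual_long, invT_xS, neg_neg]
      have h2 : (conjJ (S.π (S.long 1 (yS t)))).1 = upperM (single 1 1 (-t)) := by
        rw [e]; exact S.dual.π_long_upper 1 (-t)
      rw [conjJ_upper h2, single_neg, neg_neg]
      rfl
  exact (h ▸ Subgroup.mem_top z : z ∈ MonoidHom.eqLocus _ _)

theorem π_sub1_mem : S.sub1 ≤ (embSp (shiftEquiv k)).range.comap S.π := by
  refine sup_le ?_ ?_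
  · rintro _ ⟨Y, rfl⟩; exact ⟨levi Y, by rw [embSp_levi]; exact (S.π_ψ _).symm⟩
  · rintro _ ⟨z, rfl⟩; exact ⟨_, (S.π_long1 z).symm⟩

theorem π_sub1_fix {g : G} (hg : g ∈ S.sub1) :
    (S.π g).1 *ᵥ Pi.single (Sum.inl 0) 1 = Pi.single (Sum.inl 0) 1 ∧
      (S.π g).1 *ᵥ Pi.single (Sum.inr 0) 1 = Pi.single (Sum.inr 0) 1 := by
  obtain ⟨M, hM⟩ := S.π_sub1_mem hg
  rw [← hM, coe_embSp, ← shiftEquiv_inr (k := k) 0]
  exact spBlk_fix_inl (shiftEquiv k) M.1 0

theorem π_tor (s : Fˣ) :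
    (S.π (S.tor s)).1 *ᵥ Pi.single (Sum.inl 0) 1 = (s : F) • Pi.single (Sum.inl 0) 1 := by
  show (S.π (S.long 0 (dS s))).1 *ᵥ _ = _
  rw [long_zero, S.π_long, coe_embSp, ← e10_one (k + 1)]
  funext x
  rcases x with x | x
  all_goals
    obtain ⟨c, rfl⟩ := (e10 (k + 1)).surjective x
    obtain ⟨h1, h2, -, -⟩ := spBlk_col (e10 (k + 1)) (embB (dS s)).1 (Sum.inl 1) c
    first | rw [h1] | rw [h2]
    rcases c with c | c
    · fin_cases c <;> simp [coe_embB, matB, coe_dS, (e10 (k + 1)).injective.eq_iff]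
    · simp [(e10 (k + 1)).injective.eq_iff]

theorem π_w : (S.π (S.long 0 wS)).1 *ᵥ Pi.single (Sum.inl 0) 1 = -Pi.single (Sum.inr 0) 1 := by
  rw [long_zero, S.π_long, coe_embSp, ← e10_one (k + 1)]
  funext x
  rcases x with x | x
  all_goals
    obtain ⟨c, rfl⟩ := (e10 (k + 1)).surjective x
    obtain ⟨h1, h2, -, -⟩ := spBlk_col (e10 (k + 1)) (embB (wS : SL(2, F))).1 (Sum.inl 1) c
    first | rw [h1] | rw [h2]
    rcases c with c | c
    · fin_cases c <;> simp [coe_embB, matB, coe_wS, (e10 (k + 1)).injective.eq_iff]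
    · simp [(e10 (k + 1)).injective.eq_iff]

theorem π_mul_fix {g h : G} {v : Fin (k + 3) ⊕ Fin (k + 3) → F} {c : F} (hh : (S.π h).1 *ᵥ v = c • v) :
    (S.π (g * h)).1 *ᵥ v = c • ((S.π g).1 *ᵥ v) := by
  rw [map_mul, Submonoid.coe_mul, ← mulVec_mulVec, hh, mulVec_smul]

theorem radA_matrix {g : G} (hg : g ∈ S.radA) :
    ∃ M : SL(k + 3, F), g = S.ψ M ∧ ∀ a, a ≠ 0 → Pi.single a 1 ᵥ* M.1 = Pi.single a 1 := by
  induction hg using Subgroup.closure_induction with
  | mem g hg =>
    obtain ⟨j, t, hj, rfl⟩ := hg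
    refine ⟨SpecialLinearGroup.transvection hj.symm t, x_eq _ hj.symm t, fun a ha => ?_⟩
    ext b
    rw [single_one_vecMul, row_apply]
    show Matrix.transvection 0 j t a b = _
    simp [Matrix.transvection, Ne.symm ha, Matrix.one_apply, Pi.single_apply, eq_comm]
  | one => exact ⟨1, (map_one _).symm, fun a _ => by simp⟩
  | mul g h _ _ hg hh =>
    obtain ⟨M, rfl, hM⟩ := hg
    obtain ⟨N, rfl, hN⟩ := hh
    exact ⟨M * N, (map_mul _ _ _).symm, fun a ha => by
      show _ ᵥ* (M.1 * N.1) = _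
      rw [← vecMul_vecMul, hM a ha, hN a ha]⟩
  | inv g _ hg =>
    obtain ⟨M, rfl, hM⟩ := hg
    refine ⟨M⁻¹, (map_inv _ _).symm, fun a ha => ?_⟩
    conv_lhs => rw [← hM a ha, vecMul_vecMul, show M.1 * (M⁻¹).1 = 1 from
      congrArg Subtype.val (mul_inv_cancel M), vecMul_one]

theorem radA_col {M : SL(k + 3, F)} (hM : ∀ a, a ≠ 0 → Pi.single a 1 ᵥ* M.1 = Pi.single a 1) :
    M.1 *ᵥ Pi.single 0 1 = Pi.single 0 1 := by
  have hcol : ∀ a, a ≠ 0 → M.1 a 0 = 0 := fun a ha => by
    have h := congrFun (hM a ha) 0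
    rw [single_one_vecMul, row_apply, Pi.single_eq_of_ne ha.symm] at h
    exact h
  have hdet : M.1.det = M.1 0 0 := by
    rw [det_of_isUpperTriangular (fun i j (hij : j < i) => by
      have hi : i ≠ 0 := fun e => absurd (e ▸ hij) (Fin.not_lt_zero _)
      have h := congrFun (hM i hi) j
      rwa [single_one_vecMul, row_apply, Pi.single_eq_of_ne (ne_of_lt hij)] at h)]
    refine Finset.prod_eq_single 0 (fun i _ hi => ?_) (by simp)
    have h := congrFun (hM i hi) i
    rwa [single_one_vecMul, row_apply, Pi.single_eq_same] at h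
  funext a
  rw [mulVec_single_one, col_apply]
  rcases eq_or_ne a 0 with rfl | ha
  · rw [Pi.single_eq_same, ← hdet]; exact M.2
  · rw [Pi.single_eq_of_ne ha]; exact hcol a ha

theorem par_fix {g : G} (hg : g ∈ S.par) :
    ∃ c : F, c ≠ 0 ∧ (S.π g).1 *ᵥ Pi.single (Sum.inl 0) 1 = c • Pi.single (Sum.inl 0) 1 := by
  rw [← SetLike.mem_coe, coe_par] at hg
  obtain ⟨r, hr, q', ⟨t, ⟨s, rfl⟩, q, hq, rfl⟩, rfl⟩ := hg
  rw [SetLike.mem_coe, ← SetLike.mem_coe, coe_rad] at hr
  obtain ⟨a, ha, b, ⟨f, rfl⟩, rfl⟩ := hr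
  obtain ⟨M, rfl, hM⟩ := S.radA_matrix ha
  obtain ⟨R, hR, -, -⟩ := S.π_row0 f
  refine ⟨s, s.ne_zero, ?_⟩
  simp only [map_mul, Submonoid.coe_mul, ← mulVec_mulVec]
  rw [(S.π_sub1_fix hq).1, π_tor, mulVec_smul, mulVec_smul, hR, S.π_ψ, coe_levi, single_inl_eq, upperM_mulVec,
    mulVec_zero, add_zero, leviM_mulVec, radA_col hM, mulVec_zero]

theorem mem_par_of_fix (hgen : S.ψ.range ⊔ S.φ4.range = ⊤) {g : G} {c : F}
    (hc : c ≠ 0) (h : (S.π g).1 *ᵥ Pi.single (Sum.inl 0) 1 = c • Pi.single (Sum.inl 0) 1) : g ∈ S.par := by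
  rcases S.mem_cover hgen g with ⟨u, hu, A, p, hp, rfl⟩ | ⟨A, p, hp, rfl⟩
  · obtain ⟨d, hd, hd'⟩ := S.par_fix hp
    obtain ⟨N, hN, -⟩ := S.dual_π_lower hu
    rw [S.π_mul_fix hd', map_mul, Submonoid.coe_mul, ← mulVec_mulVec, hN, S.π_ψ, coe_levi, single_inl_eq,
      leviM_mulVec, mulVec_zero, lowerM_mulVec, add_zero] at h
    have h1 : d • (A.1 *ᵥ Pi.single 0 1) = c • Pi.single 0 1 := funext fun x => congrFun h (Sum.inl x)
    have h2 : d • (N *ᵥ (A.1 *ᵥ Pi.single 0 1)) = (0 : Fin (k + 3) → F) := funext fun x =>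
      (congrFun h (Sum.inr x)).trans (mul_zero c)
    have h1' : A.1 *ᵥ Pi.single 0 1 = (d⁻¹ * c) • Pi.single 0 1 := by
      rw [← smul_smul, ← h1, inv_smul_smul₀ hd]
    rw [h1', mulVec_smul, smul_smul, smul_eq_zero] at h2
    have hcol : ∀ a, N a 0 = 0 := fun a => by
      have := congrFun (h2.resolve_left (mul_ne_zero hd (mul_ne_zero (inv_ne_zero hd) hc))) a
      rwa [mulVec_single_one] at this
    have hu' : u ∈ S.dual.upos' := S.dual.mem_upos'_of_col hu (M := -N) (conjJ_lower hN)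
      fun a => by rw [Matrix.neg_apply, hcol, neg_zero]
    exact mul_mem (mul_mem (S.dual_upos'_le_par hu') (S.ψ_mem_par h1')) hp
  · exfalso
    obtain ⟨d, -, hd'⟩ := S.par_fix hp
    rw [S.π_mul_fix hd', map_mul, Submonoid.coe_mul, ← mulVec_mulVec, π_w, S.π_ψ, coe_levi, mulVec_neg,
      single_inr_eq, leviM_mulVec, mulVec_zero, single_inl_eq] at h
    exact hc (by simpa using (congrFun h (Sum.inl 0)).symm)

theorem mem_sub1_of_ker (hgen : S.ψ.range ⊔ S.φ4.range = ⊤) {g : G} (hg : S.π g = 1) : g ∈ S.sub1 := by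
  have h := S.mem_par_of_fix hgen one_ne_zero (g := g) (by
    rw [hg, one_smul]; exact one_mulVec _)
  rw [← SetLike.mem_coe, coe_par] at h
  obtain ⟨r, hr, q', ⟨t, ⟨s, rfl⟩, q, hq, rfl⟩, rfl⟩ := h
  rw [SetLike.mem_coe, ← SetLike.mem_coe, coe_rad] at hr
  obtain ⟨a, ha, b, ⟨f, rfl⟩, rfl⟩ := hr
  obtain ⟨M, rfl, hM⟩ := S.radA_matrix ha
  obtain ⟨R, hR, -, hR0⟩ := S.π_row0 f
  have h1 := congrArg (fun m : symplecticGroup (Fin (k + 3)) F => m.1 *ᵥ Pi.single (Sum.inl 0) 1) hg
  simp only [map_mul, Submonoid.coe_mul, ← mulVec_mulVec, Submonoid.coe_one, one_mulVec] at h1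
  rw [(S.π_sub1_fix hq).1, π_tor, mulVec_smul, mulVec_smul, hR, S.π_ψ, coe_levi, single_inl_eq, upperM_mulVec,
    mulVec_zero, add_zero, leviM_mulVec, radA_col hM, mulVec_zero] at h1
  have hs : s = 1 := by
    have := congrFun h1 (Sum.inl 0)
    rw [Units.ext_iff, Units.val_one]
    simpa using this
  subst hs
  simp only [map_one, one_mul] at hg ⊢
  have h2 := congrArg (fun m : symplecticGroup (Fin (k + 3)) F => m.1 *ᵥ Pi.single (Sum.inr 0) 1) hg
  simp only [map_mul, Submonoid.coe_mul, ← mulVec_mulVec, Submonoid.coe_one, one_mulVec] at h2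
  rw [(S.π_sub1_fix hq).2, hR, S.π_ψ, coe_levi, single_inr_eq, upperM_mulVec, zero_add, leviM_mulVec] at h2
  have h3 : M.1 *ᵥ (R *ᵥ Pi.single 0 1) = 0 := funext fun x => congrFun h2 (Sum.inl x)
  have h4 : (invT M).1 *ᵥ Pi.single 0 1 = Pi.single 0 1 := funext fun x => congrFun h2 (Sum.inr x)
  have h5 := congrArg ((M⁻¹).1 *ᵥ ·) h3
  simp only [mulVec_mulVec, ← Matrix.mul_assoc, mulVec_zero,
    show (M⁻¹).1 * M.1 = 1 from congrArg Subtype.val (inv_mul_cancel M), Matrix.one_mul] at h5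
  have hf : f = 0 := funext fun x => by
    have := congrFun h5 x
    rw [mulVec_single_one, col_apply, hR0] at this
    split at this
    next e => subst e; exact this
    next => exact neg_eq_zero.1 this
  have hM1 : M = 1 := by
    rw [coe_invT, mulVec_transpose] at h4
    have e0 := congrArg (· ᵥ* M.1) h4
    simp only [vecMul_vecMul, show (M⁻¹).1 * M.1 = 1 from congrArg Subtype.val (inv_mul_cancel M), vecMul_one] at e0
    refine Subtype.ext (Matrix.ext fun x y => ?_)
    have hrow : Pi.single x 1 ᵥ* M.1 = Pi.single x 1 := by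
      rcases eq_or_ne x 0 with rfl | hx
      · exact e0.symm
      · exact hM x hx
    have := congrFun hrow y
    rw [single_one_vecMul, row_apply] at this
    rw [this, Matrix.SpecialLinearGroup.coe_one, Matrix.one_apply, Pi.single_apply]
    simp only [eq_comm]
  subst hf hM1
  simpa [row0_zero] using hq

/-- The value on the indices other than `0`. -/
noncomputable def πsmall : S.sub1 →* symplecticGroup (Fin (k + 2)) F :=
  ((MonoidHom.ofInjective (embSp_injective (F := F) (shiftEquiv k))).symm.toMonoidHom).comp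
    ((S.π.comp S.sub1.subtype).codRestrict (embSp (shiftEquiv k)).range fun q => S.π_sub1_mem q.2)

theorem embSp_πsmall (q : S.sub1) : embSp (shiftEquiv k) (S.πsmall q) = S.π q :=
  congrArg Subtype.val ((MonoidHom.ofInjective (embSp_injective (F := F) (shiftEquiv k))).apply_symm_apply
    ((S.π.comp S.sub1.subtype).codRestrict (embSp (shiftEquiv k)).range (fun q => S.π_sub1_mem q.2) q))

/-- The setting on the indices other than `0`. -/
noncomputable def small (σ : Equiv.Perm (Fin (k + 3))) (h0 : σ 0 = 1) (h1 : σ 1 = (1 : Fin (k + 2)).succ) :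
    Setting F k S.sub1 where
  ψ := (S.ψ.comp (embSL (shiftEquiv k))).codRestrict S.sub1 S.shift_mem
  φ4 := (S.frame σ).codRestrict S.sub1 (by
    intro g
    have hle : (⊤ : Subgroup (symplecticGroup (Fin 2) F)) ≤ S.sub1.comap (S.frame σ) := by
      rw [← closure_emb, Subgroup.closure_le]
      rintro _ (⟨A, rfl⟩ | ⟨z, rfl⟩)
      · show S.frame σ (embA A) ∈ S.sub1
        refine (eq_top_iff.1 (closure_roots (S.sub1.comap ((S.frame σ).comp embA)) (fun t => ?_) (fun t => ?_)) :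
          ⊤ ≤ _) (Subgroup.mem_top A)
        · show S.frame σ (embA (xS t)) ∈ S.sub1
          rw [frame_xA, h0, h1]; exact S.x_mem_sub1 (Fin.succ_ne_zero _) (by simp) t
        · show S.frame σ (embA (yS t)) ∈ S.sub1
          rw [frame_yA, h0, h1]; exact S.x_mem_sub1 (by simp) (Fin.succ_ne_zero _) t
      · show S.frame σ (embB z) ∈ S.sub1
        rw [frame_embB, h0]; exact S.long_mem_sub1 (by simp) z
    exact hle (Subgroup.mem_top g))
  π := S.πsmall
  π_ψ A := by
    refine embSp_injective (shiftEquiv k) ?_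
    rw [embSp_πsmall, embSp_levi]
    exact S.π_ψ _
  π_long z := by
    refine embSp_injective (shiftEquiv k) ?_
    rw [embSp_πsmall]
    show S.π (S.frame σ (embB z)) = embSp _ (embSp _ (embB z))
    rw [frame_embB, h0, π_long1]
  compat A := by
    refine Subtype.ext ?_
    show S.frame σ (levi A) = S.ψ (embSL _ (embSL _ A))
    refine DFunLike.congr_fun (ClassicalLinear.hom_ext (f := (S.frame σ).comp levi)
      (g := S.ψ.comp ((embSL (shiftEquiv k)).comp (embSL (e10 k)))) fun a b hab t => ?_) A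
    show S.frame σ (levi _) = S.ψ (embSL _ (embSL _ _))
    rw [frame_levi_transvection _ _ hab, embSL_transvection, embSL_transvection]
    have e : ∀ a : Fin 2, σ (e10 (k + 1) (Sum.inl a)) = shiftEquiv k (Sum.inl (e10 k (Sum.inl a))) := by
      intro a
      obtain rfl | rfl : a = 0 ∨ a = 1 := by omega
      · rw [e10_zero, e10_zero, h1, shiftEquiv_inl]
      · rw [e10_one, e10_one, h0, shiftEquiv_inl]; rfl
    have hne : shiftEquiv k (Sum.inl (e10 k (Sum.inl a))) ≠ shiftEquiv k (Sum.inl (e10 k (Sum.inl b))) :=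
      fun h => hab (Sum.inl_injective ((e10 k).injective (Sum.inl_injective ((shiftEquiv k).injective h))))
    rw [e, e, x_eq _ hne]
  comm a b hab ha hb t z := by
    refine Subtype.ext ?_
    show S.ψ (embSL _ _) * S.frame σ (embB z) = S.frame σ (embB z) * S.ψ (embSL _ _)
    rw [frame_embB, h0, embSL_transvection, ← x_eq _]
    have hne : ∀ c : Fin (k + 2), c ≠ 0 → shiftEquiv k (Sum.inl c) ≠ 1 := fun c hc e => by
      rw [shiftEquiv_inl] at e; exact hc (Fin.succ_injective _ e)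
    exact (S.long_x (hne a ha) (hne b hb) z t).symm

theorem small_gen (σ : Equiv.Perm (Fin (k + 3))) (h0 : σ 0 = 1) (h1 : σ 1 = (1 : Fin (k + 2)).succ) :
    (S.small σ h0 h1).ψ.range ⊔ (S.small σ h0 h1).φ4.range = ⊤ := by
  apply Subgroup.map_injective S.sub1.subtype_injective
  rw [← MonoidHom.range_eq_map, Subgroup.range_subtype, Subgroup.map_sup]
  refine le_antisymm (sup_le (Subgroup.map_subtype_le _) (Subgroup.map_subtype_le _)) (sup_le ?_ ?_)
  · rintro _ ⟨Y, rfl⟩
    exact Subgroup.mem_sup_left ⟨_, ⟨Y, rfl⟩, rfl⟩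
  · rintro _ ⟨z, rfl⟩
    refine Subgroup.mem_sup_right ⟨_, ⟨embB z, rfl⟩, ?_⟩
    show S.frame σ (embB z) = _
    rw [frame_embB, h0]

theorem π_surjective_succ : Function.Surjective S.π := by
  rw [← MonoidHom.range_eq_top, eq_top_iff, ← ClassicalLinear.closure_spT_eq_top, Subgroup.closure_le]
  rintro _ ⟨w, c, rfl⟩
  set e : Fin (k + 3) ⊕ Fin (k + 3) → F := Pi.single (Sum.inl 0) 1 with he
  have hT : ∀ c, ClassicalLinear.spT e c = S.π (S.l 0 c) := fun c => Subtype.ext (by
    rw [π_long_upper]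
    show Cfsg.sympTransvection (k + 3) e c = _
    have hJ : Matrix.J (Fin (k + 3)) F *ᵥ e = Pi.single (Sum.inr 0) 1 := by
      rw [he]
      ext (x | x) <;> simp [Matrix.J, Matrix.one_apply, Pi.single_apply]
    rw [Cfsg.sympTransvection, hJ, he]
    ext (a | a) (b | b) <;> simp [upperM, Matrix.vecMulVec_apply, Matrix.one_apply, single_apply, Pi.single_apply]
    all_goals grind)
  rcases eq_or_ne w 0 with rfl | hw
  · rw [show (0 : Fin (k + 3) ⊕ Fin (k + 3) → F) = (0 : F) • e from (zero_smul F e).symm,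
      ClassicalLinear.spT_smul_vec, zero_pow two_ne_zero, zero_mul, ClassicalLinear.spT_zero]
    exact one_mem _
  obtain ⟨g, hg⟩ : ∃ g, (S.π g).1 *ᵥ e = w := by
    by_cases hp : w ∘ Sum.inl = 0
    · have hr : w ∘ Sum.inr ≠ 0 := fun hr => hw (by
        rw [← Sum.elim_comp_inl_inr w, hp, hr]; ext (a | a) <;> rfl)
      obtain ⟨Z, hZ⟩ := InvCentralizers.SLParabolic.exists_sl_mulVec (ι := Fin (k + 3)) (by simp)
        (c := Pi.single 0 1) (c' := -(w ∘ Sum.inr)) (by simp) (neg_ne_zero.2 hr)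
      refine ⟨S.ψ (invT Z) * S.long 0 wS, ?_⟩
      rw [map_mul, Submonoid.coe_mul, ← mulVec_mulVec, he, π_w, S.π_ψ, coe_levi, mulVec_neg, single_inr_eq,
        leviM_mulVec, invT_invT, hZ, mulVec_zero]
      rw [← Sum.elim_comp_inl_inr w, hp]
      ext (a | a) <;> simp
    · obtain ⟨A, hA⟩ := InvCentralizers.SLParabolic.exists_sl_mulVec (ι := Fin (k + 3)) (by simp)
        (c := Pi.single 0 1) (c' := w ∘ Sum.inl) (by simp) hp
      set d := (A.1)ᵀ *ᵥ (w ∘ Sum.inr) with hd
      obtain ⟨M, hM, -, hM0⟩ := S.dual.π_row0 fun a => if a = 0 then -d 0 else d a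
      refine ⟨S.ψ A * S.dual.row0 fun a => if a = 0 then -d 0 else d a, ?_⟩
      have hN : (S.π (S.dual.row0 fun a => if a = 0 then -d 0 else d a)).1 = lowerM (-M) := by
        rw [← conjJ_conjJ (S.π _)]
        exact conjJ_upper hM
      have hcol : -M *ᵥ Pi.single 0 1 = d := funext fun a => by
        rw [mulVec_single_one, col_apply, Matrix.neg_apply, hM0]
        split
        next h => subst h; simp
        next h => simp
      rw [map_mul, Submonoid.coe_mul, ← mulVec_mulVec, hN, he, single_inl_eq, lowerM_mulVec, add_zero, hcol,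
        S.π_ψ, coe_levi, leviM_mulVec, hA, hd, coe_invT, mulVec_mulVec, ← transpose_mul,
        show A.1 * (A⁻¹).1 = 1 from congrArg Subtype.val (mul_inv_cancel A), transpose_one, one_mulVec,
        Sum.elim_comp_inl_inr]
  rw [show w = S.π g • e from hg.symm, ← ClassicalLinear.conj_spT, hT, ← map_inv, ← map_mul, ← map_mul]
  exact ⟨_, rfl⟩

end Setting

/-- A generated setting is the symplectic group. -/
theorem π_bijective : ∀ {k : ℕ} {G : Type*} [Group G] (S : Setting F k G),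
    S.ψ.range ⊔ S.φ4.range = ⊤ → Function.Bijective S.π := by
  intro k
  induction k with
  | zero =>
    intro G _ S hgen
    have hle : S.ψ.range ≤ S.φ4.range := by
      rintro _ ⟨A, rfl⟩
      obtain ⟨A', rfl⟩ := embSL_surjective (e10 0) A
      exact ⟨levi A', S.compat A'⟩
    rw [sup_eq_right.2 hle] at hgen
    constructor
    · refine (injective_iff_map_eq_one _).2 fun g hg => ?_
      obtain ⟨h, rfl⟩ := MonoidHom.range_eq_top.1 hgen g
      rw [S.π_φ4] at hg
      rw [(map_eq_one_iff _ (embSp_injective _)).1 hg, map_one]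
    · intro M
      obtain ⟨h, hh⟩ := (Finite.injective_iff_surjective (f := (embSp (F := F) (e10 0) :
        symplecticGroup (Fin 2) F → symplecticGroup (Fin 2) F))).1 (embSp_injective _) M
      exact ⟨S.φ4 h, (S.π_φ4 h).trans hh⟩
  | succ k ih =>
    intro G _ S hgen
    refine ⟨(injective_iff_map_eq_one _).2 fun g hg => ?_, S.π_surjective_succ⟩
    obtain ⟨σ, h0, h1⟩ := exists_perm_pair (k := k) (show (1 : Fin (k + 3)) ≠ (1 : Fin (k + 2)).succ by
      intro h
      have h' : (0 : Fin (k + 2)).succ = (1 : Fin (k + 2)).succ := h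
      simpa using Fin.succ_injective _ h')
    have hs := S.mem_sub1_of_ker hgen hg
    have hb := (ih (S.small σ h0 h1) (S.small_gen σ h0 h1)).1
    have : (⟨g, hs⟩ : S.sub1) = 1 := hb (by
      rw [map_one]
      refine embSp_injective (shiftEquiv k) ?_
      rw [map_one]
      exact (S.embSp_πsmall _).trans hg)
    exact congrArg Subtype.val this

end CfsgLib.SpPres
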