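import Cfsg.Agent.Lib.Sp4Pres.Main

/-!
A setting of the two copies of `SL₂(F)` in any group gives a homomorphism out of `Sp₄(F)`.
-/

set_option autoImplicit false
set_option linter.unusedSectionVars false

namespace CfsgLib.SpPres

open CfsgLib.SL2Pres CfsgLib.SL3Pres CfsgLib.Sp4Pres
open scoped MatrixGroups commutatorElement

variable {F : Type*} [Field F] [Finite F] {ω : Fˣ} {G : Type*} [Group G]


theorem exists_sp4_hom (S : Sp4Pres.Setup ω G) :
    ∃ φ4 : Matrix.symplecticGroup (Fin 2) F →* G, (∀ A, φ4 (embA A) = S.φa A) ∧ ∀ z, φ4 (embB z) = S.φb z := by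
  set T := Sp4Pres.modelSetup S.gen
  let pa : SL(2, F) →* Matrix.symplecticGroup (Fin 2) F × G := embA.prod S.φa
  let pb : SL(2, F) →* Matrix.symplecticGroup (Fin 2) F × G := embB.prod S.φb
  let K : Subgroup (Matrix.symplecticGroup (Fin 2) F × G) :=
    Subgroup.closure (Set.range pa ∪ Set.range pb)
  let qa : SL(2, F) →* K := pa.codRestrict K fun A => Subgroup.subset_closure (Or.inl ⟨A, rfl⟩)
  let qb : SL(2, F) →* K := pb.codRestrict K fun A => Subgroup.subset_closure (Or.inr ⟨A, rfl⟩)
  let U : Sp4Pres.Setup ω K :=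
    { gen := S.gen
      φa := qa
      φb := qb
      torus := Subtype.ext (Prod.ext T.torus S.torus)
      hbXa := Subtype.ext (Prod.ext T.hbXa S.hbXa)
      haXb := Subtype.ext (Prod.ext T.haXb S.haXb)
      naHb := Subtype.ext (Prod.ext T.naHb S.naHb)
      nbHa := Subtype.ext (Prod.ext T.nbHa S.nbHa)
      naAB := Subtype.ext (Prod.ext T.naAB S.naAB)
      nbAAB := Subtype.ext (Prod.ext T.nbAAB S.nbAAB)
      braid := Subtype.ext (Prod.ext T.braid S.braid)
      bAB := Subtype.ext (Prod.ext T.bAB S.bAB)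
      bAAB := Subtype.ext (Prod.ext T.bAAB S.bAAB)
      aAB := Subtype.ext (Prod.ext T.aAB S.aAB)
      aB := Subtype.ext (Prod.ext T.aB S.aB) }
  have hgen : Subgroup.closure (Set.range U.φa ∪ Set.range U.φb) = ⊤ := by
    apply Subgroup.map_injective K.subtype_injective
    rw [MonoidHom.map_closure, ← MonoidHom.range_eq_map, Subgroup.range_subtype, Set.image_union,
      ← Set.range_comp, ← Set.range_comp]
    rfl
  obtain ⟨hfin, hcard⟩ := U.finite_and_card_le hgen
  rw [← card_Sp_four] at hcard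
  let f : K →* Matrix.symplecticGroup (Fin 2) F := (MonoidHom.fst _ G).comp K.subtype
  have hsurj : Function.Surjective f := by
    rw [← MonoidHom.range_eq_top, eq_top_iff, ← closure_emb, Subgroup.closure_le]
    rintro _ (⟨A, rfl⟩ | ⟨A, rfl⟩)
    exacts [⟨qa A, rfl⟩, ⟨qb A, rfl⟩]
  let e := MulEquiv.ofBijective f (hsurj.bijective_of_nat_card_le hcard)
  refine ⟨((MonoidHom.snd _ G).comp K.subtype).comp e.symm.toMonoidHom, fun A => ?_, fun A => ?_⟩
  · show (Subtype.val (e.symm (embA A))).2 = _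
    rw [show e.symm (embA A) = qa A from e.symm_apply_eq.2 rfl]; rfl
  · show (Subtype.val (e.symm (embB A))).2 = _
    rw [show e.symm (embB A) = qb A from e.symm_apply_eq.2 rfl]; rfl

end CfsgLib.SpPres
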