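import Cfsg.Agent.Lib.SpPres.Induction
import Cfsg.Agent.Lib.SpPres.SpFour
import Cfsg.Agent.Lib.SLnPres.Main

/-!
Presentations of `Sp_{2n}(F)` from one of `SL_n(F)`, three more generators and at most `20 + 2c` more relations,
when `SL_{n-1}(F)` has `c` generators.
-/

set_option autoImplicit false
set_option linter.unusedSectionVars false

namespace CfsgLib.SpPres

open Matrix Polynomial CfsgLib.SL2Pres CfsgLib.SL3Pres CfsgLib.Sp4Pres
open CfsgLib.ShortPres (HasPres)
open CfsgLib.SLnPres (tauWords eq_top_of_tauWords lift_lift)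
open scoped MatrixGroups commutatorElement

universe u

variable {F : Type u} [Field F] [Finite F]

theorem levi_comm_embB {k : ℕ} (Y : SL(k + 2, F)) (z : SL(2, F)) :
    Commute (levi (embSL (shiftEquiv k) Y)) (embSp (e10 (k + 1)) (embB z)) := by
  set A := embSL (shiftEquiv k) Y
  have hcol : ∀ Z : SL(k + 2, F), ∀ a, (embSL (shiftEquiv k) Z).1 a 0 = (if a = 0 then 1 else 0) ∧
      (embSL (shiftEquiv k) Z).1 0 a = (if a = 0 then 1 else 0) := by
    intro Z a
    obtain ⟨a, rfl⟩ := (shiftEquiv k).surjective a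
    rw [show (0 : Fin (k + 3)) = shiftEquiv k (Sum.inr 0) from (shiftEquiv_inr 0).symm, coe_embSL, blk_apply,
      blk_apply]
    rcases a with a | a
    · simp [(shiftEquiv k).injective.eq_iff]
    · simp [Subsingleton.elim a 0]
  have hsingle : ∀ (M N : Matrix (Fin (k + 3)) (Fin (k + 3)) F) (t : F),
      (∀ a, M a 0 = if a = 0 then 1 else 0) → (∀ a, N 0 a = if a = 0 then 1 else 0) →
        M * single 0 0 t * N = single 0 0 t := by
    intro M N t hM hN
    ext a b
    rw [Matrix.mul_apply, Finset.sum_eq_single 0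
      (fun c _ hc => by rw [mul_single_apply_of_ne _ _ _ _ _ hc, zero_mul]) (by simp), mul_single_apply_same, hM, hN]
    by_cases ha : a = 0 <;> by_cases hb : b = 0 <;> simp [ha, hb, Ne.symm]
  have hA : invT A = embSL (shiftEquiv k) (invT Y) := invT_embSL _ _
  have hAi : A⁻¹ = embSL (shiftEquiv k) Y⁻¹ := (map_inv _ _).symm
  have h : ((Subgroup.centralizer {levi A}).comap ((embSp (e10 (k + 1))).comp embB)) = ⊤ := by
    refine closure_roots _ (fun t => ?_) (fun t => ?_) <;>
      rw [Subgroup.mem_comap, Subgroup.mem_centralizer_singleton_iff, MonoidHom.comp_apply]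
    · refine (mul_inv_eq_iff_eq_mul.1 (Subtype.ext ?_)).symm
      rw [levi_conj_upper A (embSp_upper _ _ (coe_embB_xS t)), embSp_upper _ _ (coe_embB_xS t), blk_single, e10_one,
        hsingle _ _ t (fun a => (hcol Y a).1) (fun a => (hcol Y a).1)]
    · refine (mul_inv_eq_iff_eq_mul.1 (Subtype.ext ?_)).symm
      rw [levi_conj_lower A (embSp_lower _ _ (coe_embB_yS t)), embSp_lower _ _ (coe_embB_yS t), blk_single, e10_one,
        hA, hAi, hsingle _ _ t (fun a => (hcol _ a).1) (fun a => (hcol _ a).2)]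
  exact (Subgroup.mem_centralizer_singleton_iff.1 (h ▸ Subgroup.mem_top z : z ∈ Subgroup.comap _ _)).symm

set_option maxHeartbeats 1600000 in
/-- The presentation. -/
theorem presentation {k a r c : ℕ} (hS : HasPres SL(k + 3, F) a r) (g : Fin c → SL(k + 2, F))
    (hg : Subgroup.closure (Set.range g) = ⊤) :
    HasPres (Matrix.symplecticGroup (Fin (k + 3)) F) (a + 3) (r + 20 + c * 2) := by
  classical
  obtain ⟨p, hp⟩ := CharP.exists F
  have : Fact p.Prime := ⟨CharP.char_is_prime F p⟩
  let _ : Algebra (ZMod p) F := ZMod.algebra F p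
  obtain ⟨ω, hω⟩ := IsCyclic.exists_generator (α := Fˣ)
  obtain ⟨Pi, hPi⟩ := aeval_sq_surjective (p := p) hω ((ω⁻¹ : Fˣ) : F)
  have h2 : IsRelators ω 8 := by
    rcases eq_or_ne p 2 with rfl | hp2
    · obtain ⟨R, hR, h⟩ := relators_even hω
      exact ⟨R, hR.trans (by norm_num), h⟩
    · exact relators_odd hp2 hω
  obtain ⟨R2, hR2m, hR2S, hR2G⟩ := h2
  obtain ⟨Ra, hRac, ⟨e⟩⟩ := hS
  let A := PresentedGroup.mk (↑Ra : Set (FreeGroup (Fin a)))
  let θ : FreeGroup (Fin a) →* SL(k + 3, F) := e.toMonoidHom.comp A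
  have hθ : Function.Surjective θ := e.surjective.comp (PresentedGroup.mk_surjective _)
  choose wA hwA using fun i => hθ (embSL (e10 (k + 1)) (fS ω i))
  choose wg hwg using fun j => hθ (embSL (shiftEquiv k) (g j))
  let η : FreeGroup (Fin a) →* FreeGroup (Fin (a + 3)) := FreeGroup.map (Fin.castAdd 3)
  let μ : FreeGroup (Fin 3) →* FreeGroup (Fin (a + 3)) := FreeGroup.map (Fin.natAdd a)
  let m : Fin 6 → FreeGroup (Fin (a + 3)) := Fin.append (η ∘ wA) (fun i => μ (FreeGroup.of i))
  let T : List (FreeGroup (Fin (a + 3))) := (List.finRange c).flatMap fun j =>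
    (tauWords ω).map fun w => η (wg j) * μ w * (μ w * η (wg j))⁻¹
  set L := Ra.toList.map η ++ R2.map μ ++ (Sp4Pres.linkRels Pi).map (FreeGroup.lift m) ++ T with hL
  refine ⟨L.toFinset, (List.toFinset_card_le _).trans ?_, ?_⟩
  · have hT : T.length ≤ c * 2 := by
      simp only [T, List.length_flatMap, List.length_map]
      refine (List.sum_le_card_nsmul _ 2 fun x hx => ?_).trans (by simp)
      obtain ⟨j, -, rfl⟩ := List.mem_map.1 hx
      unfold SLnPres.tauWords
      split <;> simp
    have hlink : (Sp4Pres.linkRels Pi).length = 12 := rfl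
    simp only [hL, List.length_append, List.length_map, Finset.length_toList, hlink]
    omega
  rw [List.coe_toFinset]
  -- the model
  let fa : Fin a → Matrix.symplecticGroup (Fin (k + 3)) F := fun i => levi (θ (FreeGroup.of i))
  let fb : Fin 3 → Matrix.symplecticGroup (Fin (k + 3)) F := fun i => embSp (e10 (k + 1)) (embB (fS ω i))
  let fM : Fin (a + 3) → Matrix.symplecticGroup (Fin (k + 3)) F := Fin.append fa fb
  have hMη : ∀ w, FreeGroup.lift fM (η w) = levi (θ w) := fun w => DFunLike.congr_fun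
    (show (FreeGroup.lift fM).comp η = levi.comp θ from
      FreeGroup.ext_hom _ _ fun i => by simp [η, fM, fa, Fin.append_left]) w
  have hMμ : ∀ w, FreeGroup.lift fM (μ w) = embSp (e10 (k + 1)) (embB (FreeGroup.lift (fS ω) w)) := fun w =>
    DFunLike.congr_fun
      (show (FreeGroup.lift fM).comp μ = ((embSp (e10 (k + 1))).comp embB).comp (FreeGroup.lift (fS ω)) from
        FreeGroup.ext_hom _ _ fun i => by simp [μ, fM, fb, Fin.append_right]) w
  have hMm : FreeGroup.lift fM ∘ m = embSp (e10 (k + 1)) ∘ f6 ω := by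
    funext i
    refine Fin.addCases (m := 3) (n := 3) (fun i => ?_) (fun i => ?_) i
    · show FreeGroup.lift fM (Fin.append (η ∘ wA) _ (Fin.castAdd 3 i)) = _
      rw [Fin.append_left]
      show FreeGroup.lift fM (η (wA i)) = embSp _ (f6 ω (Fin.castAdd 3 i))
      rw [hMη, hwA, ← embSp_levi, ← embA_eq_levi]
      fin_cases i <;> rfl
    · show FreeGroup.lift fM (Fin.append (η ∘ wA) _ (Fin.natAdd 3 i)) = _
      rw [Fin.append_right, hMμ, FreeGroup.lift_apply_of]
      show _ = embSp _ (f6 ω (Fin.natAdd 3 i))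
      fin_cases i <;> rfl
  have g4 : ∀ r ∈ Sp4Pres.linkRels Pi, FreeGroup.lift (f6 ω) r = 1 := by
    have g0 : f6 ω 0 = (Sp4Pres.modelSetup hω).φa (xS 1) := rfl
    have g1 : f6 ω 1 = (Sp4Pres.modelSetup hω).φa (dS ω) := rfl
    have g2 : f6 ω 2 = (Sp4Pres.modelSetup hω).φa wS := rfl
    have g3 : f6 ω 3 = (Sp4Pres.modelSetup hω).φb (xS 1) := rfl
    have g4 : f6 ω 4 = (Sp4Pres.modelSetup hω).φb (dS ω) := rfl
    have g5 : f6 ω 5 = (Sp4Pres.modelSetup hω).φb wS := rfl
    set S₀ := Sp4Pres.modelSetup hω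
    simp only [Sp4Pres.linkRels, List.forall_mem_cons, List.not_mem_nil, false_implies, implies_true, and_true,
      map_mul, map_inv, map_commutatorElement, map_pval, FreeGroup.lift_apply_of, g0, g1, g2, g3, g4, g5,
      pval_φ, hPi, ← xS_neg_one, mul_inv_eq_one]
    refine ⟨S₀.torus.eq, S₀.hbXa, S₀.haXb, S₀.naHb, S₀.nbHa, S₀.naAB, S₀.nbAAB, S₀.braid.eq, S₀.bAB.eq,
      S₀.bAAB.eq, ?_, S₀.aB⟩
    rw [xS_neg_one, ← xS_neg_two]
    exact S₀.aAB
  have hrel : ∀ x ∈ {x | x ∈ L}, FreeGroup.lift fM x = 1 := by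
    intro x hx
    simp only [Set.mem_ofPred_eq, hL, List.mem_append, List.mem_map] at hx
    rcases hx with ((⟨x, hx, rfl⟩ | ⟨x, hx, rfl⟩) | ⟨x, hx, rfl⟩) | hx
    · rw [hMη]
      show levi (e (PresentedGroup.mk _ x)) = 1
      rw [PresentedGroup.one_of_mem (Finset.mem_toList.1 hx), map_one, map_one]
    · rw [hMμ, hR2S x hx, map_one, map_one]
    · rw [lift_lift, hMm]
      have h : FreeGroup.lift (embSp (e10 (k + 1)) ∘ f6 ω) =
          (embSp (e10 (k + 1))).comp (FreeGroup.lift (f6 ω)) := FreeGroup.ext_hom _ _ fun i => by simp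
      rw [h, MonoidHom.comp_apply, g4 x hx, map_one]
    · simp only [T, List.mem_flatMap, List.mem_map] at hx
      obtain ⟨j, -, w, -, rfl⟩ := hx
      simp only [map_mul, map_inv, hMη, hMμ, hwg, mul_inv_eq_one]
      exact (levi_comm_embB _ _).eq
  -- the presented group
  set P := PresentedGroup.of (rels := {x | x ∈ L}) with hP
  have hl : ∀ x ∈ L, FreeGroup.lift P x = 1 := fun x hx => lift_of_eq_one hx
  have hηP : ∀ w, FreeGroup.lift P (η w) = FreeGroup.lift (P ∘ Fin.castAdd 3) w := fun w =>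
    DFunLike.congr_fun (show (FreeGroup.lift P).comp η = FreeGroup.lift (P ∘ Fin.castAdd 3) from
      FreeGroup.ext_hom _ _ fun i => by simp [η]) w
  have hμP : ∀ w, FreeGroup.lift P (μ w) = FreeGroup.lift (P ∘ Fin.natAdd a) w := fun w =>
    DFunLike.congr_fun (show (FreeGroup.lift P).comp μ = FreeGroup.lift (P ∘ Fin.natAdd a) from
      FreeGroup.ext_hom _ _ fun i => by simp [μ]) w
  have hSL : ∀ x ∈ (↑Ra : Set (FreeGroup (Fin a))), FreeGroup.lift (P ∘ Fin.castAdd 3) x = 1 := fun x hx => by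
    rw [← hηP]
    exact hl _ (by
      simp only [hL, List.mem_append, List.mem_map]
      exact Or.inl (Or.inl (Or.inl ⟨x, Finset.mem_toList.2 hx, rfl⟩)))
  let ψ : SL(k + 3, F) →* PresentedGroup {x | x ∈ L} :=
    (PresentedGroup.toGroup hSL).comp e.symm.toMonoidHom
  have hψ : ∀ w, ψ (θ w) = FreeGroup.lift P (η w) := by
    intro w
    show PresentedGroup.toGroup hSL (e.symm (e (A w))) = _
    rw [e.symm_apply_apply, hηP]
    exact DFunLike.congr_fun (FreeGroup.ext_hom ((PresentedGroup.toGroup hSL).comp A)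
      (FreeGroup.lift (P ∘ Fin.castAdd 3)) fun i => by
        show PresentedGroup.toGroup hSL (PresentedGroup.of i) = _
        rw [PresentedGroup.toGroup.of, FreeGroup.lift_apply_of]) w
  obtain ⟨φb, hφb⟩ := hR2G _ (P ∘ Fin.natAdd a) fun x hx => by
    rw [← hμP]
    exact hl _ (by
      simp only [hL, List.mem_append, List.mem_map]
      exact Or.inl (Or.inl (Or.inr ⟨x, hx, rfl⟩)))
  let φa : SL(2, F) →* PresentedGroup {x | x ∈ L} := ψ.comp (embSL (e10 (k + 1)))
  have hPm : FreeGroup.lift P ∘ m =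
      ![φa (xS 1), φa (dS ω), φa wS, φb (xS 1), φb (dS ω), φb wS] := by
    have ha : ∀ i, FreeGroup.lift P (η (wA i)) = φa (fS ω i) := fun i => by rw [← hψ, hwA]; rfl
    have hb : ∀ i, FreeGroup.lift P (μ (FreeGroup.of i)) = φb (fS ω i) := fun i => by
      rw [hμP, FreeGroup.lift_apply_of, hφb]
    funext i
    fin_cases i
    · exact ha 0
    · exact ha 1
    · exact ha 2
    · exact hb 0
    · exact hb 1
    · exact hb 2
  have hlink : ∀ r ∈ Sp4Pres.linkRels Pi, FreeGroup.lift
      ![φa (xS 1), φa (dS ω), φa wS, φb (xS 1), φb (dS ω), φb wS] r = 1 := fun r hr => by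
    rw [← hPm, ← lift_lift]
    exact hl _ (by
      simp only [hL, List.mem_append, List.mem_map]
      exact Or.inl (Or.inr ⟨r, hr, rfl⟩))
  set f := ![φa (xS 1), φa (dS ω), φa wS, φb (xS 1), φb (dS ω), φb wS] with hf
  have g0 : f 0 = φa (xS 1) := rfl
  have g1 : f 1 = φa (dS ω) := rfl
  have g2 : f 2 = φa wS := rfl
  have g3 : f 3 = φb (xS 1) := rfl
  have g4' : f 4 = φb (dS ω) := rfl
  have g5 : f 5 = φb wS := rfl
  simp only [Sp4Pres.linkRels, List.forall_mem_cons, List.not_mem_nil, false_implies, implies_true, and_true,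
    map_mul, map_inv, map_commutatorElement, map_pval, FreeGroup.lift_apply_of, g0, g1, g2, g3, g4', g5,
    pval_φ, hPi, mul_inv_eq_one] at hlink
  obtain ⟨h1, h2, h3, h4, h5, h6, h7, h8, h9, h10, h11, h12⟩ := hlink
  let S4 : Sp4Pres.Setup ω (PresentedGroup {x | x ∈ L}) :=
    ⟨hω, φa, φb, h1, h2, h3, h4, h5, by rw [xS_neg_one]; exact h6, h7, h8, h9, h10,
      by rw [xS_neg_two]; exact h11, by rw [xS_neg_one]; exact h12⟩
  obtain ⟨φ4, hφ4A, hφ4B⟩ := exists_sp4_hom S4
  let π := PresentedGroup.toGroup (rels := {x | x ∈ L}) (f := fM) hrel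
  have hπP : ∀ w, π (FreeGroup.lift P w) = FreeGroup.lift fM w := fun w =>
    DFunLike.congr_fun (FreeGroup.ext_hom (π.comp (FreeGroup.lift P)) (FreeGroup.lift fM) fun i => by
      simp [π, hP]) w
  have hπψ : ∀ A, π (ψ A) = levi A := fun A => by
    obtain ⟨w, rfl⟩ := hθ A
    rw [hψ, hπP, hMη]
  have hπb : ∀ z, π (φb z) = embSp (e10 (k + 1)) (embB z) := by
    have h : (π.comp φb).eqLocus ((embSp (e10 (k + 1))).comp embB) = ⊤ := by
      rw [eq_top_iff, ← closure_fS p hω, Subgroup.closure_le]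
      rintro _ ⟨i, rfl⟩
      show π (φb (fS ω i)) = embSp _ (embB (fS ω i))
      rw [hφb]
      show π (P (Fin.natAdd a i)) = _
      rw [← FreeGroup.lift_apply_of (f := P) (x := Fin.natAdd a i), hπP, FreeGroup.lift_apply_of]
      simp [fM, fb, Fin.append_right]
    intro z
    have hm : z ∈ (π.comp φb).eqLocus ((embSp (e10 (k + 1))).comp embB) := h ▸ Subgroup.mem_top z
    exact hm
  have hcomm : ∀ Y z, Commute (ψ (embSL (shiftEquiv k) Y)) (φb z) := by
    have hgz : ∀ j z, Commute (ψ (embSL (shiftEquiv k) (g j))) (φb z) := by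
      intro j
      have h := eq_top_of_tauWords hω
        (M := (Subgroup.centralizer {ψ (embSL (shiftEquiv k) (g j))}).comap φb) (fun w hw => by
        rw [Subgroup.mem_comap, Subgroup.mem_centralizer_singleton_iff]
        have h := hl (η (wg j) * μ w * (μ w * η (wg j))⁻¹) (by
          simp only [hL, List.mem_append]
          refine Or.inr ?_
          simp only [T, List.mem_flatMap, List.mem_map]
          exact ⟨j, List.mem_finRange j, w, hw, rfl⟩)
        simp only [map_mul, map_inv, ← hψ, hwg, hμP, mul_inv_eq_one] at h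
        have e3 : FreeGroup.lift (P ∘ Fin.natAdd a) w = φb (FreeGroup.lift (fS ω) w) :=
          DFunLike.congr_fun (FreeGroup.ext_hom (FreeGroup.lift (P ∘ Fin.natAdd a))
            (φb.comp (FreeGroup.lift (fS ω))) fun i => by simpa using (hφb i).symm) w
        rw [e3] at h
        exact h.symm)
      exact fun z => (Subgroup.mem_centralizer_singleton_iff.1
        (h ▸ Subgroup.mem_top z : z ∈ Subgroup.comap _ _)).symm
    intro Y z
    have h : (Subgroup.centralizer {φb z}).comap (ψ.comp (embSL (shiftEquiv k))) = ⊤ := by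
      rw [eq_top_iff, ← hg, Subgroup.closure_le]
      rintro _ ⟨j, rfl⟩
      exact Subgroup.mem_centralizer_singleton_iff.2 (hgz j z).eq
    have hm : Y ∈ (Subgroup.centralizer {φb z}).comap (ψ.comp (embSL (shiftEquiv k))) := h ▸ Subgroup.mem_top Y
    exact Subgroup.mem_centralizer_singleton_iff.1 hm
  let S : Setting F (k + 1) (PresentedGroup {x | x ∈ L}) :=
    { ψ := ψ
      φ4 := φ4
      π := π
      π_ψ := hπψ
      π_long := fun z => by rw [hφ4B]; exact hπb z
      compat := fun A => by rw [← embA_eq_levi, hφ4A]; rfl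
      comm := fun i j h hi hj t z => by
        rw [hφ4B]
        obtain ⟨i, rfl⟩ := Fin.exists_succ_eq.2 hi
        obtain ⟨j, rfl⟩ := Fin.exists_succ_eq.2 hj
        have hij : i ≠ j := fun e => h (congrArg Fin.succ e)
        have e : SpecialLinearGroup.transvection h t =
            embSL (shiftEquiv k) (SpecialLinearGroup.transvection hij t) := by
          rw [embSL_transvection]
          refine Subtype.ext ?_
          show Matrix.transvection i.succ j.succ t =
            Matrix.transvection (shiftEquiv k (.inl i)) (shiftEquiv k (.inl j)) t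
          rw [shiftEquiv_inl, shiftEquiv_inl]
        rw [e]; exact hcomm _ z }
  have hgen : S.ψ.range ⊔ S.φ4.range = ⊤ := by
    rw [eq_top_iff, ← PresentedGroup.closure_range_of, Subgroup.closure_le]
    rintro _ ⟨i, rfl⟩
    refine Fin.addCases (fun i => ?_) (fun i => ?_) i
    · refine Subgroup.mem_sup_left ⟨θ (FreeGroup.of i), ?_⟩
      show ψ _ = _
      rw [hψ, hηP, FreeGroup.lift_apply_of]; rfl
    · refine Subgroup.mem_sup_right ⟨embB (fS ω i), ?_⟩
      show φ4 _ = _
      rw [hφ4B, hφb]; rfl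
  exact ⟨MulEquiv.ofBijective S.π (π_bijective S hgen)⟩

end CfsgLib.SpPres
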