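import Cfsg.Agent.Lib.SpPres.Unipotent
import Cfsg.Agent.Lib.SL3Pres.Bound

/-!
The stabiliser of a point: its normal unipotent subgroup, torus and complement.
-/

set_option autoImplicit false
set_option linter.unusedSectionVars false

namespace CfsgLib.SpPres

open Matrix CfsgLib.SL2Pres CfsgLib.SL3Pres CfsgLib.Sp4Pres
open scoped MatrixGroups commutatorElement Pointwise

variable {F : Type*} [Field F] [Finite F]

local macro "sp4id'" : tactic =>
  `(tactic| (apply Subtype.ext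
             simp only [commutatorElement_def, _root_.mul_inv_rev, inv_inv, ← map_inv, Submonoid.coe_mul, coe_embA,
               coe_embB, coe_eAB, coe_eC, matA, matB, matAB, matC, fromBlocks_multiply]
             congr 1 <;> ext i j <;> fin_cases i <;> fin_cases j <;>
      simp [coe_xS, coe_yS, coe_wS, coe_dS, Matrix.SpecialLinearGroup.coe_inv, Matrix.adjugate_fin_two,
        Units.val_inv_eq_inv_val, Matrix.mul_apply, Fin.sum_univ_two] <;> (try field_simp) <;> (try ring)))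

theorem xA_embB_yS (t c : F) : embA (xS t) * embB (yS c) = embB (yS c) * embA (xS t) := by sp4id'

theorem embB_yS_eAB (t c : F) :
    embB (yS c) * eAB t = embA (xS (t * c)) * (eC (t * t * c) * eAB t) * embB (yS c) := by sp4id'

theorem embB_dS_yA (s : Fˣ) (t : F) :
    embB (dS s) * embA (yS t) = embA (yS ((s : F) * t)) * embB (dS s) := by sp4id'

theorem embB_dS_eAB (s : Fˣ) (t : F) : embB (dS s) * eAB t = eAB ((s : F) * t) * embB (dS s) := by sp4id'

theorem embA_dS_split (μ : Fˣ) :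
    embA (dS μ) = embA wS * embB (dS μ) * (embA wS)⁻¹ * embB (dS μ⁻¹) := by sp4id'

theorem xA_embB_wS (t : F) : embA (xS t) * embB wS = embB wS * eAB (-t) := by sp4id'

theorem embA_wS_sq_comm (z : SL(2, F)) : embA wS * embA wS * embB z = embB z * (embA wS * embA wS) := by sp4id'

theorem invT_xS (t : F) : invT (xS t) = yS (-t) := by
  apply Matrix.SpecialLinearGroup.ext; intro i j
  rw [coe_invT, Matrix.SpecialLinearGroup.coe_inv, Matrix.adjugate_fin_two]
  fin_cases i <;> fin_cases j <;> simp [coe_xS, coe_yS]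

theorem invT_wS : invT (wS : SL(2, F)) = wS := by
  apply Matrix.SpecialLinearGroup.ext; intro i j
  rw [coe_invT, Matrix.SpecialLinearGroup.coe_inv, Matrix.adjugate_fin_two]
  fin_cases i <;> fin_cases j <;> simp [coe_wS]

theorem invT_dS (s : Fˣ) : invT (dS s : SL(2, F)) = dS s⁻¹ := by
  apply Matrix.SpecialLinearGroup.ext; intro i j
  rw [coe_invT, Matrix.SpecialLinearGroup.coe_inv, Matrix.adjugate_fin_two]
  fin_cases i <;> fin_cases j <;> simp [coe_dS]

namespace Setting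

variable {k : ℕ} {G : Type*} [Group G] (S : Setting F (k + 1) G)

/-- The image of `SL` on the indices other than `0` and of the long root `SL₂` at `1`. -/
def sub1 : Subgroup G := (S.ψ.comp (embSL (shiftEquiv k))).range ⊔ (S.long 1).range

theorem shift_mem (Y : SL(k + 2, F)) : S.ψ (embSL (shiftEquiv k) Y) ∈ S.sub1 :=
  Subgroup.mem_sup_left ⟨Y, rfl⟩

theorem mem_sub1_of_fix {X : SL(k + 3, F)} (hc : X.1 *ᵥ Pi.single 0 1 = Pi.single 0 1)
    (hr : Pi.single 0 1 ᵥ* X.1 = Pi.single 0 1) : S.ψ X ∈ S.sub1 := by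
  obtain ⟨Y, rfl⟩ := eq_embSL_shift hc hr
  exact S.shift_mem Y

theorem mono_fix {σ : Equiv.Perm (Fin (k + 3))} (h : σ 0 = 0) : S.ψ (mono σ) ∈ S.sub1 := by
  obtain ⟨h1, h2⟩ := mono_mulVec_zero (F := F) σ
  rw [h] at h1 h2
  exact S.mem_sub1_of_fix h1 h2

theorem x_mem_sub1 {a b : Fin (k + 3)} (ha : a ≠ 0) (hb : b ≠ 0) (t : F) : S.x a b t ∈ S.sub1 := by
  rcases eq_or_ne a b with rfl | hab
  · simp [x]
  obtain ⟨a, rfl⟩ := Fin.exists_succ_eq.2 ha
  obtain ⟨b, rfl⟩ := Fin.exists_succ_eq.2 hb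
  have hab' : a ≠ b := fun e => hab (congrArg Fin.succ e)
  rw [x_eq _ hab]
  have h := S.shift_mem (SpecialLinearGroup.transvection hab' t)
  rw [embSL_transvection] at h
  convert h using 2
  refine Subtype.ext ?_
  show Matrix.transvection a.succ b.succ t = Matrix.transvection (shiftEquiv k (.inl a)) (shiftEquiv k (.inl b)) t
  rw [shiftEquiv_inl, shiftEquiv_inl]

theorem long_mem_sub1 {i : Fin (k + 3)} (hi : i ≠ 0) (z : SL(2, F)) : S.long i z ∈ S.sub1 := by
  rcases eq_or_ne i 1 with rfl | hi1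
  · exact Subgroup.mem_sup_right ⟨z, rfl⟩
  set σ := Equiv.swap (1 : Fin (k + 3)) i
  have h0 : σ 0 = 0 := Equiv.swap_apply_of_ne_of_ne (by simp) hi.symm
  have e : S.long i z = S.cj (mono σ) (S.long 1 z) := by
    show _ = S.cj (mono σ) (S.cj (mono (Equiv.swap 0 1)) (S.φ4 (embB z)))
    rw [← cj_mul]
    obtain ⟨a1, a2⟩ := mono_mulVec_zero (F := F) (Equiv.swap (0 : Fin (k + 3)) 1)
    rw [Equiv.swap_apply_left] at a1 a2
    have h12 : (1 : Fin (k + 3)) ≠ 2 := one_ne_two
    refine (S.long_eq ?_ ?_ z).symm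
    · show ((mono σ : SL(k + 3, F)).1 * (mono _ : SL(k + 3, F)).1) *ᵥ _ = _
      rw [← mulVec_mulVec, a1]
      ext a
      rw [mulVec_single_one, col_apply, mono_apply, monoSign_of_ne σ h12, Pi.single_apply,
        show σ 1 = i from Equiv.swap_apply_left 1 i]
    · show _ ᵥ* ((mono σ : SL(k + 3, F)).1 * (mono _ : SL(k + 3, F)).1) = _
      rw [← vecMul_vecMul]
      have : Pi.single i 1 ᵥ* (mono σ : SL(k + 3, F)).1 = Pi.single (1 : Fin (k + 3)) 1 := by
        ext b
        rw [single_one_vecMul, row_apply, mono_apply, Pi.single_apply]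
        rcases eq_or_ne b 1 with rfl | hb
        · rw [if_pos (Equiv.swap_apply_left 1 i).symm, if_pos rfl, monoSign_of_ne σ h12]
        · rw [if_neg (fun e => hb (σ.injective ((Equiv.swap_apply_left 1 i).trans e)).symm), if_neg hb]
      rw [this, a2]
  rw [e, cj_apply]
  exact mul_mem (mul_mem (S.mono_fix h0) (Subgroup.mem_sup_right ⟨z, rfl⟩)) (inv_mem (S.mono_fix h0))

theorem upos'_le_sub1 : S.upos' ≤ S.sub1 := by
  refine (Subgroup.closure_le _).2 ?_
  rintro g (⟨i, c, hi, rfl⟩ | ⟨i, j, t, hi, hj, hij, rfl⟩)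
  · exact S.long_mem_sub1 hi _
  · show ⁅S.x j i (-t), S.l i 1⁆ * S.l j (-(t * t)) ∈ S.sub1
    have hx := S.x_mem_sub1 hj hi (-t)
    have hl : S.l i 1 ∈ S.sub1 := S.long_mem_sub1 hi _
    exact mul_mem (mul_mem (mul_mem (mul_mem hx hl) (inv_mem hx)) (inv_mem hl)) (S.long_mem_sub1 hj _)

theorem dual_sub1_le : S.dual.sub1 ≤ S.sub1 := by
  refine sup_le ?_ ?_
  · rintro _ ⟨Y, rfl⟩
    show S.ψ (invT (embSL (shiftEquiv k) Y)) ∈ S.sub1
    rw [invT_embSL]; exact S.shift_mem _
  · rintro _ ⟨z, rfl⟩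
    rw [dual_long]; exact S.long_mem_sub1 (by simp) _

theorem dual_upos'_le_sub1 : S.dual.upos' ≤ S.sub1 := S.dual.upos'_le_sub1.trans S.dual_sub1_le

/-- The unipotent radical of the point stabiliser. -/
def radA : Subgroup G := Subgroup.closure {g | ∃ j t, j ≠ 0 ∧ g = S.x 0 j t}

/-- The part of the radical in the positive unipotent subgroup. -/
def radB : Subgroup G where
  carrier := Set.range S.row0
  one_mem' := ⟨0, S.row0_zero⟩
  mul_mem' := by rintro _ _ ⟨f, rfl⟩ ⟨f', rfl⟩; exact ⟨f + f', S.row0_add f f'⟩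
  inv_mem' := by
    rintro _ ⟨f, rfl⟩
    exact ⟨-f, (inv_eq_of_mul_eq_one_right (by rw [← row0_add, add_neg_cancel, row0_zero])).symm⟩

theorem g0_mem_radB (j : Fin (k + 3)) (t : F) : S.g0 j t ∈ S.radB := ⟨_, S.row0_single j t⟩

theorem l0_mem_radB (c : F) : S.l 0 c ∈ S.radB := by simpa [g0] using S.g0_mem_radB 0 c

theorem s0_mem_radB {j : Fin (k + 3)} (hj : j ≠ 0) (t : F) : S.s 0 j t ∈ S.radB := by
  simpa [g0, hj] using S.g0_mem_radB j t

theorem radB_le_closure : S.radB ≤ Subgroup.closure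
    ({g | ∃ c, g = S.l 0 c} ∪ {g | ∃ j t, j ≠ 0 ∧ g = S.s 0 j t}) := by
  rintro _ ⟨f, rfl⟩
  refine list_prod_mem ?_
  simp only [List.mem_map]
  rintro _ ⟨j, -, rfl⟩
  unfold g0
  split
  · exact Subgroup.subset_closure (Or.inl ⟨_, rfl⟩)
  next h => exact Subgroup.subset_closure (Or.inr ⟨j, _, h, rfl⟩)

/-- The radical. -/
def rad : Subgroup G := S.radA ⊔ S.radB

theorem x0_conj_radB (a : Fin (k + 3)) (t : F) (ha : a ≠ 0) :
    ∀ n ∈ S.radB, S.x 0 a t * n * (S.x 0 a t)⁻¹ ∈ S.radB := by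
  suffices h : S.radB ≤ S.radB.comap (MulAut.conj (S.x 0 a t)).toMonoidHom from fun n hn => h hn
  refine S.radB_le_closure.trans ((Subgroup.closure_le _).2 ?_)
  rintro g (⟨c, rfl⟩ | ⟨j, u, hj, rfl⟩)
  · show S.x 0 a t * S.l 0 c * (S.x 0 a t)⁻¹ ∈ S.radB
    rw [(S.x_l ha t c).eq, mul_inv_cancel_right]; exact S.l0_mem_radB c
  · show S.x 0 a t * S.s 0 j u * (S.x 0 a t)⁻¹ ∈ S.radB
    rcases eq_or_ne a j with rfl | haj
    · obtain ⟨σ, e0, e1⟩ := exists_perm_pair ha
      have h := congrArg (S.frame σ) (xA_conj_eAB t u)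
      simp only [map_mul, frame_xA, frame_eC, frame_eAB, e0, e1] at h
      rw [S.s_symm hj.symm, h, mul_inv_cancel_right]
      refine mul_mem (S.l0_mem_radB _) ?_
      rw [S.s_symm hj]; exact S.s0_mem_radB hj u
    · rw [(S.x_s hj.symm ha haj t u).eq, mul_inv_cancel_right]; exact S.s0_mem_radB hj u

theorem radA_normalizes : S.radA ≤ Subgroup.normalizer (S.radB : Set G) := by
  refine SL3Pres.le_normalizer_of_conj fun g hg => ?_
  induction hg using Subgroup.closure_induction'' with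
  | mem g hg =>
    obtain ⟨a, t, ha, rfl⟩ := hg
    exact S.x0_conj_radB a t ha
  | inv_mem g hg =>
    obtain ⟨a, t, ha, rfl⟩ := hg
    intro n hn
    have e : (S.x 0 a t)⁻¹ = S.x 0 a (-t) := by
      rw [x_eq _ ha.symm, x_eq _ ha.symm, ← map_inv, SpecialLinearGroup.transvection_inv]
    rw [e]; exact S.x0_conj_radB a (-t) ha n hn
  | one => simp
  | mul x y _ _ hx hy =>
    intro n hn
    rw [show x * y * n * (x * y)⁻¹ = x * (y * n * y⁻¹) * x⁻¹ by group]
    exact hx _ (hy _ hn)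

theorem coe_rad : (S.rad : Set G) = (S.radA : Set G) * (S.radB : Set G) :=
  Subgroup.coe_mul_of_left_le_normalizer_right _ _ S.radA_normalizes

theorem x0_mem_rad (j : Fin (k + 3)) (t : F) : S.x 0 j t ∈ S.rad := by
  rcases eq_or_ne j 0 with rfl | hj
  · simp [x]
  · exact Subgroup.mem_sup_left (Subgroup.subset_closure ⟨j, t, hj, rfl⟩)

theorem radB_le_rad : S.radB ≤ S.rad := le_sup_right

theorem radB_le_upos : S.radB ≤ S.upos := by rintro _ ⟨f, rfl⟩; exact S.row0_mem f

/-- Elements that conjugate the radical into itself. -/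
def radStab : Submonoid G where
  carrier := {g | ∀ n ∈ S.rad, g * n * g⁻¹ ∈ S.rad}
  one_mem' := by simp
  mul_mem' := fun {a b} ha hb n hn => by
    rw [show a * b * n * (a * b)⁻¹ = a * (b * n * b⁻¹) * a⁻¹ by group]
    exact ha _ (hb _ hn)

theorem mem_radStab_of {g : G} (hl : ∀ c, g * S.l 0 c * g⁻¹ ∈ S.rad)
    (hs : ∀ j, j ≠ 0 → ∀ t, g * S.s 0 j t * g⁻¹ ∈ S.rad)
    (hx : ∀ j, j ≠ 0 → ∀ t, g * S.x 0 j t * g⁻¹ ∈ S.rad) : g ∈ S.radStab := by
  suffices h : S.rad ≤ S.rad.comap (MulAut.conj g).toMonoidHom from fun n hn => h hn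
  refine sup_le ((Subgroup.closure_le _).2 ?_) (S.radB_le_closure.trans ((Subgroup.closure_le _).2 ?_))
  · rintro _ ⟨j, t, hj, rfl⟩; exact hx j hj t
  · rintro _ (⟨c, rfl⟩ | ⟨j, t, hj, rfl⟩)
    · exact hl c
    · exact hs j hj t

theorem conj_mem_of_commute {g n : G} {H : Subgroup G} (h : Commute g n) (hn : n ∈ H) : g * n * g⁻¹ ∈ H := by
  rwa [h.eq, mul_inv_cancel_right]

theorem x_radStab {a b : Fin (k + 3)} (ha : a ≠ 0) (hb : b ≠ 0) (t : F) : S.x a b t ∈ S.radStab := by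
  rcases eq_or_ne a b with rfl | hab
  · simp [x]
  have hinv : (S.x a b t)⁻¹ = S.x a b (-t) := by
    rw [x_eq _ hab, x_eq _ hab, ← map_inv, SpecialLinearGroup.transvection_inv]
  refine S.mem_radStab_of (fun c => conj_mem_of_commute (S.x_l hb t c) (S.radB_le_rad (S.l0_mem_radB c)))
    (fun j hj u => ?_) (fun j hj u => ?_)
  · rcases eq_or_ne b j with rfl | hbj
    · have h := S.x_conj_s hab hb ha t u
      rw [commutatorElement_def, mul_inv_eq_iff_eq_mul] at h
      rw [S.s_symm hj.symm, h]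
      refine mul_mem ?_ ?_
      · rw [S.s_symm ha]; exact S.radB_le_rad (S.s0_mem_radB ha _)
      · rw [S.s_symm hj]; exact S.radB_le_rad (S.s0_mem_radB hj u)
    · exact conj_mem_of_commute (S.x_s hj.symm hb hbj t u) (S.radB_le_rad (S.s0_mem_radB hj u))
  · rcases eq_or_ne a j with rfl | haj
    · have h := S.x_chev ha.symm hab hb.symm u t
      rw [commutatorElement_def] at h
      have e : S.x a b t * S.x 0 a u * (S.x a b t)⁻¹ = (S.x 0 b (u * t))⁻¹ * S.x 0 a u := by
        rw [← h]; group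
      rw [e]; exact mul_mem (inv_mem (S.x0_mem_rad _ _)) (S.x0_mem_rad _ _)
    · exact conj_mem_of_commute (S.x_comm hb haj t u) (S.x0_mem_rad _ _)

theorem l1_radStab (c : F) : S.l 1 c ∈ S.radStab := by
  have hu : S.l 1 c ∈ S.upos := Subgroup.subset_closure (Or.inl ⟨1, c, trivial, rfl⟩)
  refine S.mem_radStab_of
    (fun d => conj_mem_of_commute (S.l_comm 1 0 c d) (S.radB_le_rad (S.l0_mem_radB d)))
    (fun j hj t => conj_mem_of_commute
      (S.upos_comm hu (S.radB_le_upos (S.s0_mem_radB hj t))) (S.radB_le_rad (S.s0_mem_radB hj t)))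
    (fun j hj t => ?_)
  rcases eq_or_ne j 1 with rfl | hj1
  · obtain ⟨σ, e0, e1⟩ := exists_perm_pair hj
    have h := congrArg (S.frame σ) (xA_conj_embB t c)
    simp only [map_mul, frame_xA, frame_eC, frame_eAB, frame_embB, e0, e1] at h
    change S.x 0 1 t * S.l 1 c = S.l 0 (t * t * c) * S.s 1 0 (-(t * c)) * S.l 1 c * S.x 0 1 t at h
    have e : S.l 1 c * S.x 0 1 t * (S.l 1 c)⁻¹ =
        (S.l 0 (t * t * c) * S.s 1 0 (-(t * c)))⁻¹ * S.x 0 1 t := by
      have h2 : S.l 1 c * S.x 0 1 t =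
          (S.l 0 (t * t * c) * S.s 1 0 (-(t * c)))⁻¹ * (S.x 0 1 t * S.l 1 c) := by rw [h]; group
      rw [h2]; group
    rw [e]
    refine mul_mem (inv_mem (mul_mem (S.radB_le_rad (S.l0_mem_radB _)) (S.radB_le_rad ?_))) (S.x0_mem_rad _ _)
    rw [S.s_symm hj]; exact S.s0_mem_radB hj _
  · exact conj_mem_of_commute (S.long_x (by simp) hj1 _ t) (S.x0_mem_rad _ _)

theorem lm1_radStab (c : F) : S.lm 1 c ∈ S.radStab := by
  refine S.mem_radStab_of
    (fun d => conj_mem_of_commute (S.long_long (by simp) _ _) (S.radB_le_rad (S.l0_mem_radB d)))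
    (fun j hj t => ?_) (fun j hj t => ?_)
  · rcases eq_or_ne j 1 with rfl | hj1
    · obtain ⟨σ, e0, e1⟩ := exists_perm_pair hj
      have h := congrArg (S.frame σ) (embB_yS_eAB t c)
      simp only [map_mul, frame_xA, frame_eC, frame_eAB, frame_embB, e0, e1] at h
      change S.lm 1 c * S.s 1 0 t = S.x 0 1 (t * c) * (S.l 0 (t * t * c) * S.s 1 0 t) * S.lm 1 c at h
      rw [S.s_symm hj.symm, h, mul_inv_cancel_right]
      refine mul_mem (S.x0_mem_rad _ _) (mul_mem (S.radB_le_rad (S.l0_mem_radB _)) (S.radB_le_rad ?_))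
      rw [S.s_symm hj]; exact S.s0_mem_radB hj t
    · exact conj_mem_of_commute (S.long_s (by simp) hj1 _ t) (S.radB_le_rad (S.s0_mem_radB hj t))
  · rcases eq_or_ne j 1 with rfl | hj1
    · obtain ⟨σ, e0, e1⟩ := exists_perm_pair hj
      have h := congrArg (S.frame σ) (xA_embB_yS t c)
      simp only [map_mul, frame_xA, frame_embB, e0, e1] at h
      exact conj_mem_of_commute (show Commute (S.lm 1 c) (S.x 0 1 t) from h.symm) (S.x0_mem_rad _ _)
    · exact conj_mem_of_commute (S.long_x (by simp) hj1 _ t) (S.x0_mem_rad _ _)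

theorem sub1_le_radStab {g : G} (hg : g ∈ S.sub1) : g ∈ S.radStab := by
  have hY : ∀ Y, S.ψ (embSL (shiftEquiv k) Y) ∈ S.radStab := fun Y =>
    ClassicalLinear.transvection_induction (P := fun Y => S.ψ (embSL (shiftEquiv k) Y) ∈ S.radStab)
      (by simp)
      (fun a b hab t => by
        rw [embSL_transvection, ← x_eq]
        exact S.x_radStab (by rw [shiftEquiv_inl]; exact Fin.succ_ne_zero a)
          (by rw [shiftEquiv_inl]; exact Fin.succ_ne_zero b) t)
      (fun A B hA hB => by simpa using mul_mem hA hB) Y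
  have hz : ∀ z, S.long 1 z ∈ S.radStab := by
    intro z
    let K : Subgroup SL(2, F) :=
      { carrier := {z | S.long 1 z ∈ S.radStab ∧ S.long 1 z⁻¹ ∈ S.radStab}
        one_mem' := by simp
        mul_mem' := fun {a b} ha hb => ⟨by simpa using mul_mem ha.1 hb.1, by simpa using mul_mem hb.2 ha.2⟩
        inv_mem' := fun {a} ha => ⟨ha.2, by simpa using ha.1⟩ }
    have hK : K = ⊤ := closure_roots K
      (fun t => ⟨S.l1_radStab t, by rw [← SL3Pres.xS_neg]; exact S.l1_radStab (-t)⟩)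
      (fun t => ⟨S.lm1_radStab t, by rw [← SL3Pres.yS_neg]; exact S.lm1_radStab (-t)⟩)
    exact ((hK ▸ Subgroup.mem_top z : z ∈ K)).1
  rw [sub1, Subgroup.sup_eq_closure] at hg
  induction hg using Subgroup.closure_induction'' with
  | mem g hg =>
    rcases hg with ⟨Y, rfl⟩ | ⟨z, rfl⟩
    exacts [hY Y, hz z]
  | inv_mem g hg =>
    rcases hg with ⟨Y, rfl⟩ | ⟨z, rfl⟩
    · rw [MonoidHom.comp_apply, ← map_inv, ← map_inv]; exact hY _
    · rw [← map_inv]; exact hz _
  | one => exact S.radStab.one_mem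
  | mul a b _ _ ha hb => exact mul_mem ha hb

/-- The torus at `0`. -/
def tor : Fˣ →* G := (S.long 0).comp dS

theorem tor_radStab (s : Fˣ) : S.tor s ∈ S.radStab := by
  refine S.mem_radStab_of (fun c => ?_) (fun j hj t => ?_) (fun j hj t => ?_)
  · show S.long 0 (dS s) * S.long 0 (xS c) * (S.long 0 (dS s))⁻¹ ∈ S.rad
    rw [← map_inv, ← map_mul, ← map_mul, dS_xS]
    exact S.radB_le_rad (S.l0_mem_radB _)
  · obtain ⟨σ, e0, e1⟩ := exists_perm_pair hj.symm
    have h := congrArg (S.frame σ) (embB_dS_eAB s t)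
    simp only [map_mul, frame_eAB, frame_embB, e0, e1] at h
    show S.long 0 (dS s) * _ * _ ∈ S.rad
    rw [h]
    show _ * S.long 0 (dS s) * (S.long 0 (dS s))⁻¹ ∈ _
    rw [mul_inv_cancel_right]
    exact S.radB_le_rad (S.s0_mem_radB hj _)
  · obtain ⟨σ, e0, e1⟩ := exists_perm_pair hj.symm
    have h := congrArg (S.frame σ) (embB_dS_yA s t)
    simp only [map_mul, frame_yA, frame_embB, e0, e1] at h
    show S.long 0 (dS s) * _ * _ ∈ S.rad
    rw [h]
    show _ * S.long 0 (dS s) * (S.long 0 (dS s))⁻¹ ∈ _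
    rw [mul_inv_cancel_right]
    exact S.x0_mem_rad _ _

theorem long0_sub1 (z : SL(2, F)) {g : G} (hg : g ∈ S.sub1) : Commute (S.long 0 z) g := by
  have h : S.sub1 ≤ Subgroup.centralizer {S.long 0 z} := by
    refine sup_le ?_ ?_
    · rintro _ ⟨Y, rfl⟩
      rw [Subgroup.mem_centralizer_singleton_iff, long_zero]
      exact (S.comm_shift Y z).eq
    · rintro _ ⟨z', rfl⟩
      rw [Subgroup.mem_centralizer_singleton_iff]
      exact (S.long_long (by simp) z z').symm.eq
  exact (Subgroup.mem_centralizer_singleton_iff.1 (h hg)).symm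

/-- The stabiliser of the point. -/
def par : Subgroup G := S.rad ⊔ (S.tor.range ⊔ S.sub1)

theorem coe_par : (S.par : Set G) = (S.rad : Set G) * ((S.tor.range : Set G) * (S.sub1 : Set G)) := by
  have h1 : S.sub1 ≤ Subgroup.normalizer (S.tor.range : Set G) := SL3Pres.le_normalizer_of_conj (by
    rintro g hg _ ⟨s, rfl⟩
    exact conj_mem_of_commute (S.long0_sub1 _ hg).symm ⟨s, rfl⟩)
  have h2 : S.tor.range ⊔ S.sub1 ≤ Subgroup.normalizer (S.rad : Set G) := sup_le
    (SL3Pres.le_normalizer_of_conj (by rintro _ ⟨s, rfl⟩ n hn; exact S.tor_radStab s n hn))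
    (SL3Pres.le_normalizer_of_conj fun g hg n hn => S.sub1_le_radStab hg n hn)
  rw [par, Subgroup.coe_mul_of_right_le_normalizer_left _ _ h2,
    Subgroup.coe_mul_of_right_le_normalizer_left _ _ h1]

theorem rad_le_par : S.rad ≤ S.par := le_sup_left

theorem sub1_le_par : S.sub1 ≤ S.par := le_sup_of_le_right le_sup_right

theorem tor_mem_par (s : Fˣ) : S.tor s ∈ S.par := Subgroup.mem_sup_right (Subgroup.mem_sup_left ⟨s, rfl⟩)

theorem ψ_dS_split (μ : Fˣ) :
    S.ψ (embSL (e10 (k + 1)) (dS μ)) = S.long 1 (dS μ) * S.long 0 (dS μ⁻¹) := by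
  rw [← S.compat, ← embA_eq_levi, embA_dS_split, map_mul, long_zero]
  congr 1
  obtain ⟨a1, -⟩ := mono_mulVec_zero (F := F) (1 : Equiv.Perm (Fin (k + 3)))
  have h := S.frame_longA 1 (dS μ)
  rw [Equiv.Perm.one_apply] at h
  rw [← h]
  show S.φ4 _ = S.cj (mono 1) (S.φ4 _)
  rw [show (mono 1 : SL(k + 3, F)) = 1 from Subtype.ext (by
    ext a b
    rw [mono_apply]
    simp [monoSign, Matrix.one_apply]), map_one]
  rfl

theorem mem_of_col {H : Subgroup G} (hY : ∀ Y, S.ψ (embSL (shiftEquiv k) Y) ∈ H)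
    (hx : ∀ j t, S.x 0 j t ∈ H) (hd : ∀ μ, S.ψ (embSL (e10 (k + 1)) (dS μ)) ∈ H)
    {A : SL(k + 3, F)} {c : F} (hA : A.1 *ᵥ Pi.single 0 1 = c • Pi.single 0 1) : S.ψ A ∈ H := by
  have hc : c ≠ 0 := by
    rintro rfl
    rw [zero_smul] at hA
    have h := congrArg ((A⁻¹).1 *ᵥ ·) hA
    simp only [mulVec_mulVec, mulVec_zero, show (A⁻¹).1 * A.1 = 1 from congrArg Subtype.val (inv_mul_cancel A),
      one_mulVec] at h
    simpa using congrFun h 0
  suffices h : ∀ M : SL(k + 3, F), M.1 *ᵥ Pi.single 0 1 = Pi.single 0 1 → S.ψ M ∈ H by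
    set D := embSL (e10 (k + 1)) (dS (Units.mk0 c hc) : SL(2, F))
    have hD : D.1 *ᵥ Pi.single 0 1 = c⁻¹ • Pi.single 0 1 := by
      ext a
      obtain ⟨a, rfl⟩ := (e10 (k + 1)).surjective a
      rw [mulVec_single_one, col_apply, ← e10_one (k + 1), coe_embSL, blk_apply, Pi.smul_apply, Pi.single_apply]
      rcases a with a | a
      · fin_cases a <;> simp [coe_dS, (e10 (k + 1)).injective.eq_iff, Units.val_inv_eq_inv_val]
      · simp [(e10 (k + 1)).injective.eq_iff]
    have h1 := h (D * A) (by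
      show (D.1 * A.1) *ᵥ _ = _
      rw [← mulVec_mulVec, hA, mulVec_smul, hD, smul_smul, mul_inv_cancel₀ hc, one_smul])
    have h2 := mul_mem (inv_mem (hd (Units.mk0 c hc))) h1
    rwa [map_mul, inv_mul_cancel_left] at h2
  suffices h : ∀ (L : List (Fin (k + 3))) (M : SL(k + 3, F)), M.1 *ᵥ Pi.single 0 1 = Pi.single 0 1 →
      (∀ j, j ≠ 0 → j ∉ L → M.1 0 j = 0) → S.ψ M ∈ H from
    fun M hM => h (List.finRange _) M hM (fun j _ hj => absurd (List.mem_finRange j) hj)
  intro L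
  induction L with
  | nil =>
    intro M hM h
    obtain ⟨Y, rfl⟩ := eq_embSL_shift (X := M) hM (by
      ext b
      rw [single_one_vecMul, row_apply, Pi.single_apply]
      rcases eq_or_ne b 0 with rfl | hb
      · rw [if_pos rfl]
        simpa [mulVec_single_one] using congrFun hM 0
      · rw [if_neg hb]; exact h b hb List.not_mem_nil)
    exact hY Y
  | cons j L ih =>
    intro M hM h
    rcases eq_or_ne j 0 with rfl | hj
    · exact ih M hM fun b hb hbL => h b hb (by simp [hb, hbL])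
    set T : SL(k + 3, F) := SpecialLinearGroup.transvection hj.symm (-(M.1 0 j))
    have hcol : ∀ a, M.1 a 0 = if a = 0 then 1 else 0 := fun a => by
      simpa [mulVec_single_one, Pi.single_apply] using congrFun hM a
    have e : ∀ a b, (M * T).1 a b = if b = j then M.1 a b + M.1 a 0 * (-(M.1 0 j)) else M.1 a b := by
      intro a b
      show (M.1 * Matrix.transvection 0 j (-(M.1 0 j)) : Matrix (Fin (k + 3)) (Fin (k + 3)) F) a b = _
      rw [transvection, mul_add, mul_one, Matrix.add_apply]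
      rcases eq_or_ne b j with rfl | hb
      · rw [if_pos rfl, mul_single_apply_same]
      · rw [if_neg hb, mul_single_apply_of_ne _ _ _ _ _ hb, add_zero]
    have h1 := ih (M * T)
      (by
        ext a
        rw [mulVec_single_one, col_apply, e, if_neg hj.symm, hcol, Pi.single_apply])
      (fun b hb hbL => by
        rw [e]
        rcases eq_or_ne b j with rfl | hbj
        · rw [if_pos rfl, hcol, if_pos rfl]; ring
        · rw [if_neg hbj]; exact h b hb (by simp [hbj, hbL]))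
    have h2 : S.ψ T ∈ H := by rw [← x_eq _ hj.symm]; exact hx j _
    have h3 := mul_mem h1 (inv_mem h2)
    rwa [map_mul, mul_inv_cancel_right] at h3

theorem ψ_mem_par {A : SL(k + 3, F)} {c : F} (hA : A.1 *ᵥ Pi.single 0 1 = c • Pi.single 0 1) :
    S.ψ A ∈ S.par :=
  S.mem_of_col (fun Y => S.sub1_le_par (S.shift_mem Y)) (fun j t => S.rad_le_par (S.x0_mem_rad j t))
    (fun μ => by
      rw [ψ_dS_split]
      exact mul_mem (S.sub1_le_par (S.long_mem_sub1 (by simp) _)) (S.tor_mem_par _)) hA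

theorem x_conj_w {j : Fin (k + 3)} (hj : j ≠ 0) (t : F) :
    (S.long 0 wS)⁻¹ * S.x j 0 t * S.long 0 wS = S.s 0 j (-t) := by
  obtain ⟨σ, e0, e1⟩ := exists_perm_pair hj.symm
  have h := congrArg (S.frame σ) (xA_embB_wS t)
  simp only [map_mul, frame_xA, frame_eAB, frame_embB, e0, e1] at h
  rw [mul_assoc, h, inv_mul_cancel_left]

theorem ψ_conj_w_mem_par {A : SL(k + 3, F)} {c : F} (hA : (invT A).1 *ᵥ Pi.single 0 1 = c • Pi.single 0 1) :
    (S.long 0 wS)⁻¹ * S.ψ A * S.long 0 wS ∈ S.par := by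
  set H := S.par.comap (MulAut.conj (S.long 0 wS)⁻¹).toMonoidHom
  have hH : ∀ g, g ∈ H ↔ (S.long 0 wS)⁻¹ * g * S.long 0 wS ∈ S.par := fun g => by
    show (S.long 0 wS)⁻¹ * g * (S.long 0 wS)⁻¹⁻¹ ∈ S.par ↔ _
    rw [inv_inv]
  have h := S.dual.mem_of_col (H := H)
    (fun Y => by
      rw [hH]
      show _ * S.ψ (invT (embSL _ Y)) * _ ∈ _
      rw [invT_embSL, mul_assoc, ← (S.long0_sub1 wS (S.shift_mem _)).eq, inv_mul_cancel_left]
      exact S.sub1_le_par (S.shift_mem _))
    (fun j t => by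
      rw [hH, dual_x]
      rcases eq_or_ne j 0 with rfl | hj
      · simp [x]
      rw [x_conj_w _ hj]
      exact S.rad_le_par (S.radB_le_rad (S.s0_mem_radB hj _)))
    (fun μ => by
      rw [hH]
      show _ * S.ψ (invT (embSL _ (dS μ))) * _ ∈ _
      rw [invT_embSL, invT_dS, ψ_dS_split, inv_inv,
        show (S.long 0 wS)⁻¹ * (S.long 1 (dS μ⁻¹) * S.long 0 (dS μ)) * S.long 0 wS =
          (S.long 0 wS)⁻¹ * S.long 1 (dS μ⁻¹) * S.long 0 wS *
            ((S.long 0 wS)⁻¹ * S.long 0 (dS μ) * S.long 0 wS) by group,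
        mul_assoc ((S.long 0 wS)⁻¹) (S.long 1 _), ← (S.long0_sub1 wS (S.long_mem_sub1 (by simp) _)).eq,
        inv_mul_cancel_left]
      refine mul_mem (S.sub1_le_par (S.long_mem_sub1 (by simp) _)) ?_
      have e : (wS : SL(2, F))⁻¹ * dS μ * wS = dS μ⁻¹ := by
        have h := wS_dS (F := F) μ⁻¹
        rw [inv_inv] at h
        rw [← h]; group
      rw [← map_inv, ← map_mul, ← map_mul, e]
      exact S.tor_mem_par _)
    hA
  have h' := (hH _).1 h
  change (S.long 0 wS)⁻¹ * S.ψ (invT (invT A)) * S.long 0 wS ∈ S.par at h'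
  rwa [invT_invT] at h'

end Setting

end CfsgLib.SpPres
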