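import Cfsg.Agent.Lib.SpPres.Main
import Cfsg.Agent.Lib.SLnPres.Proj
import Cfsg.Agent.Lib.SL3Pres.Main
import Cfsg.Agent.Lib.ClassicalLinear.SympBasic

/-!
Presentations of `Sp_{2n}(F)` and `PSp_{2n}(F)` for `n ≥ 3`.
-/

set_option autoImplicit false
set_option linter.unusedSectionVars false

namespace CfsgLib.SpPres

open CfsgLib.ShortPres (HasPres)
open scoped MatrixGroups

variable {F : Type*} [Field F] [Finite F]

theorem neg_one_mem_symplectic (n : ℕ) :
    (-1 : Matrix (Fin n ⊕ Fin n) (Fin n ⊕ Fin n) F) ∈ Matrix.symplecticGroup (Fin n) F := by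
  rw [SymplecticGroup.mem_iff]; simp

/-- The centre costs one relation. -/
theorem hasPres_psp {n a r : ℕ} (hn : 1 ≤ n) (h : HasPres (Matrix.symplecticGroup (Fin n) F) a r) :
    HasPres (Cfsg.PSp n F) a (r + 1) := by
  obtain ⟨R, hR, ⟨e⟩⟩ := h
  obtain ⟨w, hw⟩ := (e.surjective.comp (PresentedGroup.mk_surjective _)) ⟨-1, neg_one_mem_symplectic n⟩
  have hw' : e (PresentedGroup.mk _ w) = ⟨-1, neg_one_mem_symplectic n⟩ := hw
  obtain ⟨R', hR', e'⟩ := Sp4Pres.exists_quotient_presentation R e w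
    (fun c hc => by
      rw [hw']
      rcases (ClassicalLinear.mem_center_sp_iff hn).1 hc with h | h
      · rw [show c = 1 from Subtype.ext h]; exact one_mem _
      · rw [show c = ⟨-1, neg_one_mem_symplectic n⟩ from Subtype.ext h]; exact Subgroup.mem_zpowers _)
    (by rw [hw']; exact ClassicalLinear.mem_center_of_eq_or_neg (Or.inr rfl))
  exact ⟨R', hR'.trans (by omega), e'⟩

theorem exists_gen_of_pres {Γ : Type*} [Group Γ] {a r : ℕ} (h : HasPres Γ a r) :
    ∃ g : Fin a → Γ, Subgroup.closure (Set.range g) = ⊤ := by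
  obtain ⟨R, -, ⟨e⟩⟩ := h
  refine ⟨fun i => e (PresentedGroup.of i), ?_⟩
  rw [Set.range_comp' e PresentedGroup.of]
  change Subgroup.closure (e.toMonoidHom '' _) = ⊤
  rw [← MonoidHom.map_closure, PresentedGroup.closure_range_of,
    Subgroup.map_top_of_surjective _ e.surjective]

theorem exists_gens_sl_two : ∃ g : Fin 3 → SL(2, F), Subgroup.closure (Set.range g) = ⊤ := by
  obtain ⟨p, hp⟩ := CharP.exists F
  have : Fact p.Prime := ⟨CharP.char_is_prime F p⟩
  let _ : Algebra (ZMod p) F := ZMod.algebra F p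
  obtain ⟨ω, hω⟩ := IsCyclic.exists_generator (α := Fˣ)
  exact ⟨SL2Pres.fS ω, SL2Pres.closure_fS p hω⟩

theorem hasPres_three : HasPres (Matrix.symplecticGroup (Fin 3) F) 7 40 := by
  obtain ⟨g, hg⟩ := exists_gens_sl_two (F := F)
  exact presentation (k := 0) (a := 4) (r := 14) (c := 3) SL3Pres.presentation g hg

theorem hasPres_four : HasPres (Matrix.symplecticGroup (Fin 4) F) 8 46 := by
  obtain ⟨g, hg⟩ := exists_gen_of_pres (Γ := SL(3, F)) (a := 4) (r := 14) SL3Pres.presentation
  exact presentation (k := 1) SLnPres.hasPres_four g hg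

theorem hasPres_fifth : HasPres (Matrix.symplecticGroup (Fin 5) F) 8 51 := by
  obtain ⟨g, hg⟩ := exists_gen_of_pres (SLnPres.hasPres_four (F := F))
  exact presentation (k := 2) SLnPres.hasPres_fifth g hg

/-- Eight generators and fifty-three relations. -/
theorem hasPres_eight {n : ℕ} (hn : 4 ≤ n) : HasPres (Matrix.symplecticGroup (Fin n) F) 8 53 := by
  obtain ⟨k, rfl⟩ : ∃ k, n = k + 4 := ⟨n - 4, by omega⟩
  rcases k with _ | k
  · exact hasPres_four.mono (by norm_num)
  · obtain ⟨g, hg⟩ := exists_gen_of_pres (SLnPres.hasPres_five (F := F) (show 4 ≤ k + 4 by omega))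
    exact presentation (k := k + 2) (SLnPres.hasPres_five (by omega)) g hg

end CfsgLib.SpPres
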