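import Cfsg.Agent.Lib.SpPres.Blocks
import Cfsg.Agent.Lib.Sp4Pres.Model
import Cfsg.Agent.Lib.ClassicalLinear.Generation

/-!
A group with compatible images of `SL_n(F)` and of `Sp₄(F)` and a map onto the matrices of `Sp_{2n}(F)`:
root elements and frames.
-/

set_option autoImplicit false
set_option linter.unusedSectionVars false

namespace CfsgLib.SpPres

open Matrix CfsgLib.SL2Pres CfsgLib.SL3Pres CfsgLib.Sp4Pres
open scoped MatrixGroups commutatorElement

variable {F : Type*} [Field F] [Finite F]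

/-- Indices `(1, 0)` and the rest. -/
def e10 (k : ℕ) : Fin 2 ⊕ Fin k ≃ Fin (k + 2) :=
  (finSumFinEquiv.trans (finCongr (by omega))).trans (Equiv.swap 0 1)

theorem e10_zero (k : ℕ) : e10 k (Sum.inl 0) = 1 := by
  simp only [e10, Equiv.trans_apply]
  rw [show finCongr (show 2 + k = k + 2 by omega) (finSumFinEquiv (Sum.inl (0 : Fin 2))) = 0 from Fin.ext rfl,
    Equiv.swap_apply_left]

theorem e10_one (k : ℕ) : e10 k (Sum.inl 1) = 0 := by
  simp only [e10, Equiv.trans_apply]
  rw [show finCongr (show 2 + k = k + 2 by omega) (finSumFinEquiv (Sum.inl (1 : Fin 2))) = 1 from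
    Fin.ext (by simp), Equiv.swap_apply_right]

/-- Indices other than `0`, and `0`. -/
def shiftEquiv (k : ℕ) : Fin (k + 2) ⊕ Fin 1 ≃ Fin (k + 3) :=
  ((Equiv.sumComm _ _).trans finSumFinEquiv).trans (finCongr (by omega))

theorem shiftEquiv_inl {k : ℕ} (a : Fin (k + 2)) : shiftEquiv k (Sum.inl a) = a.succ :=
  Fin.ext (by simp [shiftEquiv])

theorem shiftEquiv_inr {k : ℕ} (a : Fin 1) : shiftEquiv k (Sum.inr a) = 0 :=
  Fin.ext (by simp [shiftEquiv])

/-! ### Identities in `Sp₄` -/

theorem embA_eq_levi (A : SL(2, F)) : embA A = levi A := by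
  refine Subtype.ext ?_
  rw [coe_embA, coe_levi, matA, leviM, Matrix.SpecialLinearGroup.coe_inv, Matrix.adjugate_fin_two]
  congr 1 <;> ext i j <;> fin_cases i <;> fin_cases j <;> simp

theorem coe_embB_xS (c : F) : (embB (xS c) : symplecticGroup (Fin 2) F).1 = upperM (single 1 1 c) := by
  rw [coe_embB, matB, upperM]
  congr 1 <;> ext i j <;> fin_cases i <;> fin_cases j <;> simp [coe_xS, single_apply]

theorem coe_embB_yS (c : F) : (embB (yS c) : symplecticGroup (Fin 2) F).1 = lowerM (single 1 1 c) := by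
  rw [coe_embB, matB, lowerM]
  congr 1 <;> ext i j <;> fin_cases i <;> fin_cases j <;> simp [coe_yS, single_apply]

theorem coe_eAB' (t : F) :
    (eAB t : symplecticGroup (Fin 2) F).1 = upperM (-(single 0 1 t + single 1 0 t)) := by
  rw [coe_eAB, matAB, upperM]
  congr 1
  ext i j; fin_cases i <;> fin_cases j <;> simp [single_apply]

theorem coe_eC' (t : F) : (eC t : symplecticGroup (Fin 2) F).1 = upperM (single 0 0 t) := by
  rw [coe_eC, matC, upperM]
  congr 1
  ext i j; fin_cases i <;> fin_cases j <;> simp [single_apply]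

theorem conjJ_embB (z : SL(2, F)) : conjJ (embB z) = (embB (invT z) : symplecticGroup (Fin 2) F) := by
  refine Subtype.ext ?_
  rw [coe_conjJ (embB z) (coe_embB z), coe_embB, matB, coe_invT, Matrix.SpecialLinearGroup.coe_inv,
    Matrix.adjugate_fin_two]
  congr 1 <;> ext i j <;> fin_cases i <;> fin_cases j <;> simp

/-! ### The setting -/

/-- Compatible images of `SL_{k+2}(F)` and `Sp₄(F)` over the symplectic group. -/
structure Setting (F : Type*) [Field F] [Finite F] (k : ℕ) (G : Type*) [Group G] where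
  ψ : SL(k + 2, F) →* G
  φ4 : symplecticGroup (Fin 2) F →* G
  π : G →* symplecticGroup (Fin (k + 2)) F
  π_ψ : ∀ A, π (ψ A) = levi A
  π_long : ∀ z, π (φ4 (embB z)) = embSp (e10 k) (embB z)
  compat : ∀ A, φ4 (levi A) = ψ (embSL (e10 k) A)
  comm : ∀ (a b : Fin (k + 2)) (h : a ≠ b), a ≠ 0 → b ≠ 0 → ∀ (t : F) (z : SL(2, F)),
    Commute (ψ (SpecialLinearGroup.transvection h t)) (φ4 (embB z))

theorem invT_embSL {α β γ : Type*} [Fintype α] [DecidableEq α] [Fintype β] [DecidableEq β] [Fintype γ]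
    [DecidableEq γ] (e : α ⊕ β ≃ γ) (A : Matrix.SpecialLinearGroup α F) :
    invT (embSL e A) = embSL e (invT A) := by
  refine Subtype.ext ?_
  rw [coe_invT, ← map_inv, coe_embSL, coe_embSL, coe_invT, blk_transpose, transpose_one]

theorem conjJ_embSp {α β γ : Type*} [Fintype α] [DecidableEq α] [Fintype β] [DecidableEq β] [Fintype γ]
    [DecidableEq γ] (e : α ⊕ β ≃ γ) (M : symplecticGroup α F) : conjJ (embSp e M) = embSp e (conjJ M) := by
  refine Subtype.ext ?_
  rw [coe_conjJ (embSp e M) (coe_embSp e M), coe_embSp, coe_conjJ M (fromBlocks_toBlocks M.1).symm]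
  simp [spBlk, blk_neg]

namespace Setting

variable {k : ℕ} {G : Type*} [Group G]

/-- The setting seen through the automorphism of the matrix of the form. -/
def dual (S : Setting F k G) : Setting F k G where
  ψ := S.ψ.comp invT
  φ4 := S.φ4.comp conjJ
  π := conjJ.comp S.π
  π_ψ A := by
    show conjJ (S.π (S.ψ (invT A))) = _
    rw [S.π_ψ, conjJ_levi, invT_invT]
  π_long z := by
    show conjJ (S.π (S.φ4 (conjJ (embB z)))) = _
    rw [conjJ_embB, S.π_long, conjJ_embSp, conjJ_embB, invT_invT]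
  compat A := by
    show S.φ4 (conjJ (levi A)) = S.ψ (invT (embSL (e10 k) A))
    rw [conjJ_levi, S.compat, invT_embSL]
  comm a b h ha hb t z := by
    show Commute (S.ψ (invT _)) (S.φ4 (conjJ (embB z)))
    rw [invT_transvection, conjJ_embB]
    exact S.comm b a h.symm hb ha (-t) (invT z)

theorem π_φ4 (S : Setting F k G) (g : symplecticGroup (Fin 2) F) : S.π (S.φ4 g) = embSp (e10 k) g := by
  have h : (S.π.comp S.φ4).eqLocus (embSp (e10 k)) = ⊤ := by
    rw [eq_top_iff, ← closure_emb, Subgroup.closure_le]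
    rintro _ (⟨A, rfl⟩ | ⟨z, rfl⟩)
    · show S.π (S.φ4 (embA A)) = embSp (e10 k) (embA A)
      rw [embA_eq_levi, S.compat, S.π_ψ, embSp_levi]
    · exact S.π_long z
  exact (h ▸ Subgroup.mem_top g : g ∈ MonoidHom.eqLocus _ _)

end Setting

/-! ### Monomial matrices -/

section Mono

variable {k : ℕ}

/-- The sign correction of a monomial matrix. -/
def monoSign (σ : Equiv.Perm (Fin (k + 3))) (a : Fin (k + 3)) : F :=
  if a = 2 then ((Equiv.Perm.sign σ : ℤ) : F) else 1

theorem monoSign_of_ne (σ : Equiv.Perm (Fin (k + 3))) {a : Fin (k + 3)} (h : a ≠ 2) :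
    (monoSign σ a : F) = 1 := if_neg h

theorem monoSign_mul_self (σ : Equiv.Perm (Fin (k + 3))) (a : Fin (k + 3)) :
    (monoSign σ a : F) * monoSign σ a = 1 := by
  unfold monoSign
  split
  · rcases Int.units_eq_one_or (Equiv.Perm.sign σ) with h | h <;> simp [h]
  · rw [one_mul]

/-- A monomial matrix of determinant one. -/
def mono (σ : Equiv.Perm (Fin (k + 3))) : SL(k + 3, F) :=
  ⟨Equiv.Perm.permMatrix F σ⁻¹ * diagonal (monoSign σ), by
    rw [det_mul, det_permutation, det_diagonal, map_inv, Int.units_inv_eq_self,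
      Finset.prod_eq_single (2 : Fin (k + 3)) (fun b _ hb => monoSign_of_ne σ hb) (by simp), monoSign, if_pos rfl]
    rcases Int.units_eq_one_or (Equiv.Perm.sign σ) with h | h <;> simp [h]⟩

theorem mono_apply (σ : Equiv.Perm (Fin (k + 3))) (a b : Fin (k + 3)) :
    (mono σ : SL(k + 3, F)).1 a b = if a = σ b then monoSign σ b else 0 := by
  show (Equiv.Perm.permMatrix F σ⁻¹ * diagonal (monoSign σ) : Matrix (Fin (k + 3)) (Fin (k + 3)) F) a b = _
  rw [mul_diagonal, Equiv.Perm.permMatrix, PEquiv.toMatrix_apply]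
  simp only [Equiv.toPEquiv_apply, Option.mem_some_iff, Equiv.Perm.inv_def, Equiv.symm_apply_eq]
  split <;> simp

theorem mono_conj_single (σ : Equiv.Perm (Fin (k + 3))) (a b : Fin (k + 3)) (t : F) :
    (mono σ : SL(k + 3, F)).1 * single a b t * ((mono σ : SL(k + 3, F)).1)ᵀ =
      single (σ a) (σ b) (monoSign σ a * t * monoSign σ b) := by
  ext i j
  rw [Matrix.mul_apply, Finset.sum_eq_single b
    (fun c _ hc => by rw [mul_single_apply_of_ne _ _ _ _ _ hc, zero_mul]) (by simp)]
  rw [Matrix.mul_apply, Finset.sum_eq_single a (fun c _ hc => by simp [single_apply, hc.symm]) (by simp),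
    transpose_apply, mono_apply, mono_apply]
  by_cases hi : i = σ a <;> by_cases hj : j = σ b <;> simp [hi, hj, single_apply, eq_comm]

theorem mono_transvection (σ : Equiv.Perm (Fin (k + 3))) {a b : Fin (k + 3)} (h : a ≠ b) (t : F) :
    mono σ * SpecialLinearGroup.transvection h t * (mono σ)⁻¹ =
      SpecialLinearGroup.transvection (fun e => h (σ.injective e) : σ a ≠ σ b)
        (monoSign σ a * t * monoSign σ b) := by
  rw [mul_inv_eq_iff_eq_mul]
  refine Subtype.ext ?_
  show (mono σ : SL(k + 3, F)).1 * transvection a b t =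
    transvection (σ a) (σ b) (monoSign σ a * t * monoSign σ b) * (mono σ : SL(k + 3, F)).1
  rw [transvection, transvection, mul_add, add_mul, mul_one, one_mul]
  congr 1
  ext i j
  rcases eq_or_ne j b with rfl | hj
  · rw [mul_single_apply_same]
    rcases eq_or_ne i (σ a) with rfl | hi
    · rw [single_mul_apply_same, mono_apply, mono_apply, if_pos rfl, if_pos rfl,
        mul_assoc (monoSign σ a * t), monoSign_mul_self, mul_one]
    · rw [single_mul_apply_of_ne _ _ _ _ _ hi, mono_apply, if_neg hi, zero_mul]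
  · rw [mul_single_apply_of_ne _ _ _ _ _ hj]
    rcases eq_or_ne i (σ a) with rfl | hi
    · rw [single_mul_apply_same, mono_apply, if_neg (fun e => hj (σ.injective e).symm), mul_zero]
    · rw [single_mul_apply_of_ne _ _ _ _ _ hi]

theorem mono_mulVec_zero (σ : Equiv.Perm (Fin (k + 3))) :
    (mono σ : SL(k + 3, F)).1 *ᵥ Pi.single 0 1 = Pi.single (σ 0) 1 ∧
      Pi.single (σ 0) 1 ᵥ* (mono σ : SL(k + 3, F)).1 = Pi.single 0 1 := by
  have h2 : (0 : Fin (k + 3)) ≠ 2 := by
    intro h
    have := congrArg Fin.val h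
    rw [Fin.val_zero, show ((2 : Fin (k + 3)) : ℕ) = 2 from Nat.mod_eq_of_lt (a := 2) (b := k + 3) (by omega)] at this
    omega
  constructor
  · ext a
    rw [mulVec_single_one, col_apply, mono_apply, monoSign_of_ne σ h2, Pi.single_apply]
  · ext b
    rw [single_one_vecMul, row_apply, mono_apply, Pi.single_apply]
    rcases eq_or_ne b 0 with rfl | hb
    · rw [if_pos rfl, if_pos rfl, monoSign_of_ne σ h2]
    · rw [if_neg (fun e => hb (σ.injective e).symm), if_neg hb]

theorem exists_perm_pair {i j : Fin (k + 3)} (h : i ≠ j) :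
    ∃ σ : Equiv.Perm (Fin (k + 3)), σ 0 = i ∧ σ 1 = j := by
  set p : Equiv.Perm (Fin (k + 3)) := Equiv.swap 0 i with hp
  refine ⟨Equiv.swap (p 1) j * p, ?_, by simp⟩
  rw [Equiv.Perm.mul_apply, show p 0 = i from Equiv.swap_apply_left _ _, Equiv.swap_apply_of_ne_of_ne ?_ h]
  intro e
  exact absurd (p.injective (e.symm.trans (Equiv.swap_apply_left 0 i).symm)) (by simp)

theorem eq_embSL_shift {X : SL(k + 3, F)} (hc : X.1 *ᵥ Pi.single 0 1 = Pi.single 0 1)
    (hr : Pi.single 0 1 ᵥ* X.1 = Pi.single 0 1) : ∃ Y : SL(k + 2, F), X = embSL (shiftEquiv k) Y := by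
  have hX : X.1 = blk (shiftEquiv k) (X.1.submatrix Fin.succ Fin.succ) (1 : Matrix (Fin 1) (Fin 1) F) := by
    ext a b
    obtain ⟨a, rfl⟩ := (shiftEquiv k).surjective a
    obtain ⟨b, rfl⟩ := (shiftEquiv k).surjective b
    rw [blk_apply]
    rw [mulVec_single_one] at hc
    rw [single_one_vecMul] at hr
    rcases a with a | a <;> rcases b with b | b
    · simp [shiftEquiv_inl]
    · simpa [shiftEquiv_inl, shiftEquiv_inr, Fin.succ_ne_zero] using congrFun hc a.succ
    · simpa [shiftEquiv_inl, shiftEquiv_inr, Fin.succ_ne_zero] using congrFun hr b.succ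
    · simpa [shiftEquiv_inr, Subsingleton.elim a 0, Subsingleton.elim b 0] using congrFun hc 0
  have hd : (X.1.submatrix Fin.succ Fin.succ).det = 1 := by
    have h := congrArg det hX
    rw [X.2, blk, det_reindex_self, det_fromBlocks_zero₁₂, det_one, mul_one] at h
    exact h.symm
  exact ⟨⟨_, hd⟩, Subtype.ext hX⟩

end Mono

namespace Setting

variable {k : ℕ} {G : Type*} [Group G] (S : Setting F (k + 1) G)

/-- Conjugation by the image of a matrix. -/
def cj : SL(k + 3, F) →* MulAut G := MulAut.conj.comp S.ψ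

theorem cj_apply (M : SL(k + 3, F)) (g : G) : S.cj M g = S.ψ M * g * (S.ψ M)⁻¹ := rfl

theorem cj_mul (M N : SL(k + 3, F)) (g : G) : S.cj (M * N) g = S.cj M (S.cj N g) := by rw [map_mul]; rfl

/-- The roots of the Levi subgroup. -/
def x (i j : Fin (k + 3)) (t : F) : G :=
  if h : i ≠ j then S.ψ (SpecialLinearGroup.transvection h t) else 1

theorem x_eq {i j : Fin (k + 3)} (h : i ≠ j) (t : F) :
    S.x i j t = S.ψ (SpecialLinearGroup.transvection h t) := dif_pos h

theorem comm_shift (Y : SL(k + 2, F)) (z : SL(2, F)) :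
    Commute (S.ψ (embSL (shiftEquiv k) Y)) (S.φ4 (embB z)) := by
  have h : (Subgroup.centralizer {S.φ4 (embB z)}).comap (S.ψ.comp (embSL (shiftEquiv k))) = ⊤ :=
    ClassicalLinear.eq_top_of_transvection_mem fun a b hab t => by
      rw [Subgroup.mem_comap, Subgroup.mem_centralizer_singleton_iff, MonoidHom.comp_apply, embSL_transvection]
      exact (S.comm _ _ _ (by rw [shiftEquiv_inl]; exact Fin.succ_ne_zero a)
        (by rw [shiftEquiv_inl]; exact Fin.succ_ne_zero b) t z).eq
  have hm : Y ∈ (Subgroup.centralizer {S.φ4 (embB z)}).comap (S.ψ.comp (embSL (shiftEquiv k))) :=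
    h ▸ Subgroup.mem_top Y
  exact Subgroup.mem_centralizer_singleton_iff.1 hm

/-- The long root `SL₂` at an index. -/
def long (i : Fin (k + 3)) : SL(2, F) →* G :=
  (S.cj (mono (Equiv.swap 0 i))).toMonoidHom.comp (S.φ4.comp embB)

theorem long_eq {M : SL(k + 3, F)} {i : Fin (k + 3)} (hc : M.1 *ᵥ Pi.single 0 1 = Pi.single i 1)
    (hr : Pi.single i 1 ᵥ* M.1 = Pi.single 0 1) (z : SL(2, F)) :
    S.cj M (S.φ4 (embB z)) = S.long i z := by
  set M₀ : SL(k + 3, F) := mono (Equiv.swap 0 i)
  obtain ⟨hc0, hr0⟩ := mono_mulVec_zero (F := F) (Equiv.swap 0 i)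
  rw [Equiv.swap_apply_left] at hc0 hr0
  have e1 : (M₀⁻¹).1 * M₀.1 = 1 := congrArg Subtype.val (inv_mul_cancel M₀)
  have e2 : M₀.1 * (M₀⁻¹).1 = 1 := congrArg Subtype.val (mul_inv_cancel M₀)
  obtain ⟨Y, hY⟩ := eq_embSL_shift (X := M₀⁻¹ * M)
    (by
      show ((M₀⁻¹).1 * M.1) *ᵥ Pi.single 0 1 = _
      rw [← mulVec_mulVec, hc, ← hc0, mulVec_mulVec, e1, one_mulVec])
    (by
      show Pi.single 0 1 ᵥ* ((M₀⁻¹).1 * M.1) = _
      rw [← vecMul_vecMul, ← hr0, vecMul_vecMul _ M₀.1, e2, vecMul_one, hr, hr0])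
  rw [show M = M₀ * embSL (shiftEquiv k) Y by rw [← hY, mul_inv_cancel_left], cj_mul, S.cj_apply (embSL _ Y),
    (S.comm_shift Y z).eq, mul_inv_cancel_right]
  rfl

theorem long_eq_mono (σ : Equiv.Perm (Fin (k + 3))) (z : SL(2, F)) :
    S.cj (mono σ) (S.φ4 (embB z)) = S.long (σ 0) z :=
  S.long_eq (mono_mulVec_zero σ).1 (mono_mulVec_zero σ).2 z

theorem long_zero (z : SL(2, F)) : S.long 0 z = S.φ4 (embB z) := by
  rw [← S.long_eq (M := 1) (i := 0) (by ext; simp [Matrix.one_apply, Pi.single_apply])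
    (by ext; simp [Matrix.one_apply, Pi.single_apply]) z, map_one]; rfl

/-- The positive long root elements. -/
def l (i : Fin (k + 3)) (c : F) : G := S.long i (xS c)

/-- The negative long root elements. -/
def lm (i : Fin (k + 3)) (c : F) : G := S.long i (yS c)

/-- The positive short root elements outside the Levi subgroup. -/
def s (i j : Fin (k + 3)) (t : F) : G := ⁅S.x j i (-t), S.l i 1⁆ * S.l j (-(t * t))

theorem dual_x (i j : Fin (k + 3)) (t : F) : S.dual.x i j t = S.x j i (-t) := by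
  by_cases h : i = j
  · subst h; simp [x]
  · rw [x_eq _ h, x_eq _ (Ne.symm h)]
    show S.ψ (invT _) = _
    rw [invT_transvection]

theorem invT_mono (σ : Equiv.Perm (Fin (k + 3))) : invT (mono σ : SL(k + 3, F)) = mono σ := by
  have h : (mono σ : SL(k + 3, F)).1 * ((mono σ : SL(k + 3, F)).1)ᵀ = 1 := by
    ext a b
    rw [Matrix.mul_apply, Finset.sum_eq_single (σ⁻¹ a) (fun c _ hc => by
      rw [mono_apply, if_neg (fun e => hc (by simp [e])), zero_mul]) (by simp), transpose_apply, mono_apply,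
      mono_apply]
    by_cases hab : a = b
    · subst hab; simp [monoSign_mul_self]
    · simp [Matrix.one_apply_ne hab, Ne.symm hab]
  have h' : ((mono σ : SL(k + 3, F))⁻¹).1 = ((mono σ : SL(k + 3, F)).1)ᵀ := by
    have e1 : ((mono σ : SL(k + 3, F))⁻¹).1 * (mono σ : SL(k + 3, F)).1 = 1 :=
      congrArg Subtype.val (inv_mul_cancel (mono σ : SL(k + 3, F)))
    rw [← mul_one ((mono σ : SL(k + 3, F))⁻¹).1, ← h, ← mul_assoc, e1, one_mul]
  refine Subtype.ext ?_
  rw [coe_invT, h', transpose_transpose]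

theorem dual_long (i : Fin (k + 3)) (z : SL(2, F)) : S.dual.long i z = S.long i (invT z) := by
  show S.ψ (invT (mono _)) * S.φ4 (conjJ (embB z)) * (S.ψ (invT (mono _)))⁻¹ = _
  rw [invT_mono, conjJ_embB]; rfl

/-! ### Frames -/

/-- The image of `Sp₄` at a pair of indices. -/
def frame (σ : Equiv.Perm (Fin (k + 3))) : symplecticGroup (Fin 2) F →* G :=
  (S.cj (mono σ)).toMonoidHom.comp S.φ4

variable (σ : Equiv.Perm (Fin (k + 3)))

theorem one_ne_two : (1 : Fin (k + 3)) ≠ 2 := by
  intro h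
  have := congrArg Fin.val h
  rw [Fin.val_one, show ((2 : Fin (k + 3)) : ℕ) = 2 from Nat.mod_eq_of_lt (a := 2) (b := k + 3) (by omega)] at this
  omega

theorem zero_ne_two : (0 : Fin (k + 3)) ≠ 2 := by
  intro h
  have := congrArg Fin.val h
  rw [Fin.val_zero, show ((2 : Fin (k + 3)) : ℕ) = 2 from Nat.mod_eq_of_lt (a := 2) (b := k + 3) (by omega)] at this
  omega

theorem frame_levi_transvection {a b : Fin 2} (h : a ≠ b) (t : F) :
    S.frame σ (levi (SpecialLinearGroup.transvection h t)) =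
      S.x (σ (e10 (k + 1) (Sum.inl a))) (σ (e10 (k + 1) (Sum.inl b))) t := by
  have hne : ∀ a : Fin 2, e10 (k + 1) (Sum.inl a) ≠ 2 := by
    intro a
    fin_cases a
    · exact (e10_zero (k + 1)).symm ▸ one_ne_two
    · exact (e10_one (k + 1)).symm ▸ zero_ne_two
  show S.ψ (mono σ) * S.φ4 (levi _) * (S.ψ (mono σ))⁻¹ = _
  rw [S.compat, ← map_inv, ← map_mul, ← map_mul, embSL_transvection, mono_transvection, monoSign_of_ne σ (hne a),
    monoSign_of_ne σ (hne b), one_mul, mul_one, x_eq]

theorem frame_xA (t : F) : S.frame σ (embA (xS t)) = S.x (σ 1) (σ 0) t := by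
  rw [embA_eq_levi, show xS t = SpecialLinearGroup.transvection (show (0 : Fin 2) ≠ 1 by decide) t from
    Subtype.ext (by rw [coe_xS]; ext i j; fin_cases i <;> fin_cases j <;>
      simp [SpecialLinearGroup.transvection_coe, single_apply]), frame_levi_transvection, e10_zero, e10_one]

theorem frame_yA (t : F) : S.frame σ (embA (yS t)) = S.x (σ 0) (σ 1) t := by
  rw [embA_eq_levi, show yS t = SpecialLinearGroup.transvection (show (1 : Fin 2) ≠ 0 by decide) t from
    Subtype.ext (by rw [coe_yS]; ext i j; fin_cases i <;> fin_cases j <;>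
      simp [SpecialLinearGroup.transvection_coe, single_apply]), frame_levi_transvection, e10_zero, e10_one]

theorem frame_embB (z : SL(2, F)) : S.frame σ (embB z) = S.long (σ 0) z := S.long_eq_mono σ z

theorem frame_longA (z : SL(2, F)) :
    S.frame σ (embA wS * embB z * (embA wS)⁻¹) = S.long (σ 1) z := by
  set W : SL(k + 3, F) := embSL (e10 (k + 1)) wS with hW
  have hWc : W.1 *ᵥ Pi.single 0 1 = Pi.single 1 1 := by
    ext a
    obtain ⟨a, rfl⟩ := (e10 (k + 1)).surjective a
    rw [mulVec_single_one, col_apply, ← e10_one (k + 1), ← e10_zero (k + 1), hW, coe_embSL, blk_apply,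
      Pi.single_apply]
    rcases a with a | a
    · fin_cases a <;> simp [coe_wS, (e10 (k + 1)).injective.eq_iff]
    · simp [(e10 (k + 1)).injective.eq_iff]
  have hWr : Pi.single 1 1 ᵥ* W.1 = Pi.single 0 1 := by
    ext a
    obtain ⟨a, rfl⟩ := (e10 (k + 1)).surjective a
    rw [single_one_vecMul, row_apply, ← e10_one (k + 1), ← e10_zero (k + 1), hW, coe_embSL, blk_apply,
      Pi.single_apply]
    rcases a with a | a
    · fin_cases a <;> simp [coe_wS, (e10 (k + 1)).injective.eq_iff]
    · simp [(e10 (k + 1)).injective.eq_iff]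
  have hMc : (mono σ : SL(k + 3, F)).1 *ᵥ Pi.single 1 1 = Pi.single (σ 1) 1 := by
    ext a
    rw [mulVec_single_one, col_apply, mono_apply, monoSign_of_ne σ one_ne_two, Pi.single_apply]
  have hMr : Pi.single (σ 1) 1 ᵥ* (mono σ : SL(k + 3, F)).1 = Pi.single 1 1 := by
    ext b
    rw [single_one_vecMul, row_apply, mono_apply, Pi.single_apply]
    rcases eq_or_ne b 1 with rfl | hb
    · rw [if_pos rfl, if_pos rfl, monoSign_of_ne σ one_ne_two]
    · rw [if_neg (fun e => hb (σ.injective e).symm), if_neg hb]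
  rw [← S.long_eq (M := mono σ * W) (i := σ 1)
    (by
      show ((mono σ : SL(k + 3, F)).1 * W.1) *ᵥ _ = _
      rw [← mulVec_mulVec, hWc, hMc])
    (by
      show _ ᵥ* ((mono σ : SL(k + 3, F)).1 * W.1) = _
      rw [← vecMul_vecMul, hMr, hWr]) z, cj_mul]
  show S.cj (mono σ) (S.φ4 (embA wS * embB z * (embA wS)⁻¹)) = _
  rw [map_mul S.φ4, map_mul S.φ4, map_inv S.φ4, embA_eq_levi, S.compat]
  rfl

theorem frame_eC (c : F) : S.frame σ (eC c) = S.l (σ 1) c := by
  rw [← conj_c, frame_longA]; rfl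

end Setting

end CfsgLib.SpPres
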