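import Cfsg.Agent.Lib.SpPres.Parabolic
import Cfsg.Agent.Lib.InvCentralizers.SLParabolic

/-!
The stabiliser of a vector in `Sp₄(F)`, and the images of `Sp₄(F)` in the cosets of the point stabiliser.
-/

set_option autoImplicit false
set_option linter.unusedSectionVars false

namespace CfsgLib.SpPres

open Matrix CfsgLib.SL2Pres CfsgLib.SL3Pres CfsgLib.Sp4Pres
open scoped MatrixGroups commutatorElement

variable {F : Type*} [Field F] [Finite F] {γ : Type*} [Fintype γ] [DecidableEq γ]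

theorem vecMul_inr_of_fix {g : symplecticGroup γ F} {j : γ}
    (h : g.1 *ᵥ Pi.single (Sum.inl j) 1 = Pi.single (Sum.inl j) 1) :
    Pi.single (Sum.inr j) 1 ᵥ* g.1 = Pi.single (Sum.inr j) 1 := by
  have hg : g.1ᵀ * J γ F * g.1 = J γ F := SymplecticGroup.mem_iff'.1 g.2
  have hJ : J γ F *ᵥ Pi.single (Sum.inl j) 1 = Pi.single (Sum.inr j) 1 := by
    ext (a | a) <;> simp [J, Matrix.one_apply, Pi.single_apply]
  conv_lhs => rw [← hJ, ← mulVec_transpose, mulVec_mulVec]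
  conv_rhs => rw [← hJ, ← hg, ← mulVec_mulVec, h]

theorem vecMul_inl_of_fix {g : symplecticGroup γ F} {j : γ}
    (h : g.1 *ᵥ Pi.single (Sum.inr j) 1 = Pi.single (Sum.inr j) 1) :
    Pi.single (Sum.inl j) 1 ᵥ* g.1 = Pi.single (Sum.inl j) 1 := by
  have hg : g.1ᵀ * J γ F * g.1 = J γ F := SymplecticGroup.mem_iff'.1 g.2
  have hJ : J γ F *ᵥ Pi.single (Sum.inr j) 1 = -Pi.single (Sum.inl j) 1 := by
    ext (a | a) <;> simp [J, Matrix.one_apply, Pi.single_apply]
  rw [← neg_inj, ← neg_vecMul]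
  conv_lhs => rw [← hJ, ← mulVec_transpose, mulVec_mulVec]
  conv_rhs => rw [← hJ, ← hg, ← mulVec_mulVec, h]

theorem coe_longA (z : SL(2, F)) :
    (embA wS * embB z * (embA wS)⁻¹ : symplecticGroup (Fin 2) F).1 =
      fromBlocks !![z.1 0 0, 0; 0, 1] !![z.1 0 1, 0; 0, 0] !![z.1 1 0, 0; 0, 0] !![z.1 1 1, 0; 0, 1] := by
  rw [← map_inv, Submonoid.coe_mul, Submonoid.coe_mul, coe_embA, coe_embA, coe_embB, matA, matA, matB,
    fromBlocks_multiply, fromBlocks_multiply]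
  congr 1 <;> ext i j <;> fin_cases i <;> fin_cases j <;>
    simp [coe_wS, Matrix.SpecialLinearGroup.coe_inv, Matrix.adjugate_fin_two]

theorem exists_longA_of_fix {g : symplecticGroup (Fin 2) F}
    (hl : g.1 *ᵥ Pi.single (Sum.inl 1) 1 = Pi.single (Sum.inl 1) 1)
    (hr : g.1 *ᵥ Pi.single (Sum.inr 1) 1 = Pi.single (Sum.inr 1) 1) :
    ∃ z : SL(2, F), g = embA wS * embB z * (embA wS)⁻¹ := by
  have h1 := vecMul_inr_of_fix hl
  have h2 := vecMul_inl_of_fix hr
  rw [mulVec_single_one] at hl hr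
  rw [single_one_vecMul] at h1 h2
  have cl := congrFun hl; have cr := congrFun hr; have c1 := congrFun h1; have c2 := congrFun h2
  simp only [col_apply, row_apply, Pi.single_apply] at cl cr c1 c2
  have hg : g.1ᵀ * J (Fin 2) F * g.1 = J (Fin 2) F := SymplecticGroup.mem_iff'.1 g.2
  have hd : g.1 (.inl 0) (.inl 0) * g.1 (.inr 0) (.inr 0) - g.1 (.inl 0) (.inr 0) * g.1 (.inr 0) (.inl 0) = 1 := by
    have h := congrFun (congrFun hg (.inl 0)) (.inr 0)
    simp [Matrix.mul_apply, J, Fintype.sum_sum_type, Fin.sum_univ_two, c1, c2] at h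
    linear_combination -h
  refine ⟨⟨!![g.1 (.inl 0) (.inl 0), g.1 (.inl 0) (.inr 0); g.1 (.inr 0) (.inl 0), g.1 (.inr 0) (.inr 0)],
    by rw [det_fin_two_of]; exact hd⟩, Subtype.ext (Eq.trans ?_ (coe_longA _).symm)⟩
  ext (a | a) (b | b) <;> fin_cases a <;> fin_cases b <;> simp [cl, cr, c1, c2]

theorem exists_stab_decomp {h : symplecticGroup (Fin 2) F}
    (hh : h.1 *ᵥ Pi.single (Sum.inl 1) 1 = Pi.single (Sum.inl 1) 1) :
    ∃ (c t y : F) (z : SL(2, F)),
      h = embB (xS c) * eAB t * embA (yS y) * (embA wS * embB z * (embA wS)⁻¹) := by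
  have c1 := congrFun (vecMul_inr_of_fix hh)
  simp only [single_one_vecMul, row_apply] at c1
  set y := -h.1 (.inr 0) (.inr 1)
  set t := -h.1 (.inl 0) (.inr 1)
  set c := h.1 (.inl 1) (.inr 1) - t * y
  set q : symplecticGroup (Fin 2) F := embB (xS c) * eAB t * embA (yS y)
  have hq : ∀ v : Fin 2 ⊕ Fin 2 → F, q.1 *ᵥ v = (matB (xS c)) *ᵥ ((matAB t) *ᵥ ((matA (yS y)) *ᵥ v)) := fun v => by
    rw [mulVec_mulVec, mulVec_mulVec]; rfl
  have e1 : q.1 *ᵥ Pi.single (Sum.inl 1) 1 = h.1 *ᵥ Pi.single (Sum.inl 1) 1 := by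
    rw [hh, hq]
    ext (a | a) <;> fin_cases a <;>
      simp [matA, matB, matAB, coe_xS, coe_yS, Matrix.mulVec, dotProduct, Fintype.sum_sum_type, Fin.sum_univ_two]
  have e2 : q.1 *ᵥ Pi.single (Sum.inr 1) 1 = h.1 *ᵥ Pi.single (Sum.inr 1) 1 := by
    rw [hq, mulVec_single_one h.1]
    have h11 : h.1 (.inr 1) (.inr 1) = 1 := by rw [c1]; simp
    ext (a | a) <;> fin_cases a <;>
      simp [matA, matB, matAB, coe_xS, coe_yS, Matrix.mulVec, dotProduct, Fintype.sum_sum_type, Fin.sum_univ_two,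
        y, t, c, h11]
  have key : ∀ v, q.1 *ᵥ v = h.1 *ᵥ v → (q⁻¹ * h).1 *ᵥ v = v := fun v hv => by
    show ((q⁻¹).1 * h.1) *ᵥ v = v
    rw [← mulVec_mulVec, ← hv, mulVec_mulVec, show (q⁻¹).1 * q.1 = 1 from congrArg Subtype.val (inv_mul_cancel q),
      one_mulVec]
  obtain ⟨z, hz⟩ := exists_longA_of_fix (key _ e1) (key _ e2)
  exact ⟨c, t, y, z, eq_mul_of_inv_mul_eq hz⟩

theorem exists_coset_rep (h : symplecticGroup (Fin 2) F) :
    (∃ (a b c : F) (A : SL(2, F)), h.1 *ᵥ Pi.single (Sum.inl 1) 1 =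
        (conjJ (embB (xS a) * eAB b * eC c) * levi A).1 *ᵥ Pi.single (Sum.inl 1) 1) ∨
      ∃ A : SL(2, F), h.1 *ᵥ Pi.single (Sum.inl 1) 1 = (levi A * embB wS).1 *ᵥ Pi.single (Sum.inl 1) 1 := by
  set v := h.1 *ᵥ Pi.single (Sum.inl 1) 1 with hv
  have hsplit : v = Sum.elim (v ∘ Sum.inl) (v ∘ Sum.inr) := (Sum.elim_comp_inl_inr v).symm
  by_cases hp : v ∘ Sum.inl = 0
  · right
    have hr : v ∘ Sum.inr ≠ 0 := by
      intro hr
      have h0 : v = 0 := by rw [hsplit, hp, hr]; ext (a | a) <;> rfl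
      have := congrArg ((h⁻¹).1 *ᵥ ·) h0
      simp only [hv, mulVec_mulVec, show (h⁻¹).1 * h.1 = 1 from congrArg Subtype.val (inv_mul_cancel h),
        one_mulVec, mulVec_zero] at this
      simpa using congrFun this (Sum.inl 1)
    obtain ⟨B, hB⟩ := InvCentralizers.SLParabolic.exists_sl_mulVec (ι := Fin 2) (by simp)
      (c := Pi.single 1 1) (c' := -(v ∘ Sum.inr)) (by simp) (neg_ne_zero.2 hr)
    refine ⟨invT B, ?_⟩
    have e : (embB (wS : SL(2, F))).1 *ᵥ Pi.single (Sum.inl 1) 1 = Sum.elim (0 : Fin 2 → F) (-Pi.single 1 1) := by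
      rw [coe_embB]
      ext (a | a) <;> fin_cases a <;>
        simp [matB, coe_wS, Matrix.mulVec, dotProduct, Fintype.sum_sum_type, Fin.sum_univ_two]
    rw [Submonoid.coe_mul, ← mulVec_mulVec, e, coe_levi, leviM, fromBlocks_mulVec, hsplit, hp, ← map_inv, coe_invT, coe_invT, inv_inv, transpose_transpose]
    simp only [Sum.elim_comp_inl, Sum.elim_comp_inr, mulVec_zero, zero_mulVec, zero_add, mulVec_neg, hB, neg_neg,
      neg_zero]
  · left
    obtain ⟨A, hA⟩ := InvCentralizers.SLParabolic.exists_sl_mulVec (ι := Fin 2) (by simp)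
      (c := Pi.single 1 1) (c' := v ∘ Sum.inl) (by simp) hp
    obtain ⟨a, b, c, hN⟩ : ∃ a b c : F,
        -c * v (.inl 0) + b * v (.inl 1) = v (.inr 0) ∧ b * v (.inl 0) + -a * v (.inl 1) = v (.inr 1) := by
      by_cases h1 : v (.inl 1) = 0
      · have h0 : v (.inl 0) ≠ 0 := fun h0 => hp (by ext i; fin_cases i <;> assumption)
        exact ⟨0, v (.inr 1) / v (.inl 0), -(v (.inr 0) / v (.inl 0)), by rw [h1]; field_simp; ring,
          by rw [h1]; field_simp; ring⟩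
      · exact ⟨(v (.inr 0) / v (.inl 1) * v (.inl 0) - v (.inr 1)) / v (.inl 1), v (.inr 0) / v (.inl 1), 0,
          by field_simp; ring, by field_simp; ring⟩
    refine ⟨a, b, c, A, ?_⟩
    have hu : (embB (xS a) * eAB b * eC c : symplecticGroup (Fin 2) F).1 = upperM !![c, -b; -b, a] := by
      rw [Submonoid.coe_mul, Submonoid.coe_mul, coe_embB, coe_eAB, coe_eC, matB, matAB, matC, upperM,
        fromBlocks_multiply, fromBlocks_multiply]
      congr 1 <;> ext i j <;> fin_cases i <;> fin_cases j <;> simp [coe_xS]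
    have e : leviM A *ᵥ Pi.single (Sum.inl 1) 1 = Sum.elim (v ∘ Sum.inl) 0 := by
      rw [← hA, leviM, show (Pi.single (Sum.inl 1) 1 : Fin 2 ⊕ Fin 2 → F) = Sum.elim (Pi.single 1 1) 0 by
        ext (x | x) <;> simp [Pi.single_apply], fromBlocks_mulVec]
      simp only [Sum.elim_comp_inl, Sum.elim_comp_inr, mulVec_zero, zero_mulVec, add_zero]
    rw [Submonoid.coe_mul, ← mulVec_mulVec, coe_levi, e, conjJ_upper hu, lowerM, fromBlocks_mulVec]
    conv_lhs => rw [hsplit]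
    ext (x | x) <;> fin_cases x <;>
      simp [dotProduct, Fin.sum_univ_two] <;> first | linear_combination -hN.1 | linear_combination -hN.2

end CfsgLib.SpPres
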