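import Cfsg.Agent.Lib.SpPres.Setting

/-!
The positive root elements outside the Levi subgroup generate an abelian group normalised by it.
-/

set_option autoImplicit false
set_option linter.unusedSectionVars false

namespace CfsgLib.SpPres

open Matrix CfsgLib.SL2Pres CfsgLib.SL3Pres CfsgLib.Sp4Pres
open scoped MatrixGroups commutatorElement

variable {F : Type*} [Field F] [Finite F]

local macro "sp4id" : tactic =>
  `(tactic| (apply Subtype.ext
             simp only [commutatorElement_def, _root_.mul_inv_rev, inv_inv, ← map_inv, Submonoid.coe_mul, coe_embA,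
               coe_embB, coe_eAB, coe_eC, matA, matB, matAB, matC, fromBlocks_multiply]
             congr 1 <;> ext i j <;> fin_cases i <;> fin_cases j <;>
      simp [coe_xS, coe_yS, coe_wS, Matrix.SpecialLinearGroup.coe_inv, Matrix.adjugate_fin_two,
        Matrix.mul_apply, Fin.sum_univ_two] <;> (try ring)))

theorem eAB_add (t u : F) : eAB (t + u) = eAB t * eAB u := by sp4id

theorem eAB_formula (t : F) :
    eAB t = ⁅embA (xS (-t)), embB (xS 1)⁆ * eC (-(t * t)) := by sp4id

theorem eAB_formula' (t : F) :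
    eAB t = ⁅embA (yS (-t)), eC 1⁆ * embB (xS (-(t * t))) := by
  rw [commutatorElement_def, ← map_inv, ← SL3Pres.yS_neg, ← conj_c,
    show (embA wS * embB (xS (1 : F)) * (embA wS)⁻¹)⁻¹ = embA wS * embB (xS (-1 : F)) * (embA wS)⁻¹ by
      rw [SL3Pres.xS_neg, map_inv]; group, conj_c, conj_c]
  sp4id

theorem xA_conj_embB (t c : F) :
    embA (xS t) * embB (xS c) = eC (t * t * c) * eAB (-(t * c)) * embB (xS c) * embA (xS t) := by sp4id

theorem xA_conj_eAB (t u : F) :
    embA (xS t) * eAB u = eC (-(2 * t * u)) * eAB u * embA (xS t) := by sp4id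

theorem xA_eC (t c : F) : embA (xS t) * eC c = eC c * embA (xS t) := by sp4id

theorem eAB_embB (t c : F) : eAB t * embB (xS c) = embB (xS c) * eAB t := by sp4id

theorem eAB_eC (t c : F) : eAB t * eC c = eC c * eAB t := by sp4id

theorem embB_longA (z z' : SL(2, F)) :
    embB z * (embA wS * embB z' * (embA wS)⁻¹) = embA wS * embB z' * (embA wS)⁻¹ * embB z := by sp4id

namespace Setting

variable {k : ℕ} {G : Type*} [Group G] (S : Setting F (k + 1) G)

theorem conj_commute {g a b : G} (h : Commute a b) : Commute (g * a * g⁻¹) (g * b * g⁻¹) :=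
  h.map (MulAut.conj g).toMonoidHom

theorem x_comm {a b c d : Fin (k + 3)} (hbc : b ≠ c) (had : a ≠ d) (t u : F) :
    Commute (S.x a b t) (S.x c d u) := by
  rcases eq_or_ne a b with rfl | hab
  · simp [x]
  rcases eq_or_ne c d with rfl | hcd
  · simp [x]
  rw [x_eq _ hab, x_eq _ hcd]
  refine Commute.map ?_ S.ψ
  refine Subtype.ext ?_
  show Matrix.transvection a b t * Matrix.transvection c d u =
    Matrix.transvection c d u * Matrix.transvection a b t
  simp only [Matrix.transvection, mul_add, add_mul, one_mul, mul_one,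
    Matrix.single_mul_single_of_ne _ _ _ _ hbc, Matrix.single_mul_single_of_ne _ _ _ _ had.symm]
  abel

theorem x_chev {a b d : Fin (k + 3)} (hab : a ≠ b) (hbd : b ≠ d) (had : a ≠ d) (t u : F) :
    ⁅S.x a b t, S.x b d u⁆ = S.x a d (t * u) := by
  rw [x_eq _ hab, x_eq _ hbd, x_eq _ had, ← map_commutatorElement,
    ClassicalLinear.commutator_transvection had hab hbd]

theorem long_x {i a b : Fin (k + 3)} (ha : a ≠ i) (hb : b ≠ i) (z : SL(2, F)) (t : F) :
    Commute (S.long i z) (S.x a b t) := by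
  rcases eq_or_ne a b with rfl | hab
  · simp [x]
  set π₀ := Equiv.swap (0 : Fin (k + 3)) i with hπ
  have ha' : π₀ a ≠ 0 := fun e => ha (π₀.injective (e.trans (Equiv.swap_apply_right 0 i).symm))
  have hb' : π₀ b ≠ 0 := fun e => hb (π₀.injective (e.trans (Equiv.swap_apply_right 0 i).symm))
  have hab' : π₀ a ≠ π₀ b := fun e => hab (π₀.injective e)
  have key : S.x a b t = S.cj (mono π₀)
      (S.x (π₀ a) (π₀ b) (monoSign π₀ (π₀ a) * t * monoSign π₀ (π₀ b))) := by
    rw [cj_apply, x_eq _ hab', ← map_inv, ← map_mul, ← map_mul, mono_transvection, x_eq _ hab]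
    have e1 : ∀ c, π₀ (π₀ c) = c := fun c => Equiv.swap_apply_self 0 i c
    congr 1
    refine Subtype.ext ?_
    show Matrix.transvection a b t = Matrix.transvection (π₀ (π₀ a)) (π₀ (π₀ b))
      (monoSign π₀ (π₀ a) * (monoSign π₀ (π₀ a) * t * monoSign π₀ (π₀ b)) * monoSign π₀ (π₀ b))
    rw [e1, e1]
    congr 1
    linear_combination (-(t * monoSign π₀ (π₀ b) * monoSign π₀ (π₀ b))) * monoSign_mul_self (F := F) π₀ (π₀ a) -
      t * monoSign_mul_self (F := F) π₀ (π₀ b)
  rw [key, x_eq _ hab']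
  exact ((S.comm _ _ hab' ha' hb' _ z).symm).map (S.cj (mono π₀)).toMonoidHom

theorem long_long {i j : Fin (k + 3)} (h : i ≠ j) (z z' : SL(2, F)) :
    Commute (S.long i z) (S.long j z') := by
  obtain ⟨σ, rfl, rfl⟩ := exists_perm_pair h
  rw [← frame_embB, ← frame_longA]
  exact Commute.map (embB_longA z z') (S.frame σ)

theorem frame_eAB (σ : Equiv.Perm (Fin (k + 3))) (t : F) : S.frame σ (eAB t) = S.s (σ 0) (σ 1) t := by
  rw [eAB_formula, map_mul, map_commutatorElement, frame_xA, frame_embB, frame_eC]; rfl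

theorem s_symm {i j : Fin (k + 3)} (h : i ≠ j) (t : F) : S.s i j t = S.s j i t := by
  obtain ⟨σ, rfl, rfl⟩ := exists_perm_pair h
  rw [← frame_eAB, eAB_formula', map_mul, map_commutatorElement, frame_yA, frame_embB, frame_eC]; rfl

theorem s_add {i j : Fin (k + 3)} (h : i ≠ j) (t u : F) : S.s i j (t + u) = S.s i j t * S.s i j u := by
  obtain ⟨σ, rfl, rfl⟩ := exists_perm_pair h
  rw [← frame_eAB, ← frame_eAB, ← frame_eAB, eAB_add, map_mul]

theorem l_add (i : Fin (k + 3)) (t u : F) : S.l i (t + u) = S.l i t * S.l i u := by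
  rw [l, xS_add, map_mul]; rfl

theorem l_comm (i j : Fin (k + 3)) (t u : F) : Commute (S.l i t) (S.l j u) := by
  rcases eq_or_ne i j with rfl | h
  · show _ * _ = _ * _
    rw [← l_add, ← l_add, add_comm]
  · exact S.long_long h _ _

theorem x_l {a b c : Fin (k + 3)} (hbc : b ≠ c) (t u : F) : Commute (S.x a b t) (S.l c u) := by
  rcases eq_or_ne a b with rfl | hab
  · simp [x]
  rcases eq_or_ne a c with rfl | hac
  · obtain ⟨σ, rfl, rfl⟩ := exists_perm_pair hab.symm
    rw [← frame_xA, ← frame_eC]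
    exact Commute.map (xA_eC t u) (S.frame σ)
  · exact (S.long_x hac hbc _ t).symm

theorem long_s {i c d : Fin (k + 3)} (hc : c ≠ i) (hd : d ≠ i) (z : SL(2, F)) (t : F) :
    Commute (S.long i z) (S.s c d t) := by
  have h1 := S.long_x hd hc z (-t)
  have h2 := S.long_long hc.symm z (xS 1)
  have h3 := S.long_long hd.symm z (xS (-(t * t)))
  rw [s, commutatorElement_def]
  exact (((h1.mul_right h2).mul_right h1.inv_right).mul_right h2.inv_right).mul_right h3

theorem s_l {a b : Fin (k + 3)} (hab : a ≠ b) (c : Fin (k + 3)) (t u : F) :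
    Commute (S.s a b t) (S.l c u) := by
  rcases eq_or_ne c a with rfl | hca
  · obtain ⟨σ, rfl, rfl⟩ := exists_perm_pair hab
    rw [← frame_eAB, l, ← frame_embB]
    exact Commute.map (eAB_embB t u) (S.frame σ)
  rcases eq_or_ne c b with rfl | hcb
  · obtain ⟨σ, rfl, rfl⟩ := exists_perm_pair hab
    rw [← frame_eAB, ← frame_eC]
    exact Commute.map (eAB_eC t u) (S.frame σ)
  exact (S.long_s hca.symm hcb.symm _ t).symm

theorem x_s {a b c d : Fin (k + 3)} (hcd : c ≠ d) (hbc : b ≠ c) (hbd : b ≠ d) (t u : F) :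
    Commute (S.x a b t) (S.s c d u) := by
  suffices h : ∀ c d : Fin (k + 3), c ≠ d → b ≠ c → b ≠ d → a ≠ c → Commute (S.x a b t) (S.s c d u) by
    rcases eq_or_ne a c with rfl | hac
    · rw [S.s_symm hcd]; exact h d a hcd.symm hbd hbc hcd
    · exact h c d hcd hbc hbd hac
  intro c d _ hbc hbd hac
  have h1 := S.x_comm (a := a) hbd hac t (-u)
  have h2 := S.x_l (a := a) hbc t 1
  have h3 := S.x_l (a := a) hbd t (-(u * u))
  rw [s, commutatorElement_def]
  exact (((h1.mul_right h2).mul_right h1.inv_right).mul_right h2.inv_right).mul_right h3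

theorem s_s {a b c d : Fin (k + 3)} (hab : a ≠ b) (hcd : c ≠ d) (t u : F) :
    Commute (S.s a b t) (S.s c d u) := by
  suffices h : ∀ c d : Fin (k + 3), c ≠ d → c ≠ a → c ≠ b → Commute (S.s a b t) (S.s c d u) by
    by_cases hc : c ≠ a ∧ c ≠ b
    · exact h c d hcd hc.1 hc.2
    by_cases hd : d ≠ a ∧ d ≠ b
    · rw [S.s_symm hcd]; exact h d c hcd.symm hd.1 hd.2
    simp only [not_and_or, not_not] at hc hd
    have hself : Commute (S.s a b t) (S.s a b u) := by
      show _ * _ = _ * _
      rw [← S.s_add hab, ← S.s_add hab, add_comm]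
    rcases hc with rfl | rfl <;> rcases hd with rfl | rfl
    · exact absurd rfl hcd
    · exact hself
    · rw [S.s_symm hcd]; exact hself
    · exact absurd rfl hcd
  intro c d _ hca hcb
  have h1 := (S.x_s (a := d) hab hca hcb (-u) t).symm
  have h2 := S.s_l hab c t 1
  have h3 := S.s_l hab d t (-(u * u))
  show Commute _ (⁅S.x d c (-u), S.l c 1⁆ * S.l d (-(u * u)))
  rw [commutatorElement_def]
  exact (((h1.mul_right h2).mul_right h1.inv_right).mul_right h2.inv_right).mul_right h3

theorem x_conj_s {a b d : Fin (k + 3)} (hab : a ≠ b) (hbd : b ≠ d) (had : a ≠ d) (t u : F) :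
    ⁅S.x a b t, S.s b d u⁆ = S.s a d (t * u) := by
  set W := S.long d wS
  have hW : ∀ {j : Fin (k + 3)} (v : F), j ≠ d → W * S.x j d v * W⁻¹ = S.s j d v := fun {j} v hj => by
    obtain ⟨σ, rfl, rfl⟩ := exists_perm_pair hj.symm
    rw [S.s_symm hj, ← frame_xA, ← frame_eAB, ← conj_ab, map_mul, map_mul, map_inv, frame_embB]
  have h := congrArg (fun g => W * g * W⁻¹) (S.x_chev hab hbd had t u)
  simp only [commutatorElement_def] at h
  rw [hW _ had, ← hW u hbd] at *
  rw [← h, commutatorElement_def]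
  have hc : Commute W (S.x a b t) := S.long_x had hbd wS t
  calc S.x a b t * (W * S.x b d u * W⁻¹) * (S.x a b t)⁻¹ * (W * S.x b d u * W⁻¹)⁻¹
      = (S.x a b t * W) * S.x b d u * (S.x a b t * W)⁻¹ * (W * (S.x b d u)⁻¹ * W⁻¹) := by group
    _ = _ := by rw [← hc.eq]; group

/-- The basic positive root elements with indices in a set. -/
def basics (P : Fin (k + 3) → Prop) : Set G :=
  {g | (∃ i c, P i ∧ g = S.l i c) ∨ ∃ i j t, P i ∧ P j ∧ i ≠ j ∧ g = S.s i j t}

/-- The positive unipotent subgroup. -/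
def upos : Subgroup G := Subgroup.closure (S.basics fun _ => True)

/-- The positive unipotent subgroup away from `0`. -/
def upos' : Subgroup G := Subgroup.closure (S.basics fun i => i ≠ 0)

theorem upos'_le : S.upos' ≤ S.upos := by
  refine Subgroup.closure_mono ?_
  rintro g (⟨i, c, -, rfl⟩ | ⟨i, j, t, -, -, h, rfl⟩)
  · exact Or.inl ⟨i, c, trivial, rfl⟩
  · exact Or.inr ⟨i, j, t, trivial, trivial, h, rfl⟩

theorem upos_comm {g h : G} (hg : g ∈ S.upos) (hh : h ∈ S.upos) : Commute g h := by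
  have hb : ∀ g ∈ S.basics (fun _ => True), ∀ h ∈ S.basics (fun _ => True), Commute g h := by
    rintro g (⟨i, c, -, rfl⟩ | ⟨i, j, t, -, -, hij, rfl⟩) h (⟨i', c', -, rfl⟩ | ⟨i', j', t', -, -, hij', rfl⟩)
    · exact S.l_comm i i' c c'
    · exact (S.s_l hij' i t' c).symm
    · exact S.s_l hij i' t c'
    · exact S.s_s hij hij' t t'
  have h1 : S.upos ≤ Subgroup.centralizer (S.basics fun _ => True) :=
    (Subgroup.closure_le _).2 fun g hg => Subgroup.mem_centralizer_iff.2 fun h hh => (hb h hh g hg).eq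
  have h2 : S.upos ≤ Subgroup.centralizer (S.upos : Set G) := (Subgroup.closure_le _).2 fun g hg =>
    Subgroup.mem_centralizer_iff.2 fun h hh => ((Subgroup.mem_centralizer_iff.1 (h1 hh)) g hg).symm
  exact (Subgroup.mem_centralizer_iff.1 (h2 hg) h hh).symm

theorem cj_upos (A : SL(k + 3, F)) {g : G} (hg : g ∈ S.upos) : S.cj A g ∈ S.upos := by
  have hl : ∀ i c, S.l i c ∈ S.upos := fun i c => Subgroup.subset_closure (Or.inl ⟨i, c, trivial, rfl⟩)
  have hs : ∀ i j, i ≠ j → ∀ t, S.s i j t ∈ S.upos := fun i j h t =>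
    Subgroup.subset_closure (Or.inr ⟨i, j, t, trivial, trivial, h, rfl⟩)
  have hx : ∀ a b, a ≠ b → ∀ t, ∀ g ∈ S.upos, S.x a b t * g * (S.x a b t)⁻¹ ∈ S.upos := by
    intro a b hab t
    suffices h : S.upos ≤ S.upos.comap (MulAut.conj (S.x a b t)).toMonoidHom from fun g hg => h hg
    refine (Subgroup.closure_le _).2 ?_
    rintro g (⟨i, c, -, rfl⟩ | ⟨i, j, u, -, -, hij, rfl⟩)
    · show S.x a b t * S.l i c * (S.x a b t)⁻¹ ∈ S.upos
      rcases eq_or_ne b i with rfl | hb
      · obtain ⟨σ, rfl, rfl⟩ := exists_perm_pair hab.symm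
        rw [← frame_xA, l, ← frame_embB, ← map_mul, xA_conj_embB, map_mul _ _ (embA (xS t)), mul_inv_cancel_right,
          map_mul, map_mul, frame_eC, frame_eAB, frame_embB]
        exact mul_mem (mul_mem (hl _ _) (hs _ _ hab.symm _)) (hl _ _)
      · rw [(S.x_l hb t c).eq, mul_inv_cancel_right]; exact hl i c
    · show S.x a b t * S.s i j u * (S.x a b t)⁻¹ ∈ S.upos
      have key : ∀ i j : Fin (k + 3), i ≠ j → b = i → S.x a b t * S.s i j u * (S.x a b t)⁻¹ ∈ S.upos := by
        intro i j hij hb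
        subst hb
        rcases eq_or_ne a j with rfl | haj
        · obtain ⟨σ, rfl, rfl⟩ := exists_perm_pair hij
          rw [← frame_xA, ← frame_eAB, ← map_mul, xA_conj_eAB, map_mul _ _ (embA (xS t)), mul_inv_cancel_right,
            map_mul, frame_eC, frame_eAB]
          exact mul_mem (hl _ _) (hs _ _ hij _)
        · have h := S.x_conj_s hab hij haj t u
          rw [commutatorElement_def, mul_inv_eq_iff_eq_mul] at h
          rw [h]; exact mul_mem (hs _ _ haj _) (hs _ _ hij _)
      by_cases hb : b = i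
      · exact key i j hij hb
      by_cases hb' : b = j
      · rw [S.s_symm hij]; exact key j i hij.symm hb'
      rw [(S.x_s hij hb hb' t u).eq, mul_inv_cancel_right]; exact hs i j hij u
  revert g
  refine ClassicalLinear.transvection_induction (P := fun A => ∀ {g : G}, g ∈ S.upos → S.cj A g ∈ S.upos)
    (fun {g} hg => by simpa using hg) (fun a b hab t g hg => ?_) (fun A B hA hB g hg => ?_) A
  · rw [cj_apply, ← x_eq _ hab]; exact hx a b hab t g hg
  · rw [cj_mul]; exact hA (hB hg)

theorem π_long_upper (i : Fin (k + 3)) (c : F) : (S.π (S.l i c)).1 = upperM (single i i c) := by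
  show (S.π (S.ψ _ * S.φ4 (embB (xS c)) * (S.ψ _)⁻¹)).1 = _
  rw [map_mul, map_mul, map_inv, S.π_ψ, S.π_long,
    levi_conj_upper _ (embSp_upper _ _ (coe_embB_xS c)), blk_single, e10_one, mono_conj_single,
    Equiv.swap_apply_left, monoSign_of_ne _ zero_ne_two, one_mul, mul_one]

theorem π_s {i j : Fin (k + 3)} (h : i ≠ j) (t : F) :
    (S.π (S.s i j t)).1 = upperM (-(single i j t + single j i t)) := by
  obtain ⟨σ, rfl, rfl⟩ := exists_perm_pair h
  rw [← frame_eAB]
  show (S.π (S.ψ _ * S.φ4 (eAB t) * (S.ψ _)⁻¹)).1 = _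
  rw [map_mul, map_mul, map_inv, S.π_ψ, S.π_φ4, levi_conj_upper _ (embSp_upper _ _ (coe_eAB' t)),
    show (-(single 0 1 t + single 1 0 t) : Matrix (Fin 2) (Fin 2) F) =
      single 0 1 (-t) + single 1 0 (-t) by rw [neg_add, single_neg, single_neg],
    show blk (e10 (k + 1)) (single 0 1 (-t) + single 1 0 (-t)) (0 : Matrix (Fin (k + 1)) (Fin (k + 1)) F) =
      blk (e10 (k + 1)) (single 0 1 (-t)) 0 + blk (e10 (k + 1)) (single 1 0 (-t)) 0 by rw [blk_add, add_zero],
    blk_single, blk_single, e10_one, e10_zero, mul_add, add_mul, mono_conj_single, mono_conj_single,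
    monoSign_of_ne _ zero_ne_two, monoSign_of_ne _ one_ne_two, one_mul, mul_one]
  rw [neg_add, single_neg, single_neg]
  exact congrArg upperM (add_comm _ _)

/-- The root elements in row `0`. -/
def g0 (j : Fin (k + 3)) (t : F) : G := if j = 0 then S.l 0 t else S.s 0 j t

theorem g0_mem (j : Fin (k + 3)) (t : F) : S.g0 j t ∈ S.upos := by
  unfold g0
  split
  · exact Subgroup.subset_closure (Or.inl ⟨0, t, trivial, rfl⟩)
  next h => exact Subgroup.subset_closure (Or.inr ⟨0, j, t, trivial, trivial, Ne.symm h, rfl⟩)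

theorem g0_add (j : Fin (k + 3)) (t u : F) : S.g0 j (t + u) = S.g0 j t * S.g0 j u := by
  unfold g0
  split
  · exact S.l_add 0 t u
  next h => exact S.s_add (Ne.symm h) t u

/-- A product of root elements in row `0`. -/
def row0 (f : Fin (k + 3) → F) : G := ((List.finRange (k + 3)).map fun j => S.g0 j (f j)).prod

theorem row0_mem (f : Fin (k + 3) → F) : S.row0 f ∈ S.upos :=
  list_prod_mem (by simp only [List.mem_map]; rintro _ ⟨j, -, rfl⟩; exact S.g0_mem j _)

theorem row0_add (f f' : Fin (k + 3) → F) : S.row0 (f + f') = S.row0 f * S.row0 f' := by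
  suffices h : ∀ L : List (Fin (k + 3)), (L.map fun j => S.g0 j (f j + f' j)).prod =
      (L.map fun j => S.g0 j (f j)).prod * (L.map fun j => S.g0 j (f' j)).prod from h _
  intro L
  induction L with
  | nil => simp
  | cons a L ih =>
    rw [List.map_cons, List.prod_cons, ih, g0_add, List.map_cons, List.prod_cons, List.map_cons, List.prod_cons]
    have hc : Commute (S.g0 a (f' a)) (L.map fun j => S.g0 j (f j)).prod :=
      S.upos_comm (S.g0_mem _ _) (list_prod_mem (by
        simp only [List.mem_map]; rintro _ ⟨j, -, rfl⟩; exact S.g0_mem j _))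
    exact hc.mul_mul_mul_comm _ _

theorem row0_zero : S.row0 0 = 1 := by
  have h := S.row0_add 0 0
  rw [add_zero] at h
  exact left_eq_mul.1 h

theorem row0_single (j : Fin (k + 3)) (t : F) : S.row0 (Pi.single j t) = S.g0 j t := by
  have hz : ∀ i, S.g0 i 0 = 1 := fun i => by
    have h := S.g0_add i 0 0
    rw [add_zero] at h
    exact left_eq_mul.1 h
  suffices h : ∀ L : List (Fin (k + 3)), L.Nodup →
      (L.map fun i => S.g0 i ((Pi.single j t : Fin (k + 3) → F) i)).prod = if j ∈ L then S.g0 j t else 1 by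
    rw [row0, h _ (List.nodup_finRange _), if_pos (List.mem_finRange j)]
  intro L hL
  induction L with
  | nil => simp
  | cons a L ih =>
    rw [List.nodup_cons] at hL
    rw [List.map_cons, List.prod_cons, ih hL.2]
    rcases eq_or_ne a j with rfl | ha
    · simp [hL.1]
    · simp [Pi.single_eq_of_ne ha, hz, ha.symm]

theorem exists_row0_mul {g : G} (hg : g ∈ S.upos) : ∃ f, ∃ g' ∈ S.upos', g = S.row0 f * g' := by
  induction hg using Subgroup.closure_induction with
  | mem g hg =>
    rcases hg with ⟨i, c, -, rfl⟩ | ⟨i, j, t, -, -, hij, rfl⟩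
    · rcases eq_or_ne i 0 with rfl | hi
      · exact ⟨Pi.single 0 c, 1, one_mem _, by rw [row0_single, mul_one]; simp [g0]⟩
      · exact ⟨0, _, Subgroup.subset_closure (Or.inl ⟨i, c, hi, rfl⟩), by rw [row0_zero, one_mul]⟩
    · rcases eq_or_ne i 0 with rfl | hi
      · exact ⟨Pi.single j t, 1, one_mem _, by rw [row0_single, mul_one, g0, if_neg hij.symm]⟩
      rcases eq_or_ne j 0 with rfl | hj
      · exact ⟨Pi.single i t, 1, one_mem _, by rw [row0_single, mul_one, g0, if_neg hi, S.s_symm hij]⟩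
      · exact ⟨0, _, Subgroup.subset_closure (Or.inr ⟨i, j, t, hi, hj, hij, rfl⟩), by rw [row0_zero, one_mul]⟩
  | one => exact ⟨0, 1, one_mem _, by rw [row0_zero, one_mul]⟩
  | mul g h _ _ hg hh =>
    obtain ⟨f, g', hg', rfl⟩ := hg
    obtain ⟨f', h', hh', rfl⟩ := hh
    refine ⟨f + f', g' * h', mul_mem hg' hh', ?_⟩
    rw [row0_add]
    exact (S.upos_comm (S.upos'_le hg') (S.row0_mem f')).mul_mul_mul_comm _ _
  | inv g _ hg =>
    obtain ⟨f, g', hg', rfl⟩ := hg
    refine ⟨-f, g'⁻¹, inv_mem hg', ?_⟩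
    have e : (S.row0 f)⁻¹ = S.row0 (-f) :=
      inv_eq_of_mul_eq_one_right (by rw [← row0_add, add_neg_cancel, row0_zero])
    rw [_root_.mul_inv_rev, e]
    exact (S.upos_comm (inv_mem (S.upos'_le hg')) (S.row0_mem (-f))).eq

/-- The values of the basic elements lie among the upper unitriangular symmetric matrices. -/
theorem exists_π_upper {P : Fin (k + 3) → Prop} {g : G} (hg : g ∈ Subgroup.closure (S.basics P)) :
    ∃ M : Matrix (Fin (k + 3)) (Fin (k + 3)) F,
      (S.π g).1 = upperM M ∧ Mᵀ = M ∧ (¬ P 0 → ∀ a, M a 0 = 0) := by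
  induction hg using Subgroup.closure_induction with
  | mem g hg =>
    rcases hg with ⟨i, c, hi, rfl⟩ | ⟨i, j, t, hi, hj, hij, rfl⟩
    · exact ⟨_, S.π_long_upper i c, transpose_single i i c, fun h0 a => by
        simp [single_apply, show i ≠ 0 from fun e => h0 (e ▸ hi)]⟩
    · exact ⟨_, S.π_s hij t, by
        rw [transpose_neg, transpose_add, transpose_single, transpose_single]
        exact congrArg Neg.neg (add_comm _ _),
        fun h0 a => by
        simp [single_apply, show i ≠ 0 from fun e => h0 (e ▸ hi), show j ≠ 0 from fun e => h0 (e ▸ hj)]⟩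
  | one => exact ⟨0, by rw [map_one, upperM, fromBlocks_one]; rfl, transpose_zero, fun _ _ => rfl⟩
  | mul g h _ _ hg hh =>
    obtain ⟨M, hM, hMs, hM0⟩ := hg
    obtain ⟨N, hN, hNs, hN0⟩ := hh
    refine ⟨N + M, ?_, by rw [transpose_add, hMs, hNs], fun h0 a => by simp [hM0 h0 a, hN0 h0 a]⟩
    rw [map_mul, Submonoid.coe_mul, hM, hN, upperM_mul]
  | inv g _ hg =>
    obtain ⟨M, hM, hMs, hM0⟩ := hg
    refine ⟨-M, ?_, by rw [transpose_neg, hMs], fun h0 a => by simp [hM0 h0 a]⟩
    rw [map_inv, SymplecticGroup.coe_inv']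
    refine Matrix.inv_eq_right_inv ?_
    rw [hM, upperM_mul, neg_add_cancel, upperM, fromBlocks_one]

/-- The value of a product in row `0`, by its first column. -/
theorem π_row0 (f : Fin (k + 3) → F) : ∃ M : Matrix (Fin (k + 3)) (Fin (k + 3)) F,
    (S.π (S.row0 f)).1 = upperM M ∧ Mᵀ = M ∧ ∀ a, M a 0 = if a = 0 then f 0 else -f a := by
  obtain ⟨M, hM, hMs, -⟩ := S.exists_π_upper (P := fun _ => True) (S.row0_mem f)
  refine ⟨M, hM, hMs, ?_⟩
  let T : Fin (k + 3) → Matrix (Fin (k + 3)) (Fin (k + 3)) F := fun j =>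
    if j = 0 then single 0 0 (f j) else -(single 0 j (f j) + single j 0 (f j))
  have hprod : ∀ L : List (Fin (k + 3)), (S.π (L.map fun j => S.g0 j (f j)).prod).1 = upperM ((L.map T).sum) := by
    intro L
    induction L with
    | nil => rw [List.map_nil, List.prod_nil, map_one, List.map_nil, List.sum_nil, upperM, fromBlocks_one]; rfl
    | cons a L ih =>
      rw [List.map_cons, List.prod_cons, map_mul, Submonoid.coe_mul, ih]
      have ha : (S.π (S.g0 a (f a))).1 = upperM (T a) := by
        by_cases h : a = 0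
        · simp only [g0, T, if_pos h]; rw [π_long_upper]
        · simp only [g0, T, if_neg h]; exact S.π_s (Ne.symm h) _
      rw [ha, upperM_mul, List.map_cons, List.sum_cons]
      exact congrArg upperM (add_comm _ _)
  rw [row0, hprod] at hM
  have e : ((List.finRange (k + 3)).map T).sum = M := congrArg toBlocks₁₂ hM
  intro a
  rw [← e, ← Fin.sum_univ_def, Matrix.sum_apply]
  rcases eq_or_ne a 0 with rfl | ha0
  · rw [Finset.sum_eq_single 0 (fun j _ hj => by simp [T, hj]) (by simp)]
    simp [T]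
  · rw [Finset.sum_eq_single a (fun j _ hj => by
      rcases eq_or_ne j 0 with rfl | hj0
      · simp [T, ha0.symm]
      · simp [T, hj0, hj, ha0.symm]) (by simp)]
    simp [T, ha0, ha0.symm]

theorem mem_upos'_of_col {g : G} (hg : g ∈ S.upos) {M : Matrix (Fin (k + 3)) (Fin (k + 3)) F}
    (hM : (S.π g).1 = upperM M) (h0 : ∀ a, M a 0 = 0) : g ∈ S.upos' := by
  obtain ⟨f, g', hg', rfl⟩ := S.exists_row0_mul hg
  obtain ⟨N, hN, -, hN0⟩ := S.exists_π_upper (P := fun i => i ≠ 0) hg'
  obtain ⟨R, hR, -, hR0⟩ := S.π_row0 f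
  rw [map_mul, Submonoid.coe_mul, hR, hN, upperM_mul] at hM
  have e : N + R = M := congrArg toBlocks₁₂ hM
  have hf : f = 0 := by
    funext a
    have ha := congrFun (congrFun e a) 0
    rw [Matrix.add_apply, hN0 (fun h => h rfl) a, zero_add, h0 a, hR0] at ha
    split at ha
    next h => subst h; exact ha
    next => exact neg_eq_zero.1 ha
  subst hf
  rw [row0_zero, one_mul]; exact hg'

end Setting

end CfsgLib.SpPres
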